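import Mathlib
import Cfsg.Prelude.Def_Perm

/-!
Counting classes of `p`-elements and of `p`-regular elements: quotients, and the groups of
index two in the one-dimensional affine group.
-/

set_option autoImplicit false

namespace Cfsg.Agent.H67.PClasses

open Function

/-- Classes of `p`-regular elements. -/
abbrev RegC (p : ℕ) (G : Type*) [Group G] : Type _ :=
  {c : ConjClasses G // ∃ g : G, ConjClasses.mk g = c ∧ ¬ p ∣ orderOf g}

/-- Classes of `p`-elements. -/
abbrev PC (p : ℕ) (G : Type*) [Group G] : Type _ :=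
  {c : ConjClasses G // ∃ g : G, ConjClasses.mk g = c ∧ ∃ k : ℕ, orderOf g = p ^ k}

/-- The number of classes of `p`-regular elements. -/
noncomputable def regN (p : ℕ) (G : Type*) [Group G] : ℕ := Nat.card (RegC p G)

/-- The number of classes of `p`-elements. -/
noncomputable def pN (p : ℕ) (G : Type*) [Group G] : ℕ := Nat.card (PC p G)

theorem natCard_lt_of_surj {α β : Type*} [Finite α] (f : α → β) (hf : Surjective f) {a b : α}
    (hne : a ≠ b) (h : f a = f b) : Nat.card β < Nat.card α := by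
  have := Finite.of_surjective f hf
  refine lt_of_le_of_ne (Nat.card_le_card_of_surjective f hf) fun hc => hne ?_
  exact ((Nat.bijective_iff_surjective_and_card f).2 ⟨hf, hc.symm⟩).1 h

theorem three_le_natCard {α : Type*} [Finite α] {a b c : α} (hab : a ≠ b) (hac : a ≠ c)
    (hbc : b ≠ c) : 3 ≤ Nat.card α := by
  have := Fintype.ofFinite α
  rw [Nat.card_eq_fintype_card]
  exact Fintype.two_lt_card_iff.2 ⟨a, b, c, hab, hac, hbc⟩

theorem mk_eq_one_iff {G : Type*} [Group G] (g : G) :
    ConjClasses.mk g = ConjClasses.mk 1 ↔ g = 1 := by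
  rw [ConjClasses.mk_eq_mk_iff_isConj, isConj_one_left]

section lift

variable {G Q : Type*} [Group G] [Group Q] {p : ℕ} [hp : Fact p.Prime]

omit hp in
theorem exists_lift_coprime (f : G →* Q) (g : G) (A B : ℕ) (hAB : A.Coprime B)
    (hg : orderOf g = A * B) (hq : orderOf (f g) ∣ B) : ∃ g', f g' = f g ∧ orderOf g' ∣ B := by
  obtain ⟨e, he1, he2⟩ := Nat.chineseRemainder hAB 0 1
  refine ⟨g ^ e, ?_, ?_⟩
  · rw [map_pow]
    exact (pow_eq_pow_iff_modEq.2 (he2.of_dvd hq)).trans (pow_one _)
  · apply orderOf_dvd_of_pow_eq_one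
    rw [← pow_mul]
    apply orderOf_dvd_iff_pow_eq_one.1
    rw [hg]
    exact Nat.mul_dvd_mul_right (Nat.modEq_zero_iff_dvd.1 he1) B

theorem exists_lift_reg [Finite G] (f : G →* Q) (hf : Surjective f) (q : Q)
    (hq : ¬ p ∣ orderOf q) : ∃ g, f g = q ∧ ¬ p ∣ orderOf g := by
  obtain ⟨g, rfl⟩ := hf q
  have hne : orderOf g ≠ 0 := (orderOf_pos g).ne'
  set a := (orderOf g).factorization p
  have h1 : orderOf g = p ^ a * (orderOf g / p ^ a) :=
    (Nat.ordProj_mul_ordCompl_eq_self _ p).symm
  have hc : (p ^ a).Coprime (orderOf g / p ^ a) := (Nat.coprime_ordCompl hp.out hne).pow_left a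
  have hd : orderOf (f g) ∣ orderOf g / p ^ a :=
    Nat.Coprime.dvd_of_dvd_mul_left (((hp.out.coprime_iff_not_dvd.2 hq).symm).pow_right a)
      (by rw [← h1]; exact orderOf_map_dvd f g)
  obtain ⟨g', e, hd'⟩ := exists_lift_coprime f g _ _ hc h1 hd
  exact ⟨g', e, fun h => Nat.not_dvd_ordCompl hp.out hne (h.trans hd')⟩

theorem exists_lift_p [Finite G] (f : G →* Q) (hf : Surjective f) (q : Q) {k : ℕ}
    (hq : orderOf q = p ^ k) : ∃ g, f g = q ∧ ∃ j, orderOf g = p ^ j := by
  obtain ⟨g, rfl⟩ := hf q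
  have hne : orderOf g ≠ 0 := (orderOf_pos g).ne'
  set a := (orderOf g).factorization p
  have h1 : orderOf g = (orderOf g / p ^ a) * p ^ a := by
    rw [mul_comm]; exact (Nat.ordProj_mul_ordCompl_eq_self _ p).symm
  have hc : (orderOf g / p ^ a).Coprime (p ^ a) :=
    ((Nat.coprime_ordCompl hp.out hne).pow_left a).symm
  have hd : orderOf (f g) ∣ p ^ a := by
    rw [hq]
    refine Nat.Coprime.dvd_of_dvd_mul_left ((Nat.coprime_ordCompl hp.out hne).pow_left k) ?_
    rw [← h1, ← hq]
    exact orderOf_map_dvd f g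
  obtain ⟨g', e, hd'⟩ := exists_lift_coprime f g _ _ hc h1 hd
  obtain ⟨j, -, hj⟩ := (Nat.dvd_prime_pow hp.out).1 hd'
  exact ⟨g', e, j, hj⟩

/-- The map of classes of regular elements. -/
def regMap (f : G →* Q) (c : RegC p G) : RegC p Q :=
  ⟨ConjClasses.map f c.1, by
    obtain ⟨g, hg, hg'⟩ := c.2
    exact ⟨f g, by rw [← hg]; rfl, fun h => hg' (h.trans (orderOf_map_dvd f g))⟩⟩

/-- The map of classes of `p`-elements. -/
def pMap (f : G →* Q) (c : PC p G) : PC p Q :=
  ⟨ConjClasses.map f c.1, by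
    obtain ⟨g, hg, k, hk⟩ := c.2
    obtain ⟨j, -, hj⟩ := (Nat.dvd_prime_pow hp.out).1 (hk ▸ orderOf_map_dvd f g)
    exact ⟨f g, by rw [← hg]; rfl, j, hj⟩⟩

theorem regMap_surjective [Finite G] (f : G →* Q) (hf : Surjective f) :
    Surjective (regMap (p := p) f) := by
  rintro ⟨c, q, rfl, hq⟩
  obtain ⟨g, rfl, hg⟩ := exists_lift_reg f hf q hq
  exact ⟨⟨ConjClasses.mk g, g, rfl, hg⟩, rfl⟩

theorem pMap_surjective [Finite G] (f : G →* Q) (hf : Surjective f) :
    Surjective (pMap (p := p) f) := by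
  rintro ⟨c, q, rfl, k, hq⟩
  obtain ⟨g, rfl, hg⟩ := exists_lift_p f hf q hq
  exact ⟨⟨ConjClasses.mk g, g, rfl, hg⟩, rfl⟩

theorem regN_le [Finite G] (f : G →* Q) (hf : Surjective f) : regN p Q ≤ regN p G :=
  Nat.card_le_card_of_surjective _ (regMap_surjective f hf)

theorem pN_le [Finite G] (f : G →* Q) (hf : Surjective f) : pN p Q ≤ pN p G :=
  Nat.card_le_card_of_surjective _ (pMap_surjective f hf)

theorem regN_lt [Finite G] (f : G →* Q) (hf : Surjective f) {m : G} (hm : m ≠ 1) (hfm : f m = 1)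
    (hreg : ¬ p ∣ orderOf m) : regN p Q < regN p G := by
  refine natCard_lt_of_surj _ (regMap_surjective f hf)
    (a := ⟨ConjClasses.mk m, m, rfl, hreg⟩)
    (b := ⟨ConjClasses.mk 1, 1, rfl, by simpa using hp.out.one_lt.ne'⟩) ?_ ?_
  · rw [Ne, Subtype.ext_iff, mk_eq_one_iff]
    exact hm
  · apply Subtype.ext
    show ConjClasses.mk (f m) = ConjClasses.mk (f 1)
    rw [hfm, map_one]

theorem pN_lt [Finite G] (f : G →* Q) (hf : Surjective f) {m : G} (hm : m ≠ 1) (hfm : f m = 1)
    {k : ℕ} (hk : orderOf m = p ^ k) : pN p Q < pN p G := by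
  refine natCard_lt_of_surj _ (pMap_surjective f hf)
    (a := ⟨ConjClasses.mk m, m, rfl, k, hk⟩)
    (b := ⟨ConjClasses.mk 1, 1, rfl, 0, by simp⟩) ?_ ?_
  · rw [Ne, Subtype.ext_iff, mk_eq_one_iff]
    exact hm
  · apply Subtype.ext
    show ConjClasses.mk (f m) = ConjClasses.mk (f 1)
    rw [hfm, map_one]

end lift

section small

variable {G : Type*} [Group G] [Finite G] {p : ℕ} [hp : Fact p.Prime]

omit hp in
/-- With exactly three classes of `p`-elements, `p` divides the order. -/
theorem dvd_card_of_two_le (h : 2 ≤ pN p G) : p ∣ Nat.card G := by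
  by_contra hd
  have : ∀ c : PC p G, c.1 = ConjClasses.mk 1 := by
    rintro ⟨c, g, rfl, k, hk⟩
    rw [mk_eq_one_iff]
    rcases Nat.eq_zero_or_pos k with rfl | hk0
    · simpa using hk
    · exact absurd (((dvd_pow_self p hk0.ne').trans hk.symm.dvd).trans (orderOf_dvd_natCard g)) hd
  have hs : Subsingleton (PC p G) := ⟨fun a b => Subtype.ext ((this a).trans (this b).symm)⟩
  have := Finite.card_le_one_iff_subsingleton.2 hs
  unfold pN at h
  omega

/-- A group of order `p (p - 1) / 2` has at least three classes of `p`-elements. -/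
theorem three_le_pN (hG : 2 * Nat.card G = p * (p - 1)) (hd : p ∣ Nat.card G) : 3 ≤ pN p G := by
  obtain ⟨x, hx⟩ := exists_prime_orderOf_dvd_card' p hd
  have hx1 : x ≠ 1 := fun h => hp.out.one_lt.ne (by rw [← hx, h, orderOf_one])
  by_contra hlt
  have hconj : ∀ y : {y : Subgroup.zpowers x // y ≠ 1}, IsConj x (y.1 : G) := by
    rintro ⟨y, hy⟩
    by_contra hne
    have hy1 : (y : G) ≠ 1 := fun h => hy (OneMemClass.coe_eq_one.1 h)
    have hyo : ∃ k, orderOf (y : G) = p ^ k := by
      have hd' : orderOf (y : G) ∣ p := by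
        rw [← hx, ← Nat.card_zpowers x]
        rw [Subgroup.orderOf_coe]
        exact orderOf_dvd_natCard y
      rcases (Nat.dvd_prime hp.out).1 hd' with h | h
      · exact ⟨0, by simpa using h⟩
      · exact ⟨1, by simpa using h⟩
    refine hlt (three_le_natCard (a := (⟨ConjClasses.mk 1, 1, rfl, 0, by simp⟩ : PC p G))
      (b := ⟨ConjClasses.mk x, x, rfl, 1, by simpa using hx⟩)
      (c := ⟨ConjClasses.mk (y : G), y, rfl, hyo⟩) ?_ ?_ ?_)
    · rw [Ne, Subtype.ext_iff, eq_comm, mk_eq_one_iff]; exact hx1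
    · rw [Ne, Subtype.ext_iff, eq_comm, mk_eq_one_iff]; exact hy1
    · rw [Ne, Subtype.ext_iff, ConjClasses.mk_eq_mk_iff_isConj]; exact hne
  choose c hc using fun y => isConj_iff.1 (hconj y)
  have hinj : Injective (fun q : {y : Subgroup.zpowers x // y ≠ 1} × Subgroup.zpowers x =>
      c q.1 * (q.2 : G)) := by
    rintro ⟨y, z⟩ ⟨y', z'⟩ h
    simp only at h
    have hcomm : ∀ w : Subgroup.zpowers x, (w : G) * x * (w : G)⁻¹ = x := by
      rintro ⟨w, n, rfl⟩
      simp only
      rw [← zpow_add_one, ← zpow_neg, ← zpow_add]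
      simp
    have hyy : y = y' := by
      apply Subtype.ext
      apply Subtype.ext
      rw [← hc y, ← hc y']
      calc c y * x * (c y)⁻¹ = (c y * (z : G)) * x * (c y * (z : G))⁻¹ := by
            conv_lhs => rw [← hcomm z]
            group
        _ = (c y' * (z' : G)) * x * (c y' * (z' : G))⁻¹ := by rw [h]
        _ = c y' * x * (c y')⁻¹ := by
            conv_rhs => rw [← hcomm z']
            group
    subst hyy
    exact Prod.ext rfl (Subtype.ext (mul_left_cancel h))
  have hle := Nat.card_le_card_of_injective _ hinj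
  have := Fintype.ofFinite (Subgroup.zpowers x)
  have hT : Nat.card {y : Subgroup.zpowers x // y ≠ 1} = p - 1 := by
    classical
    rw [Nat.card_eq_fintype_card, Fintype.card_subtype_compl, Fintype.card_subtype_eq,
      ← Nat.card_eq_fintype_card, Nat.card_zpowers, hx]
  rw [Nat.card_prod, hT, Nat.card_zpowers, hx] at hle
  have h2 : 0 < (p - 1) * p := Nat.mul_pos (by have := hp.out.two_le; omega) hp.out.pos
  rw [mul_comm p (p - 1)] at hG
  omega

end small

section affine

variable {G : Type*} [Group G] [Finite G] {p : ℕ} [hp : Fact p.Prime]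

theorem affine_apply {R : Type*} [CommRing R] (σ : ↥(Cfsg.affineGroup R)) (x : R) :
    (σ : Equiv.Perm R) x = ((σ : Equiv.Perm R) 1 - (σ : Equiv.Perm R) 0) * x + (σ : Equiv.Perm R) 0 := by
  obtain ⟨a, b, h⟩ := σ.2
  rw [h, h, h]
  ring

/-- A subgroup of index two of the affine group of the field of order `p` has `(p - 1) / 2`
classes of `p`-regular elements. -/
theorem two_mul_regN_of_affine (hcard : 2 * Nat.card G = p * (p - 1)) (hd : p ∣ Nat.card G)
    (f : G →* ↥(Cfsg.affineGroup (ZMod p))) (hf : Injective f) : 2 * regN p G = p - 1 := by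
  let m : G →* ZMod p :=
    { toFun := fun g => (f g).1 1 - (f g).1 0
      map_one' := by simp
      map_mul' := fun g h => by
        simp only [map_mul, Subgroup.coe_mul, Equiv.Perm.coe_mul, Function.comp_apply]
        rw [affine_apply (f g) ((f h).1 1), affine_apply (f g) ((f h).1 0)]
        ring }
  let a : G →* (ZMod p)ˣ := m.toHomUnits
  have hker_apply : ∀ t, a t = 1 → ∀ x, (f t).1 x = x + (f t).1 0 := fun t ht x => by
    have h1 : (f t).1 1 - (f t).1 0 = 1 := congrArg Units.val ht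
    rw [affine_apply (f t) x, h1, one_mul]
  have hkinj : Injective (fun t : a.ker => (f t.1).1 0) := fun s t h => by
    refine Subtype.ext (hf (Subtype.ext (Equiv.ext fun x => ?_)))
    rw [hker_apply s.1 (MonoidHom.mem_ker.1 s.2) x, hker_apply t.1 (MonoidHom.mem_ker.1 t.2) x]
    simp only at h
    rw [h]
  have hkle : Nat.card a.ker ≤ p := by
    simpa [Nat.card_zmod] using Nat.card_le_card_of_injective _ hkinj
  have hunits : Nat.card (ZMod p)ˣ = p - 1 := by
    rw [Nat.card_eq_fintype_card, ZMod.card_units]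
  have hrange : Nat.card a.range ∣ p - 1 := hunits ▸ Subgroup.card_subgroup_dvd_card _
  have hp1 : 0 < p - 1 := by have := hp.out.two_le; omega
  have hnr : ¬ p ∣ Nat.card a.range := fun h => by
    have := Nat.le_of_dvd hp1 (h.trans hrange)
    omega
  have hmul : Nat.card a.range * Nat.card a.ker = Nat.card G := by
    rw [← Subgroup.index_ker, mul_comm, Subgroup.card_mul_index]
  have hker : Nat.card a.ker = p := by
    refine le_antisymm hkle (Nat.le_of_dvd Nat.card_pos ?_)
    exact ((hp.out.dvd_mul.1 (hmul ▸ hd)).resolve_left hnr)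
  have hrange2 : 2 * Nat.card a.range = p - 1 := by
    rw [← hmul, hker, ← mul_assoc, mul_comm p] at hcard
    exact Nat.eq_of_mul_eq_mul_right hp.out.pos hcard
  have hkreg : ∀ t, a t = 1 → ¬ p ∣ orderOf t → t = 1 := fun t ht hr => by
    have h : orderOf (⟨t, MonoidHom.mem_ker.2 ht⟩ : a.ker) ∣ p :=
      (orderOf_dvd_natCard _).trans hker.dvd
    rw [Subgroup.orderOf_mk] at h
    rcases (Nat.dvd_prime hp.out).1 h with h' | h'
    · exact orderOf_eq_one_iff.1 h'
    · exact absurd h'.symm.dvd hr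
  have hconj : ∀ g g', a g = a g' → a g ≠ 1 → IsConj g g' := by
    intro g g' hgg' hg
    let ψ : a.ker → a.ker := fun t => ⟨t.1 * g * t.1⁻¹ * g⁻¹, by
      rw [MonoidHom.mem_ker, map_mul, map_mul, map_mul, MonoidHom.mem_ker.1 t.2, map_inv,
        MonoidHom.mem_ker.1 t.2]
      simp⟩
    have hψ : Injective ψ := fun s t h => by
      have h' : s.1 * g * s.1⁻¹ = t.1 * g * t.1⁻¹ := mul_right_cancel (congrArg Subtype.val h)
      set u := t.1⁻¹ * s.1 with hu
      have hcom : u * g = g * u := by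
        rw [hu]
        calc t.1⁻¹ * s.1 * g = t.1⁻¹ * (s.1 * g * s.1⁻¹) * s.1 := by group
          _ = t.1⁻¹ * (t.1 * g * t.1⁻¹) * s.1 := by rw [h']
          _ = g * (t.1⁻¹ * s.1) := by group
      have hu1 : a u = 1 := MonoidHom.mem_ker.1 (mul_mem (inv_mem t.2) s.2)
      have he := congrArg (fun w : G => (f w).1 0) hcom
      simp only [map_mul, Subgroup.coe_mul, Equiv.Perm.coe_mul, Function.comp_apply] at he
      rw [hker_apply u hu1, affine_apply (f g) ((f u).1 0)] at he
      have hm : (f g).1 1 - (f g).1 0 ≠ 1 := fun h => hg (Units.ext h)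
      have hz : ((f g).1 1 - (f g).1 0 - 1) * (f u).1 0 = 0 := by linear_combination -he
      have hb : (f u).1 0 = 0 := (mul_eq_zero.1 hz).resolve_left (sub_ne_zero.2 hm)
      have hu' : u = 1 := by
        refine hf ?_
        rw [map_one]
        exact Subtype.ext (Equiv.ext fun x => by rw [hker_apply u hu1, hb, add_zero]; rfl)
      exact Subtype.ext (inv_mul_eq_one.1 hu').symm
    obtain ⟨t, ht⟩ := (Finite.injective_iff_surjective.1 hψ)
      ⟨g' * g⁻¹, by rw [MonoidHom.mem_ker, map_mul, map_inv, hgg', mul_inv_cancel]⟩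
    exact isConj_iff.2 ⟨t.1, mul_right_cancel (congrArg Subtype.val ht)⟩
  let F : RegC p G → a.range := fun c =>
    Quotient.liftOn c.1 (fun g => (⟨a g, g, rfl⟩ : a.range)) fun g g' h => by
      obtain ⟨k, hk⟩ := isConj_iff.1 h
      apply Subtype.ext
      show a g = a g'
      rw [← hk, map_mul, map_mul, map_inv, mul_comm (a k), mul_assoc, mul_inv_cancel, mul_one]
  have hF : Bijective F := by
    constructor
    · rintro ⟨c, g, rfl, hg⟩ ⟨c', g', rfl, hg'⟩ h
      have h' : a g = a g' := congrArg Subtype.val h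
      apply Subtype.ext
      rw [ConjClasses.mk_eq_mk_iff_isConj]
      by_cases h1 : a g = 1
      · rw [hkreg g h1 hg, hkreg g' (h' ▸ h1) hg']
      · exact hconj g g' h' h1
    · intro u
      have hu : ¬ p ∣ orderOf u := fun h => hnr (h.trans (orderOf_dvd_natCard u))
      obtain ⟨g, hg, hreg⟩ := exists_lift_reg a.rangeRestrict a.rangeRestrict_surjective u hu
      exact ⟨⟨ConjClasses.mk g, g, rfl, hreg⟩, hg⟩
  rw [regN, Nat.card_eq_of_bijective F hF, hrange2]

end affine

end Cfsg.Agent.H67.PClasses
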