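import Mathlib
import Cfsg.Agent.H67.ChevFrob

set_option autoImplicit false

/-!
# The highest root subgroup of a Chevalley group
-/

namespace Cfsg.Agent.H67.Chev

open Cfsg.Lie Cfsg.Agent.H46 Cfsg.Agent.H65
open scoped Matrix MatrixGroups

variable {D : ChevalleyDatum} (G : Good D) {F : Type*} [Field F]

include G in
/-- Distinct positive roots give distinct root elements. -/
theorem xg_eq_xg {r s : ℕ} (hr : D.IsPosRoot r) (hs : D.IsPosRoot s) {a b : F} (ha : a ≠ 0)
    (h : G.xg r a = G.xg s b) : r = s ∧ a = b := by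
  have key : ∀ (k : ℕ), D.IsPosRoot k → ∀ c : F,
      G.ordProd (D.nroots / 2) (Function.update (fun _ => (0 : F)) k c) = G.xg k c := by
    intro k hk c
    obtain ⟨t, ⟨ht0, ht⟩, -⟩ := G.posSub_normal_form G.posClosed_univ
      (G.xg_mem_posSub (F := F) (S := Set.univ) hk trivial c)
    have hzero : ∀ k', G.ordProd k' (fun _ => (0 : F)) = 1 := fun k' => by
      refine List.prod_eq_one fun x hx => ?_
      obtain ⟨i, -, rfl⟩ := List.mem_map.1 hx
      exact G.xg_zero i
    have hind : ∀ m, m ≤ k → D.nroots / 2 ≤ m →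
        G.ordProd m (Function.update (fun _ => (0 : F)) k c) = G.xg k c := by
      intro m
      induction m using Nat.strongRecMeasure (f := fun m => k - m) with
      | _ m ih =>
        intro hmk hm
        rw [G.ordProd_succ (lt_of_le_of_lt hmk hk.1)]
        rcases eq_or_lt_of_le hmk with rfl | hlt
        · rw [Function.update_self, G.ordProd_congr (k := m + 1) (t' := fun _ => (0 : F))
            fun i hi _ => Function.update_of_ne (by omega) _ _, hzero, mul_one]
        · rw [Function.update_of_ne (Nat.ne_of_lt hlt), G.xg_zero, one_mul, ih (m + 1) (by omega) hlt (by omega)]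
    exact hind _ (G.isPosRoot_iff.1 hk).1 le_rfl
  have h2 := G.ordProd_injective _ le_rfl _ _ ((key r hr a).trans (h.trans (key s hs b).symm)) r
    (G.isPosRoot_iff.1 hr).1 hr.1
  rw [Function.update_self] at h2
  by_cases e : r = s
  · subst e
    rw [Function.update_self] at h2
    exact ⟨rfl, h2⟩
  · rw [Function.update_of_ne e] at h2
    exact absurd h2 ha

include G in
/-- Root elements without commutator terms commute. -/
theorem xg_commute {r s : ℕ} (hr : r < D.nroots) (hs : s < D.nroots)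
    (h : s = r ∨ (s ≠ D.neg r ∧ D.commTerms r s = [])) (a b : F) :
    Commute (G.xg r a) (G.xg s b) := by
  by_cases e : s = r
  · subst e
    rw [Commute, SemiconjBy, G.xg_add, G.xg_add, add_comm]
  obtain ⟨hne, hc⟩ := h.resolve_left e
  obtain ⟨w, hw, he⟩ := G.exists_comm hr hs e hne a b
  have hw1 : w = 1 := by
    rw [← Subgroup.mem_bot]
    refine (Subgroup.closure_le _).2 ?_ hw
    rintro g ⟨c, hc', -⟩
    rw [hc] at hc'
    simp at hc'
  rw [hw1, mul_one] at he
  exact he.symm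

include G in
/-- `U` centralises the highest root element. -/
theorem pos_commute_highest {h : ℕ} (hh : h < D.nroots)
    (hcomm : ∀ r : Fin D.nroots, D.IsPosRoot r →
      (r : ℕ) = h ∨ ((r : ℕ) ≠ D.neg h ∧ D.commTerms h r = []))
    {u : GL D.Idx F} (hu : u ∈ D.posUnipotent F) (a : F) : Commute u (G.xg h a) := by
  induction hu using Subgroup.closure_induction with
  | mem y hy =>
    obtain ⟨r, c, hr, hy⟩ := hy
    rw [G.eq_xg hy]
    exact (xg_commute G hh hr.1 (hcomm ⟨r, hr.1⟩ hr) a c).symm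
  | one => exact Commute.one_left _
  | mul x y _ _ ix iy => exact ix.mul_left iy
  | inv x _ ix => exact ix.inv_left

section Centralizer

variable (L : List ℕ) (j : Fin D.rank)

/-- The candidate centraliser. -/
def rootCent (F : Type*) [Field F] (L : List ℕ) : Subgroup (GL D.Idx F) :=
  D.posUnipotent F ⊔ Subgroup.closure {g : GL D.Idx F | ∃ s ∈ L, ∃ c : F, (g : Matrix D.Idx D.Idx F) = D.x F s c}

include G in
/-- Root elements of the Levi part lie in the candidate. -/
theorem xg_simple_mem (hlist : ∀ k : Fin D.rank, k ≠ j → D.neg (D.simple k) ∈ L) {k : Fin D.rank}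
    (hk : k ≠ j) (a : F) : G.ng (D.simple k) a ∈ rootCent (D := D) F L := by
  have h1 : ∀ c, G.xg (D.simple k) c ∈ rootCent (D := D) F L := fun c =>
    Subgroup.mem_sup_left (G.xg_mem_pos (G.isPosRoot_simple k.2) c)
  have h2 : G.xg (D.neg (D.simple k)) (-a⁻¹) ∈ rootCent (D := D) F L :=
    Subgroup.mem_sup_right (Subgroup.subset_closure ⟨_, hlist k hk, _, G.coe_xg _ _⟩)
  exact mul_mem (mul_mem (h1 a) h2) (h1 a)

include G in
theorem stabilizer_mem (hh : 0 < D.nroots)
    (hcart : ∀ k : Fin D.rank, G.cartForm k (G.rc (D.nroots - 1)) = if k = j then 1 else 0)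
    (hlist : ∀ k : Fin D.rank, k ≠ j → D.neg (D.simple k) ∈ L) :
    ∀ (N : ℕ) (n : GL D.Idx F), n ∈ D.monomialSubgroup F →
      ((Finset.univ.filter fun s : Fin D.nroots => D.IsPosRoot s ∧ D.IsNegRoot (G.perm n s)).card = N) →
      G.perm n ⟨D.nroots - 1, Nat.sub_lt hh Nat.one_pos⟩ = ⟨D.nroots - 1, Nat.sub_lt hh Nat.one_pos⟩ →
      ∃ m ∈ rootCent (D := D) F L, ∃ d ∈ D.diagonalSubgroup F, n = m * d := by
  classical
  intro N
  induction N using Nat.strong_induction_on with
  | _ N ih =>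
    intro n hn hN hfix
    set hF : Fin D.nroots := ⟨D.nroots - 1, Nat.sub_lt hh Nat.one_pos⟩
    by_cases hall : ∀ i, D.IsPosRoot (G.perm n (G.simpleF i))
    · exact ⟨1, one_mem _, n, G.mem_diagonal_of_pos hn hall, (one_mul n).symm⟩
    push Not at hall
    obtain ⟨i, hi⟩ := hall
    have hneg := (G.isPosRoot_or_isNegRoot (G.perm n (G.simpleF i)).2).resolve_left hi
    have hrefl : D.cartan i (D.nroots - 1) = if i = j then 1 else 0 := by
      rw [G.cartan_eq hF.2 i.2, hcart]
    have hij : i ≠ j := by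
      rintro rfl
      rw [if_pos rfl] at hrefl
      obtain ⟨-, -, Lm, hLm⟩ := G.monRel_perm hn
      set r : Fin D.nroots := G.sPerm i hF
      have hrc : G.rc r = G.rc hF - G.rc (G.simpleF i) := by
        show G.rc (D.reflectRoot i (D.nroots - 1)) = G.rc (D.nroots - 1) - G.rc (D.simple i)
        rw [G.rc_reflect i.2 hF.2, hrefl, one_smul, G.rc_simple i.2]
      have hrc' : G.rc (G.perm n r) = (1 : ℤ) • G.rc hF + (-1 : ℤ) • G.rc (G.perm n (G.simpleF i)) := by
        rw [hLm, hrc, map_sub, ← hLm, ← hLm, hfix, one_smul, neg_one_smul, sub_eq_add_neg]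
      have h1 := G.key_of_rc _ _ hrc'
      have h2 := G.key_neg_lt hneg
      have h3 : ((G.perm n r : Fin D.nroots) : ℕ) ≤ D.nroots - 1 := by have := (G.perm n r).2; omega
      rcases eq_or_lt_of_le h3 with e | e
      · have : G.key (G.perm n r) = G.key (D.nroots - 1) := by rw [e]
        change G.key (G.perm n r) = 1 * G.key (D.nroots - 1) + -1 * _ at h1
        omega
      · have := G.key_lt_key e hF.2
        change G.key (G.perm n r) = 1 * G.key (D.nroots - 1) + -1 * _ at h1
        omega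
    rw [if_neg hij] at hrefl
    have hs0 : G.sPerm i hF = hF := Fin.ext (G.rc_injective (G.sPerm i hF).2 hF.2 (by
      show G.rc (D.reflectRoot i (D.nroots - 1)) = _
      rw [G.rc_reflect i.2 hF.2, hrefl, zero_smul, sub_zero]))
    set s := G.ng (D.simple i) (1 : F)
    have hsN : s ∈ D.monomialSubgroup F := G.ng_mem_monomial (G.simple_lt i.2)
    have hσinv : (G.sPerm i)⁻¹ = G.sPerm i := inv_eq_of_mul_eq_one_right (G.sPerm_mul_self i)
    have hperm : G.perm (n * s⁻¹) = G.perm n * G.sPerm i := by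
      rw [G.perm_mul hn (inv_mem hsN), G.perm_inv hsN, G.perm_ng_simple, hσinv]
    have hσσ : ∀ x, G.sPerm i (G.sPerm i x) = x := fun x => Equiv.congr_fun (G.sPerm_mul_self i) x
    set S := Finset.univ.filter fun s : Fin D.nroots => D.IsPosRoot s ∧ D.IsNegRoot (G.perm n s)
    have hmemS : G.simpleF i ∈ S := Finset.mem_filter.2 ⟨Finset.mem_univ _, G.isPosRoot_simple i.2, hneg⟩
    have hlt : (Finset.univ.filter fun x : Fin D.nroots =>
        D.IsPosRoot x ∧ D.IsNegRoot (G.perm (n * s⁻¹) x)).card < N := by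
      refine lt_of_le_of_lt (Finset.card_le_card (t := (S.erase (G.simpleF i)).image (G.sPerm i)) ?_) ?_
      · intro x hx
        obtain ⟨-, hx1, hx2⟩ := Finset.mem_filter.1 hx
        rw [hperm, Equiv.Perm.mul_apply] at hx2
        refine Finset.mem_image.2 ⟨G.sPerm i x, Finset.mem_erase.2 ⟨fun e => ?_, Finset.mem_filter.2
          ⟨Finset.mem_univ _, ?_, hx2⟩⟩, hσσ x⟩
        · have : x = G.negF (G.simpleF i) := by rw [← G.sPerm_simple, ← e, hσσ]
          exact G.not_isNegRoot hx1 (this ▸ G.isNegRoot_neg (G.isPosRoot_simple i.2))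
        · rw [G.sPerm_apply]
          refine G.isPosRoot_reflect i.2 hx1 fun e => ?_
          have hxi : x = G.simpleF i := Fin.ext e
          rw [hxi, G.sPerm_simple, G.perm_negF hn] at hx2
          exact G.not_isNegRoot (G.isPosRoot_neg hneg) hx2
      · rw [Finset.card_image_of_injective _ (G.sPerm i).injective, Finset.card_erase_of_mem hmemS, ← hN]
        have : 0 < S.card := Finset.card_pos.2 ⟨_, hmemS⟩
        show S.card - 1 < S.card
        omega
    obtain ⟨m, hm, d, hd, e⟩ := ih _ hlt (n * s⁻¹) (mul_mem hn (inv_mem hsN)) rfl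
      (by rw [hperm, Equiv.Perm.mul_apply, hs0, hfix])
    refine ⟨m * s, mul_mem hm (xg_simple_mem G L j hlist hij 1), s⁻¹ * d * s, ?_, ?_⟩
    · simpa using G.diagonal_normalized (inv_mem hsN) hd
    · rw [show n = n * s⁻¹ * s by group, e]; group

include G in
/-- The centraliser of a highest root element. -/
theorem highest_centralizer (hh : 0 < D.nroots) (hpos : D.IsPosRoot (D.nroots - 1))
    (hcart : ∀ k : Fin D.rank, G.cartForm k (G.rc (D.nroots - 1)) = if k = j then 1 else 0)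
    (hlist : ∀ k : Fin D.rank, k ≠ j → D.neg (D.simple k) ∈ L) (hL : ∀ s ∈ L, s < D.nroots)
    (hcomm : ∀ r : Fin D.nroots, (D.IsPosRoot r ∨ (r : ℕ) ∈ L) →
      (r : ℕ) = D.nroots - 1 ∨ ((r : ℕ) ≠ D.neg (D.nroots - 1) ∧ D.commTerms (D.nroots - 1) r = []))
    (t : GL D.Idx F) (ht : (t : Matrix D.Idx D.Idx F) = D.x F (D.nroots - 1) 1) :
    D.group F ⊓ Subgroup.centralizer {t} = rootCent (D := D) F L := by
  classical
  obtain rfl : t = G.xg (D.nroots - 1) 1 := G.eq_xg ht
  set h := D.nroots - 1 with hdef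
  have hhn : h < D.nroots := hpos.1
  have hU : ∀ u ∈ D.posUnipotent F, Commute u (G.xg h (1 : F)) := fun u hu =>
    pos_commute_highest G hhn (fun r hr => hcomm r (Or.inl hr)) hu 1
  have hMle : rootCent (D := D) F L ≤ D.group F := by
    refine sup_le G.posUnipotent_le_group ((Subgroup.closure_le _).2 ?_)
    rintro g ⟨s, -, c, hg⟩
    rw [G.eq_xg hg]
    exact G.xg_mem_group s c
  have hMcomm : ∀ m ∈ rootCent (D := D) F L, Commute m (G.xg h (1 : F)) := by
    intro m hm
    have : rootCent (D := D) F L ≤ Subgroup.centralizer {G.xg h (1 : F)} := by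
      refine sup_le (fun u hu => Subgroup.mem_centralizer_singleton_iff.2 (hU u hu).eq)
        ((Subgroup.closure_le _).2 ?_)
      rintro g ⟨s, hs, c, hg⟩
      rw [G.eq_xg hg]
      exact Subgroup.mem_centralizer_singleton_iff.2
        (xg_commute G hhn (hL s hs) (hcomm ⟨s, hL s hs⟩ (Or.inr hs)) 1 c).symm.eq
    exact Subgroup.mem_centralizer_singleton_iff.1 (this hm)
  refine le_antisymm ?_ (le_inf hMle fun m hm => Subgroup.mem_centralizer_singleton_iff.2 (hMcomm m hm).eq)
  rintro g ⟨hg, hgc⟩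
  have hgc' : Commute g (G.xg h (1 : F)) := Subgroup.mem_centralizer_singleton_iff.1 hgc
  obtain ⟨Lw, v, d, u, hv, hd, hu, rfl⟩ := exists_standard_form G hg
  set n : GL D.Idx F := G.nProd Lw
  have hN : n ∈ D.monomialSubgroup F := G.nProd_mem Lw
  have huU := G.posSub_le_posUnipotent _ hu
  have hvd : v * d ∈ D.borelSubgroup F := mul_mem (Subgroup.mem_sup_left hv) (Subgroup.mem_sup_right hd)
  have hvdn : Commute (v * d * n) (G.xg h (1 : F)) := by
    have := hgc'.mul_left (hU u huU).inv_left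
    rwa [mul_inv_cancel_right] at this
  have hnot : h ∉ G.invSet n := by
    intro hin
    have e : v * d * n * G.xg h 1 = G.xg h 1 * (v * d) * n * 1 := by
      rw [hvdn.eq]; group
    obtain ⟨-, h1, -⟩ := G.bruhat_unique hvd (mul_mem (G.xg_mem_borel hpos _) hvd) hN hN
      (G.xg_mem_posSub hpos hin 1) (one_mem _) e
    exact one_ne_zero ((G.xg_eq_one_iff hhn _).1 h1)
  have hwpos : D.IsPosRoot (G.perm n ⟨h, hhn⟩) :=
    (G.isPosRoot_or_isNegRoot (Fin.isLt _)).resolve_right fun e => hnot ⟨hhn, hpos, e⟩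
  obtain ⟨c, hc⟩ := G.conj_xg_eq hN (⟨h, hhn⟩ : Fin D.nroots)
  obtain ⟨z, rfl⟩ := G.mem_diagonal.1 hd
  set r : Fin D.nroots := G.perm n ⟨h, hhn⟩
  have hx : G.xg r ((G.torusVal z r : F) * c) = G.xg h (1 : F) := by
    have h1 : v * (G.torus z * (n * G.xg h 1 * n⁻¹) * (G.torus z)⁻¹) * v⁻¹ = G.xg h 1 := by
      calc _ = (v * G.torus z * n * G.xg h 1) * (v * G.torus z * n)⁻¹ := by group
        _ = (G.xg h 1 * (v * G.torus z * n)) * (v * G.torus z * n)⁻¹ := by rw [hvdn.eq]
        _ = _ := by group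
    rw [show n * G.xg h 1 * n⁻¹ = _ from hc 1, mul_one, G.torus_conj_xg z r.2] at h1
    calc G.xg r ((G.torusVal z r : F) * c)
        = v⁻¹ * (v * G.xg r ((G.torusVal z r : F) * c) * v⁻¹) * v := by group
      _ = v⁻¹ * (G.xg h 1 * v) := by rw [h1, mul_assoc]
      _ = G.xg h 1 := by rw [← (hU v hv).eq, inv_mul_cancel_left]
  obtain ⟨hrh, -⟩ := xg_eq_xg G hwpos hpos (mul_ne_zero (Units.ne_zero _) (Units.ne_zero _)) hx
  obtain ⟨m, hm, d', hd', hnm⟩ := stabilizer_mem G L j hh hcart hlist _ n hN rfl (Fin.ext hrh)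
  rw [hnm] at hvdn ⊢
  have hconj : m⁻¹ * G.torus z * m ∈ D.diagonalSubgroup F := by
    have hmN : m ∈ D.monomialSubgroup F := by
      have := mul_mem hN (inv_mem (Subgroup.mem_sup_left hd' : d' ∈ D.monomialSubgroup F))
      rwa [hnm, mul_inv_cancel_right] at this
    simpa using G.diagonal_normalized (inv_mem hmN) (G.mem_diagonal.2 ⟨z, rfl⟩)
  set e := m⁻¹ * G.torus z * m * d'
  have heH : e ∈ D.diagonalSubgroup F := mul_mem hconj hd'
  have hre : v * G.torus z * (m * d') = v * m * e := by simp only [e]; group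
  rw [hre] at hvdn ⊢
  have hec : Commute e (G.xg h (1 : F)) := by
    have := ((Subgroup.mem_centralizer_singleton_iff.2 (hMcomm _ (mul_mem (Subgroup.mem_sup_left hv) hm)).eq) :
      v * m ∈ Subgroup.centralizer {G.xg h (1 : F)})
    have h2 := mul_mem (inv_mem this) (Subgroup.mem_centralizer_singleton_iff.2 hvdn.eq :
      v * m * e ∈ Subgroup.centralizer {G.xg h (1 : F)})
    rw [inv_mul_cancel_left] at h2
    exact Subgroup.mem_centralizer_singleton_iff.1 h2
  obtain ⟨y, hy⟩ := G.mem_diagonal.1 heH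
  have hy1 : G.torusVal y h = 1 := by
    have h1 := hec.eq
    rw [hy, G.torus_mul_xg y hhn, mul_one] at h1
    exact Units.ext (G.xg_injective hhn (mul_right_cancel h1))
  have hyj : y j = 1 := by
    rw [Good.torusVal, Finset.prod_eq_single j (fun k _ hk => by rw [hcart, if_neg hk, zpow_zero])
      (by simp), hcart, if_pos rfl, zpow_one] at hy1
    exact hy1
  have heM : e ∈ rootCent (D := D) F L := by
    have : y ∈ (rootCent (D := D) F L).comap G.torus := by
      rw [← Finset.univ_prod_mulSingle y]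
      refine Subgroup.prod_mem _ fun k _ => ?_
      rw [Subgroup.mem_comap]
      by_cases hk : k = j
      · subst hk; rw [hyj, Pi.mulSingle_one, map_one]; exact one_mem _
      · rw [G.torus_mulSingle]
        exact mul_mem (xg_simple_mem G L j hlist hk _) (xg_simple_mem G L j hlist hk _)
    rw [hy]; exact this
  exact mul_mem (mul_mem (mul_mem (Subgroup.mem_sup_left hv) hm) heM) (Subgroup.mem_sup_left huU)

end Centralizer

section Pairs

variable [CharP F 2]

include G in
theorem isPGroup_rootSubgroup (r : ℕ) : IsPGroup 2 ↥(D.rootSubgroup F r) := by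
  rintro ⟨x, hx⟩
  obtain ⟨t, rfl⟩ := G.mem_rootSubgroup.1 hx
  exact ⟨1, Subtype.ext (by simp [pow_two, G.xg_add, CharTwo.add_self_eq_zero, G.xg_zero])⟩

include G in
theorem rootSubgroup_le_centralizer {r s : ℕ} (hr : r < D.nroots) (hs : s < D.nroots)
    (h : s = r ∨ (s ≠ D.neg r ∧ D.commTerms r s = [])) :
    D.rootSubgroup F s ≤ Subgroup.centralizer (D.rootSubgroup F r : Set (GL D.Idx F)) := by
  intro y hy
  obtain ⟨b, rfl⟩ := G.mem_rootSubgroup.1 hy
  refine Subgroup.mem_centralizer_iff.2 fun x hx => ?_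
  obtain ⟨a, rfl⟩ := G.mem_rootSubgroup.1 hx
  exact (xg_commute G hr hs h a b).eq

/-- The condition making two root subgroups generate a `2`-group. -/
def PairOk (D : ChevalleyDatum) (h s : ℕ) : Prop :=
  s ≠ D.neg h ∧ ∀ c ∈ D.commTerms h s, c.1 < D.nroots ∧ c.1 ≠ D.neg h ∧ c.1 ≠ D.neg s ∧
    D.commTerms h c.1 = [] ∧ D.commTerms s c.1 = [] ∧ ∀ c' ∈ D.commTerms h s, c'.1 = c.1

instance (D : ChevalleyDatum) (h s : ℕ) : Decidable (PairOk D h s) := inferInstanceAs (Decidable (_ ∧ _))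

include G in
theorem isPGroup_pair {h s : ℕ} (hh : h < D.nroots) (hs : s < D.nroots) (hne : s ≠ h) (hok : PairOk D h s) :
    IsPGroup 2 ↥(D.rootSubgroup F h ⊔ D.rootSubgroup F s) := by
  obtain ⟨hneg, hc⟩ := hok
  rcases List.eq_nil_or_concat (D.commTerms h s) with he | ⟨l, c, he⟩
  · exact (isPGroup_rootSubgroup G h).to_sup_of_normal_right' (isPGroup_rootSubgroup G s)
      (((Subgroup.le_centralizer_iff).1 (rootSubgroup_le_centralizer G hh hs (Or.inr ⟨hneg, he⟩))).trans
        (Subgroup.centralizer_le_normalizer _))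
  have hcmem : c ∈ D.commTerms h s := by rw [he]; simp
  obtain ⟨hu, hu1, hu2, hu3, hu4, huniq⟩ := hc c hcmem
  set Xu := D.rootSubgroup F c.1
  set Xh := D.rootSubgroup F h
  set Xs := D.rootSubgroup F s
  have hhu : Xh ≤ Subgroup.centralizer (Xu : Set (GL D.Idx F)) :=
    (Subgroup.le_centralizer_iff).1 (rootSubgroup_le_centralizer G hh hu (Or.inr ⟨hu1, hu3⟩))
  have hsu : Xs ≤ Subgroup.centralizer (Xu : Set (GL D.Idx F)) :=
    (Subgroup.le_centralizer_iff).1 (rootSubgroup_le_centralizer G hs hu (Or.inr ⟨hu2, hu4⟩))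
  have h1 : IsPGroup 2 ↥(Xh ⊔ Xu) :=
    (isPGroup_rootSubgroup G h).to_sup_of_normal_right' (isPGroup_rootSubgroup G c.1)
      (hhu.trans (Subgroup.centralizer_le_normalizer _))
  have h2 : Xs ≤ Subgroup.normalizer ((Xh ⊔ Xu : Subgroup (GL D.Idx F)) : Set (GL D.Idx F)) := by
    have hone : ∀ y ∈ Xs, ∀ x ∈ Xh ⊔ Xu, y * x * y⁻¹ ∈ Xh ⊔ Xu := by
      intro y hy
      suffices Xh ⊔ Xu ≤ (Xh ⊔ Xu).comap (MulAut.conj y).toMonoidHom from fun x hx => this hx
      refine sup_le ?_ ?_
      · intro x hx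
        obtain ⟨b, rfl⟩ := G.mem_rootSubgroup.1 hy
        obtain ⟨a, rfl⟩ := G.mem_rootSubgroup.1 hx
        obtain ⟨w, hw, e⟩ := G.exists_comm hh hs hne hneg a b
        show G.xg s b * G.xg h a * (G.xg s b)⁻¹ ∈ Xh ⊔ Xu
        have hw' : w ∈ Xu := by
          refine (Subgroup.closure_le _).2 ?_ hw
          rintro g ⟨c', hc', v, rfl⟩
          rw [huniq c' hc']
          exact G.xg_mem_rootSubgroup _ _
        have hcw : Commute w (G.xg s b) :=
          (Subgroup.mem_centralizer_iff.1 (hsu (G.xg_mem_rootSubgroup s b)) w hw')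
        rw [e, mul_assoc (G.xg h a), hcw.symm.eq, ← mul_assoc, mul_inv_cancel_right]
        exact mul_mem (Subgroup.mem_sup_left hx) (Subgroup.mem_sup_right hw')
      · intro x hx
        show y * x * y⁻¹ ∈ Xh ⊔ Xu
        rw [← Subgroup.mem_centralizer_iff.1 (hsu hy) x hx, mul_inv_cancel_right]
        exact Subgroup.mem_sup_right hx
    intro y hy
    refine Subgroup.mem_normalizer_iff.2 fun x => ⟨hone y hy x, fun hx => ?_⟩
    have := hone y⁻¹ (inv_mem hy) _ hx
    simpa [mul_assoc] using this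
  refine (h1.to_sup_of_normal_left' (isPGroup_rootSubgroup G s) h2).to_le ?_
  exact sup_le (le_sup_of_le_left le_sup_left) le_sup_right

include G in
/-- A highest root subgroup and a conjugate. -/
theorem highest_pair (hh : 0 < D.nroots) (hpos : D.IsPosRoot (D.nroots - 1))
    (hneg : D.neg (D.nroots - 1) = 0) (O : ℕ → Bool) (hOh : O (D.nroots - 1) = true)
    (hO : ∀ (i : Fin D.rank) (s : Fin D.nroots), O s = true → O (D.reflectRoot i s) = true)
    (hcomm : ∀ r : Fin D.nroots, D.IsPosRoot r →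
      (r : ℕ) = D.nroots - 1 ∨ ((r : ℕ) ≠ D.neg (D.nroots - 1) ∧ D.commTerms (D.nroots - 1) r = []))
    (hok : ∀ s : Fin D.nroots, (s : ℕ) ≠ 0 → (s : ℕ) ≠ D.nroots - 1 → O s = true → PairOk D (D.nroots - 1) s)
    (g : GL D.Idx F) (hg : g ∈ D.group F) :
    IsPGroup 2 ↥(D.rootSubgroup F (D.nroots - 1) ⊔
        (D.rootSubgroup F (D.nroots - 1)).map (MulAut.conj g).toMonoidHom) ∨
    ∃ h ∈ D.group F, (D.rootSubgroup F (D.nroots - 1) ⊔
        (D.rootSubgroup F (D.nroots - 1)).map (MulAut.conj g).toMonoidHom).map (MulAut.conj h).toMonoidHom =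
      D.rootSubgroup F (D.nroots - 1) ⊔ D.rootSubgroup F 0 := by
  set h := D.nroots - 1
  have hhn : h < D.nroots := hpos.1
  set X := D.rootSubgroup F h
  obtain ⟨L, v, d, u, hv, hd, hu, rfl⟩ := exists_standard_form G hg
  set n : GL D.Idx F := G.nProd L
  have hN : n ∈ D.monomialSubgroup F := G.nProd_mem L
  set b := v * d
  have hb : b ∈ D.group F := mul_mem (G.posUnipotent_le_group hv) (G.diagonal_le_group hd)
  have hXU : ∀ w ∈ D.posUnipotent F, ∀ a, w * G.xg h a * w⁻¹ = G.xg h a := fun w hw a => by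
    rw [(pos_commute_highest G hhn hcomm hw a).eq, mul_inv_cancel_right]
  obtain ⟨z, rfl⟩ := G.mem_diagonal.1 hd
  have hbX : X.map (MulAut.conj b).toMonoidHom = X := by
    refine le_antisymm ?_ ?_
    · rintro _ ⟨x, hx, rfl⟩
      obtain ⟨a, rfl⟩ := G.mem_rootSubgroup.1 hx
      show v * G.torus z * G.xg h a * (v * G.torus z)⁻¹ ∈ X
      rw [show v * G.torus z * G.xg h a * (v * G.torus z)⁻¹ =
        v * (G.torus z * G.xg h a * (G.torus z)⁻¹) * v⁻¹ by group, G.torus_conj_xg z hhn, hXU v hv]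
      exact G.xg_mem_rootSubgroup _ _
    · intro x hx
      obtain ⟨a, rfl⟩ := G.mem_rootSubgroup.1 hx
      refine ⟨G.xg h (((G.torusVal z h)⁻¹ : Fˣ) * a), G.xg_mem_rootSubgroup _ _, ?_⟩
      show v * G.torus z * _ * (v * G.torus z)⁻¹ = _
      rw [show v * G.torus z * G.xg h (((G.torusVal z h)⁻¹ : Fˣ) * a) * (v * G.torus z)⁻¹ =
        v * (G.torus z * G.xg h (((G.torusVal z h)⁻¹ : Fˣ) * a) * (G.torus z)⁻¹) * v⁻¹ by group,
        G.torus_conj_xg z hhn, hXU v hv, ← mul_assoc, ← Units.val_mul, mul_inv_cancel, Units.val_one, one_mul]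
  set s := G.perm n ⟨h, hhn⟩
  obtain ⟨c, hc⟩ := G.conj_xg_eq hN (⟨h, hhn⟩ : Fin D.nroots)
  have hgX : X.map (MulAut.conj (b * n * u)).toMonoidHom = (D.rootSubgroup F s).map (MulAut.conj b).toMonoidHom := by
    refine le_antisymm ?_ ?_
    · rintro _ ⟨x, hx, rfl⟩
      obtain ⟨a, rfl⟩ := G.mem_rootSubgroup.1 hx
      refine ⟨G.xg s ((c : F) * a), G.xg_mem_rootSubgroup _ _, ?_⟩
      show b * G.xg s ((c : F) * a) * b⁻¹ = b * n * u * G.xg h a * (b * n * u)⁻¹
      rw [← hc a, show b * n * u * G.xg h a * (b * n * u)⁻¹ = b * n * (u * G.xg h a * u⁻¹) * n⁻¹ * b⁻¹ by group,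
        hXU u (G.posSub_le_posUnipotent _ hu)]
      group
    · rintro _ ⟨x, hx, rfl⟩
      obtain ⟨a, rfl⟩ := G.mem_rootSubgroup.1 hx
      refine ⟨G.xg h (((c⁻¹ : Fˣ) : F) * a), G.xg_mem_rootSubgroup _ _, ?_⟩
      show b * n * u * _ * (b * n * u)⁻¹ = b * G.xg s a * b⁻¹
      rw [show b * n * u * G.xg h (((c⁻¹ : Fˣ) : F) * a) * (b * n * u)⁻¹ =
        b * (n * (u * G.xg h (((c⁻¹ : Fˣ) : F) * a) * u⁻¹) * n⁻¹) * b⁻¹ by group,
        hXU u (G.posSub_le_posUnipotent _ hu)]
      rw [show n * G.xg h (((c⁻¹ : Fˣ) : F) * a) * n⁻¹ = _ from hc _, ← mul_assoc (c : F), ← Units.val_mul,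
        mul_inv_cancel, Units.val_one, one_mul]
  have hsup : X ⊔ X.map (MulAut.conj (b * n * u)).toMonoidHom =
      (X ⊔ D.rootSubgroup F s).map (MulAut.conj b).toMonoidHom := by
    rw [hgX, Subgroup.map_sup, hbX]
  rw [hsup]
  by_cases hs0 : (s : ℕ) = 0
  · refine Or.inr ⟨b⁻¹, inv_mem hb, ?_⟩
    rw [Subgroup.map_map, hs0]
    rw [show ((MulAut.conj b⁻¹).toMonoidHom.comp (MulAut.conj b).toMonoidHom) = MonoidHom.id (GL D.Idx F) from
      MonoidHom.ext fun x => by simp [MulAut.conj_apply, mul_assoc]]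
    exact Subgroup.map_id _
  left
  refine IsPGroup.map ?_ _
  by_cases hsh : (s : ℕ) = h
  · rw [hsh, sup_idem]; exact isPGroup_rootSubgroup G h
  have hOs : O s = true := by
    have key : ∀ L : List (Fin D.rank), ∀ r : Fin D.nroots, O r = true → O ((L.map G.sPerm).prod r) = true := by
      intro L
      induction L with
      | nil => intro r hr; simpa using hr
      | cons i L ih => intro r hr; rw [List.map_cons, List.prod_cons]; exact hO i _ (ih r hr)
    rw [show s = (L.map G.sPerm).prod ⟨h, hhn⟩ from by rw [← G.perm_nProd (F := F)]]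
    exact key L _ hOh
  exact isPGroup_pair G hhn s.2 hsh (hok s hs0 hsh hOs)

end Pairs

end Cfsg.Agent.H67.Chev
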