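import Cfsg.Agent.H47.CenterCard
import Cfsg.Agent.H65.Chev.FieldFixed

set_option autoImplicit false

/-!
# Steinberg's group over field extensions: functoriality, the torus, fixed points

The torus of Steinberg's group is seen through an embedding into a larger datum with unimodular Cartan matrix.
-/

namespace Cfsg.Agent.H67.Chev

open Cfsg.Lie Cfsg.Agent.H46 Cfsg.Agent.H65 Cfsg.Agent.H70.Steinberg Cfsg.Agent.H47
open scoped Matrix MatrixGroups

variable {D : ChevalleyDatum} (G : Good D)

section Functor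

variable {F K : Type*} [Field F] [Field K] (f : F →+* K)

theorem stX_map {r : ℕ} (hr : r < D.nroots) (t : F) :
    FreeGroup.lift (fun p : Fin D.nroots × F => D.stGen K p.1.val (f p.2)) (D.stX r t) = D.stGen K r (f t) := by
  simp [ChevalleyDatum.stX, hr]

theorem stWord_map : ∀ w : List (ℕ × F), (∀ p ∈ w, p.1 < D.nroots) →
    FreeGroup.lift (fun p : Fin D.nroots × F => D.stGen K p.1.val (f p.2)) (D.stWord w) =
      PresentedGroup.mk (D.steinbergRels K) (D.stWord (w.map fun p => (p.1, f p.2)))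
  | [], _ => by simp [ChevalleyDatum.stWord]
  | p :: w, h => by
    have ih := stWord_map w fun q hq => h q (List.mem_cons_of_mem _ hq)
    simp only [ChevalleyDatum.stWord, List.map_cons, List.prod_cons, map_mul] at ih ⊢
    rw [ih, stX_map f (h p List.mem_cons_self)]
    rfl

include G in
theorem map_rels : ∀ g ∈ D.steinbergRels F,
    FreeGroup.lift (fun p : Fin D.nroots × F => D.stGen K p.1.val (f p.2)) g = 1 := by
  have hN : ∀ {r : ℕ}, r < D.nroots → ∀ a : F, ∀ p ∈ D.hWord r a, p.1 < D.nroots := by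
    intro r hr a p hp
    simp only [ChevalleyDatum.hWord, ChevalleyDatum.nWord, List.mem_append, List.mem_cons, List.not_mem_nil,
      or_false] at hp
    rcases hp with (rfl | rfl | rfl) | (rfl | rfl | rfl) <;> first | exact hr | exact G.neg_lt hr
  have hH : ∀ {r : ℕ}, r < D.nroots → ∀ a : F,
      FreeGroup.lift (fun p : Fin D.nroots × F => D.stGen K p.1.val (f p.2)) (D.stH r a) =
        PresentedGroup.mk (D.steinbergRels K) (D.stH r (f a)) := by
    intro r hr a
    rw [ChevalleyDatum.stH, stWord_map f _ (hN hr a), ChevalleyDatum.stH]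
    simp [ChevalleyDatum.hWord, ChevalleyDatum.nWord]
  rintro g ((⟨r, t, u, hr, rfl⟩ | ⟨r, s, t, u, hr, hs, h1, h2, rfl⟩) | ⟨r, t, u, hr, ht, hu, rfl⟩)
  · rw [map_mul, map_mul, map_inv, stX_map f hr, stX_map f hr, stX_map f hr, map_add]
    exact PresentedGroup.one_of_mem (rels := D.steinbergRels K) (x := D.stX r (f t) * D.stX r (f u) *
      (D.stX r (f t + f u))⁻¹) (Or.inl (Or.inl ⟨r, f t, f u, hr, rfl⟩))
  · simp only [map_mul, map_inv, stX_map f hr, stX_map f hs, stWord_map f _ (commWord_lt G hr hs t u)]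
    have hw : (D.commWord F r s t u).map (fun p => (p.1, f p.2)) = D.commWord K r s (f t) (f u) := by
      simp [ChevalleyDatum.commWord, List.map_map, Function.comp_def]
    rw [hw]
    have h := PresentedGroup.one_of_mem (rels := D.steinbergRels K) (Or.inl (Or.inr
      ⟨r, s, f t, f u, hr, hs, h1, h2, rfl⟩) :
      (D.stX s (f u))⁻¹ * (D.stX r (f t))⁻¹ * D.stX s (f u) * D.stX r (f t) *
        (D.stWord (D.commWord K r s (f t) (f u)))⁻¹ ∈ D.steinbergRels K)
    simpa [ChevalleyDatum.stGen] using h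
  · simp only [map_mul, map_inv, hH hr, map_mul]
    have h := PresentedGroup.one_of_mem (rels := D.steinbergRels K) (Or.inr
      ⟨r, f t, f u, hr, (map_ne_zero f).2 ht, (map_ne_zero f).2 hu, rfl⟩ :
      D.stH r (f t) * D.stH r (f u) * (D.stH r (f t * f u))⁻¹ ∈ D.steinbergRels K)
    simpa using h

/-- Steinberg's group is functorial in the field. -/
noncomputable def stMap : D.SteinbergGroup F →* D.SteinbergGroup K :=
  PresentedGroup.toGroup (map_rels G f)

theorem stMap_X {r : ℕ} (hr : r < D.nroots) (t : F) :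
    stMap G f ((groupPres G).X r t) = (groupPres G).X r (f t) :=
  (show _ = FreeGroup.lift (fun p : Fin D.nroots × F => D.stGen K p.1.val (f p.2)) (D.stX r t) from rfl).trans
    (stX_map f hr t)

theorem π_stMap (x : D.SteinbergGroup F) :
    (groupPres G).π (stMap G f x) = mapGL D f ((groupPres G).π x) := by
  refine DFunLike.congr_fun ((groupPres G).hom_ext (f := (groupPres G).π.comp (stMap G f))
    (g := (mapGL D f).comp (groupPres G).π) fun r hr t => ?_) x
  rw [MonoidHom.comp_apply, MonoidHom.comp_apply, stMap_X G f hr, (groupPres G).π_X r hr,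
    (groupPres G).π_X r hr, mapGL_xg G]

theorem stMap_N {r : ℕ} (hr : r < D.nroots) (a : F) :
    stMap G f ((groupPres G).N r a) = (groupPres G).N r (f a) := by
  simp only [Pres.N, map_mul, stMap_X G f hr, stMap_X G f (G.neg_lt hr), map_neg, map_inv₀]

theorem stMap_H {r : ℕ} (hr : r < D.nroots) (a : F) :
    stMap G f ((groupPres G).H r a) = (groupPres G).H r (f a) := by
  simp only [Pres.H, map_mul, stMap_N G f hr, map_neg, map_one]

theorem stMap_W (L : List (Fin D.rank)) : stMap G f ((groupPres G).W L) = (groupPres G).W L := by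
  simp only [Pres.W, map_list_prod, List.map_map]
  congr 1
  refine List.map_congr_left fun i _ => ?_
  rw [Function.comp_apply, stMap_N G f (G.simple_lt i.2), map_one]

end Functor

section Torus

variable {F : Type*} [Field F] (hcert : Cert D)

/-- The torus of Steinberg's group. -/
noncomputable def stTorus : (Fin D.rank → Fˣ) →* D.SteinbergGroup F :=
  MonoidHom.noncommPiCoprod
    (fun i : Fin D.rank =>
      { toFun := fun a : Fˣ => (groupPres G (F := F)).H (D.simple i) (a : F)
        map_one' := by rw [Units.val_one, (groupPres G).H_one (G.simple_lt i.2)]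
        map_mul' := fun a b => by rw [Units.val_mul, H_mul_group G (G.simple_lt i.2) a.ne_zero b.ne_zero] })
    (fun i j _ x y => (groupPres G).H_commute hcert
      (fun _ _ _ hi ha hb => H_mul_group G (G.simple_lt hi) ha hb) i.2 j.2 y.ne_zero x.ne_zero)

theorem stTorus_mulSingle (i : Fin D.rank) (a : Fˣ) :
    stTorus G hcert (Pi.mulSingle i a) = (groupPres G).H (D.simple i) (a : F) :=
  MonoidHom.noncommPiCoprod_mulSingle _ _ _

theorem π_stTorus (z : Fin D.rank → Fˣ) : (groupPres G).π (stTorus G hcert z) = G.torus z := by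
  refine DFunLike.congr_fun (MonoidHom.pi_ext (f := (groupPres G).π.comp (stTorus G hcert)) fun i a => ?_) z
  rw [MonoidHom.comp_apply, stTorus_mulSingle, (groupPres G).π_H (G.simple_lt i.2), G.torus_mulSingle]

theorem stMap_stTorus {K : Type*} [Field K] (f : F →+* K) (z : Fin D.rank → Fˣ) :
    stMap G f (stTorus G hcert z) = stTorus G hcert (fun k => Units.map f.toMonoidHom (z k)) := by
  let m : (Fin D.rank → Fˣ) →* (Fin D.rank → Kˣ) :=
    MonoidHom.compLeft (Units.map f.toMonoidHom) (Fin D.rank)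
  refine DFunLike.congr_fun (MonoidHom.pi_ext (f := (stMap G f).comp (stTorus G hcert))
    (g := (stTorus G hcert).comp m) fun i a => ?_) z
  have e : m (Pi.mulSingle i a) = Pi.mulSingle i (Units.map f.toMonoidHom a) := by
    funext k
    by_cases hk : k = i
    · subst hk; simp [m]
    · simp [m, hk]
  rw [MonoidHom.comp_apply, MonoidHom.comp_apply, stTorus_mulSingle, stMap_H G f (G.simple_lt i.2), e,
    stTorus_mulSingle]
  rfl

theorem exists_stTorus {x : D.SteinbergGroup F} (hx : (groupPres G).π x ∈ D.diagonalSubgroup F) :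
    ∃ w, x = stTorus G hcert w := by
  obtain ⟨z, hz⟩ := G.mem_diagonal.1 hx
  have hk : (groupPres G).π ((stTorus G hcert z)⁻¹ * x) = 1 := by
    rw [map_mul, map_inv, π_stTorus, hz, inv_mul_cancel]
  have hrange : (groupPres G (F := F)).HL ≤ (stTorus G hcert).range := by
    rw [Pres.HL, Subgroup.closure_le]
    rintro _ ⟨i, a, hi, ha, rfl⟩
    exact ⟨Pi.mulSingle ⟨i, hi⟩ (Units.mk0 a ha), stTorus_mulSingle G hcert _ _⟩
  obtain ⟨w, hw⟩ := hrange ((groupPres G).ker_le_HL hcert hk)
  exact ⟨z * w, by rw [map_mul, hw, mul_inv_cancel_left]⟩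

include hcert in
/-- Elements of Steinberg's group over `1` are central. -/
theorem mem_center_of_π {x : D.SteinbergGroup F} (hx : (groupPres G).π x = 1) :
    x ∈ Subgroup.center (D.SteinbergGroup F) :=
  ((groupPres G).ker_spec hcert hx).2

end Torus

section Embedded

variable {E : ChevalleyDatum} (Ge : Good E) {L : List ℕ} (hL : RootEmbed.chk G Ge L = true)
variable {F : Type*} [Field F] (hcert : Cert D)

/-- Extension of torus parameters by ones. -/
noncomputable def extW : (Fin D.rank → Fˣ) →* (Fin E.rank → Fˣ) where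
  toFun w k := if h : k.val < D.rank then w ⟨k.val, h⟩ else 1
  map_one' := by funext k; simp
  map_mul' u v := by funext k; simp only [Pi.mul_apply]; split <;> simp

/-- The map into the larger group. -/
noncomputable def emb : D.SteinbergGroup F →* GL E.Idx F :=
  PresentedGroup.toGroup (RootEmbed.lift_rels (F := F) hL)

theorem emb_X {r : ℕ} (hr : r < D.nroots) (t : F) :
    emb G Ge hL ((groupPres G).X r t) = Ge.xg (RootEmbed.ι L r) t :=
  (show _ = FreeGroup.lift (RootEmbed.esymb Ge L) (D.stX r t) from rfl).trans (RootEmbed.lift_stX hr t)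

theorem emb_N {i : ℕ} (hi : i < D.rank) (a : F) :
    emb G Ge hL ((groupPres G).N (D.simple i) a) = Ge.ng (E.simple i) a := by
  obtain ⟨-, hneg, hsimp, -, -⟩ := RootEmbed.chk_spec hL
  simp only [Pres.N, Good.ng, map_mul, emb_X G Ge hL (G.simple_lt hi), emb_X G Ge hL (G.neg_lt (G.simple_lt hi)),
    ← (hneg _ (G.simple_lt hi)).2, hsimp i hi]

theorem emb_W (W : List (Fin D.rank)) :
    emb G Ge hL ((groupPres G (F := F)).W W) =
      Ge.nProd (W.map (Fin.castLE (RootEmbed.chk_spec hL).1)) := by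
  simp only [Pres.W, Good.nProd, map_list_prod, List.map_map]
  congr 1
  exact List.map_congr_left fun i _ => emb_N G Ge hL i.2 1

theorem emb_stTorus (z : Fin D.rank → Fˣ) :
    emb G Ge hL (stTorus G hcert z) = Ge.torus (extW z) := by
  refine DFunLike.congr_fun (MonoidHom.pi_ext (f := (emb G Ge hL).comp (stTorus G hcert))
    (g := (Ge.torus).comp extW) fun i a => ?_) z
  rw [MonoidHom.comp_apply, MonoidHom.comp_apply, stTorus_mulSingle, Pres.H, map_mul,
    emb_N G Ge hL i.2, emb_N G Ge hL i.2]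
  show Ge.hg (E.simple i) (a : F) = _
  rw [← Ge.torus_mulSingle (⟨i.val, lt_of_lt_of_le i.2 (RootEmbed.chk_spec hL).1⟩ : Fin E.rank)]
  congr 1
  funext k
  by_cases hk : k.val < D.rank
  · simp [extW, hk, Pi.mulSingle_apply, Fin.ext_iff]
  · have : (k : ℕ) ≠ i := fun e => hk (e ▸ i.2)
    simp [extW, hk, Pi.mulSingle_apply, Fin.ext_iff, this]

include Ge hL in
theorem stTorus_injective (hU : Unimod E Ge.tab) : Function.Injective (stTorus G hcert (F := F)) := by
  intro u v e
  have h := congrArg (emb G Ge hL) e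
  rw [emb_stTorus, emb_stTorus] at h
  funext k
  have h' := congrFun (torus_injective Ge hU h) ⟨k.val, lt_of_lt_of_le k.2 (RootEmbed.chk_spec hL).1⟩
  simpa [extW] using h'

end Embedded

section Fixed

variable {E : ChevalleyDatum} {Ge : Good E} {L : List ℕ} (hL : RootEmbed.chk G Ge L = true) (hU : Unimod E Ge.tab)
variable {F K : Type*} [Field F] [Field K] (ι : F →+* K) (σ : K ≃+* K) (hcert : Cert D)

include hL hU hcert in
/-- A fixed element of Steinberg's group lies over the group of the fixed field. -/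
theorem π_fixed (hfix : ∀ x, σ x = x ↔ x ∈ Set.range ι) {x : D.SteinbergGroup K}
    (hx : stMap G (σ : K →+* K) x = x) : (groupPres G).π x ∈ (D.group F).map (mapGL D ι) := by
  set P := groupPres G (F := K)
  have hσι : ∀ y : D.SteinbergGroup F, stMap G (σ : K →+* K) (stMap G ι y) = stMap G ι y := by
    refine fun y => DFunLike.congr_fun ((groupPres G).hom_ext (f := (stMap G (σ : K →+* K)).comp (stMap G ι))
      (g := stMap G ι) fun r hr t => ?_) y
    rw [MonoidHom.comp_apply, stMap_X G ι hr, stMap_X G _ hr, show (σ : K →+* K) (ι t) = ι t from (hfix _).2 ⟨t, rfl⟩]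
  have lift : ∀ g ∈ (D.group F).map (mapGL D ι), ∃ y, stMap G (σ : K →+* K) y = y ∧ P.π y = g := by
    rintro g ⟨g0, hg0, rfl⟩
    rw [SetLike.mem_coe, ← (groupPres G (F := F)).range_π] at hg0
    obtain ⟨y0, rfl⟩ := hg0
    exact ⟨stMap G ι y0, hσι y0, π_stMap G ι y0⟩
  have hg : P.π x ∈ D.group K := by rw [← P.range_π]; exact ⟨x, rfl⟩
  have h : mapGL D (σ : K →+* K) (P.π x) = P.π x := by rw [← π_stMap, hx]
  obtain ⟨n, hn, hc⟩ := G.bruhat hg
  obtain ⟨b, hb, u, hu, e0⟩ := G.bruhatCell_normal_form hn hc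
  obtain ⟨W, d, hd, rfl⟩ := G.exists_word hn
  have hN : (G.nProd W : GL D.Idx K) ∈ D.monomialSubgroup K := G.nProd_mem W
  have hS : G.invSet (G.nProd W * d : GL D.Idx K) = G.invSet (G.nProd W : GL D.Idx K) := by
    unfold Good.invSet
    rw [G.perm_mul hN (Subgroup.mem_sup_left hd), G.perm_diagonal hd, mul_one]
  rw [hS] at hu
  set b' : GL D.Idx K := b * (G.nProd W * d * (G.nProd W)⁻¹) with hb'def
  have hb' : b' ∈ D.borelSubgroup K :=
    mul_mem hb (Subgroup.mem_sup_right (G.diagonal_normalized hN hd))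
  have e : P.π x = b' * G.nProd W * u := by rw [e0, hb'def]; group
  obtain ⟨v, hv, c, hc, eb⟩ := G.mem_borel.1 hb'
  have hσb : mapGL D (σ : K →+* K) b' ∈ D.borelSubgroup K := by
    rw [eb, map_mul]
    exact mul_mem (Subgroup.mem_sup_left (mapGL_pos G _ hv)) (Subgroup.mem_sup_right (mapGL_diagonal G _ hc))
  rw [e, map_mul, map_mul, mapGL_nProd G] at h
  obtain ⟨-, hu', hbb⟩ := G.bruhat_unique hσb hb' hN hN (mapGL_posSub G _ hu) hu h
  have hbσ := hbb rfl
  rw [eb, map_mul] at hbσ
  have hq : v⁻¹ * mapGL D (σ : K →+* K) v = c * (mapGL D (σ : K →+* K) c)⁻¹ := by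
    rw [eq_mul_inv_iff_mul_eq, mul_assoc, hbσ, inv_mul_cancel_left]
  have h1 := (Subgroup.eq_bot_iff_forall _).1 (G.posUnipotent_inf_diagonal (F := K)) _
    (Subgroup.mem_inf.2 ⟨mul_mem (inv_mem hv) (mapGL_pos G _ hv), by
      rw [hq]; exact mul_mem hc (inv_mem (mapGL_diagonal G _ hc))⟩)
  have hv' : mapGL D (σ : K →+* K) v = v := (inv_mul_eq_one.1 h1).symm
  have hvF : v ∈ (D.group F).map (mapGL D ι) := by
    rw [G.posUnipotent_eq] at hv
    exact posSub_fixed G ι σ hfix G.posClosed_univ hv hv'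
  have huF : u ∈ (D.group F).map (mapGL D ι) := posSub_fixed G ι σ hfix (G.posClosed_invSet hN) hu hu'
  obtain ⟨yv, hyv, hπv⟩ := lift v hvF
  obtain ⟨yu, hyu, hπu⟩ := lift u huF
  set y := yv⁻¹ * x * yu⁻¹ * (P.W W)⁻¹ with hy
  have hπy : P.π y = c := by
    rw [hy, map_mul, map_mul, map_mul, map_inv, map_inv, map_inv, hπv, hπu, P.π_W, e, eb]
    group
  have hσy : stMap G (σ : K →+* K) y = y := by
    rw [hy, map_mul, map_mul, map_mul, map_inv, map_inv, map_inv, hyv, hyu, hx, stMap_W]
  obtain ⟨w, hw⟩ := exists_stTorus G hcert (x := y) (by rw [hπy]; exact hc)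
  rw [hw, stMap_stTorus] at hσy
  have hσw := stTorus_injective G Ge hL hcert hU hσy
  have hw' : ∀ k, ∃ a : Fˣ, Units.map ι.toMonoidHom a = w k := fun k => by
    obtain ⟨a, ha⟩ := (hfix _).1 (congrArg Units.val (congrFun hσw k))
    have ha0 : a ≠ 0 := fun h0 => (w k).ne_zero (by rw [← ha, h0, map_zero])
    exact ⟨Units.mk0 a ha0, Units.ext ha⟩
  choose a ha using hw'
  have hcF : c ∈ (D.group F).map (mapGL D ι) := by
    refine ⟨G.torus a, G.diagonal_le_group (G.mem_diagonal.2 ⟨a, rfl⟩), ?_⟩
    rw [← hπy, hw, π_stTorus, mapGL_torus G]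
    exact congrArg _ (funext ha)
  rw [e, eb]
  exact mul_mem (mul_mem (mul_mem hvF hcF)
    ⟨G.nProd W, G.monomial_le_group (G.nProd_mem W), mapGL_nProd G ι W⟩) huF

end Fixed

end Cfsg.Agent.H67.Chev
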