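import Cfsg.Agent.H67.ChevTorusLang
import Cfsg.Agent.H67.StTwist

set_option autoImplicit false

/-!
# Cyclic self-centralising tori of adjoint groups with centred covers

The torus lifts to Steinberg's group; the elements of the Chevalley group over the finite field are those whose lift
can be chosen fixed by the twisted map.
-/

namespace Cfsg.Agent.H67.Chev

open Cfsg.Lie Cfsg.Agent.H46 Cfsg.Agent.H65 Cfsg.Agent.H70.Steinberg Cfsg.Agent.H47
open scoped Matrix MatrixGroups

variable {D : ChevalleyDatum}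

/-- A fundamental reflection on coroot coordinates. -/
def refCo (D : ChevalleyDatum) (i : ℕ) (v : List ℤ) : List ℤ :=
  (List.range D.rank).map fun k => v.getD k 0 -
    if k = i then ((List.range D.rank).map fun l => v.getD l 0 * D.cartan l (D.simple i)).sum else 0

namespace TorusData

variable (T : TorusData D)

/-- The matrix of the word on coroot coordinates. -/
def coM (k l : ℕ) : ℤ :=
  (T.L.foldr (fun (i : Fin D.rank) v => refCo D i.val v)
    ((List.range D.rank).map fun j => if j = l then 1 else 0)).getD k 0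

/-- The shift of the exponents by one turn. -/
def vv (k : ℕ) : ℤ := -(T.B.getD k []).getD 0 0 * T.c.getD 0 0

/-- The word on torus parameters. -/
noncomputable def coW {K : Type*} [Field K] : (Fin D.rank → Kˣ) →* (Fin D.rank → Kˣ) where
  toFun z k := ∏ l : Fin D.rank, z l ^ T.coM k l
  map_one' := by funext k; simp
  map_mul' u v := by funext k; simp [mul_zpow, Finset.prod_mul_distrib]

/-- The image of a root of the larger datum under the word, on packed tables. -/
def actE {E : ChevalleyDatum} (Ge : Good E) (s : ℕ) : ℕ :=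
  T.L.foldr (fun (i : Fin D.rank) x => Ge.tab.refl i.val x) s

end TorusData

/-- The table checks for a torus whose exponents have a prime denominator. -/
structure AdjOk {E : ChevalleyDatum} (Ge : Good E) (T : TorusData D) : Prop where
  prime : T.d.Prime
  hdiv : ∀ s : Fin D.nroots, ∀ i : Fin D.rank,
    (T.d : ℤ) * T.eC s i = ∑ k : Fin D.rank, (T.B.getD k []).getD i 0 * D.cartan k s
  hrot : ∀ s : Fin E.nroots, ∀ l : Fin D.rank,
    ∑ k : Fin D.rank, T.coM k l * Ge.tab.cart E.rank k (T.actE Ge s) = Ge.tab.cart E.rank l s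
  turn : ∀ k : Fin D.rank, ∀ i : Fin (D.rank + 1),
    (if (i : ℕ) = 0 then 0 else ∑ l : Fin D.rank, T.coM k l * (T.B.getD l []).getD (i - 1) 0) -
      (T.B.getD k []).getD i 0 = T.vv k * (T.c ++ [1]).getD i 0
  last : ∀ k : Fin D.rank, (T.B.getD k []).getD D.rank 0 = 0
  hv : ∃ k : Fin D.rank, ¬ (T.d : ℤ) ∣ T.vv k
  ker : ∃ MI : List (List ℤ), ∀ k i : Fin D.rank,
    ∑ j : Fin D.rank, (MI.getD k []).getD j 0 * D.cartan i (D.simple j) = if i = k then (T.d : ℤ) else 0
  res : ∀ r : Fin T.d, (r : ℕ) = 1 ↔ (T.d : ℤ) ∣ polVal T.c (r : ℕ)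
  reg : ∀ s : Fin D.nroots, NotDvd T.c ((T.eV s).map fun a => (T.d : ℤ) * a)
  free : ∀ k : Fin T.h, (k : ℕ) ≠ 0 →
    NotDvd T.c ((List.zipWith (· - ·) (T.eV (T.orb k)) (T.eV T.α₀)).map fun a => (T.d : ℤ) * a)

theorem evalL_eq_sum (l : List ℤ) (q : ℤ) : evalL l q = ∑ i ∈ Finset.range l.length, l.getD i 0 * q ^ i := by
  rw [← evalL_map_range]
  congr 1
  refine List.ext_getElem (by simp) fun i h1 h2 => ?_
  simp [List.getD_eq_getElem?_getD, List.getElem?_eq_getElem h1]

theorem polVal_modEq (c : List ℤ) {d a b : ℤ} (h : d ∣ a - b) : d ∣ polVal c a - polVal c b := by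
  rw [polVal, polVal, evalL_eq_sum, evalL_eq_sum, ← Finset.sum_sub_distrib]
  refine Finset.dvd_sum fun i _ => ?_
  rw [← mul_sub]
  exact (h.trans (sub_dvd_pow_sub_pow a b i)).mul_left _

/-- A finite field inside an algebraically closed one, cut out by the Frobenius map. -/
theorem exists_frobenius (F : Type*) [Field F] [Fintype F] :
    ∃ σ : AlgebraicClosure F ≃+* AlgebraicClosure F, (∀ x, σ x = x ^ Fintype.card F) ∧
      ∀ x, σ x = x ↔ x ∈ Set.range (algebraMap F (AlgebraicClosure F)) := by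
  classical
  set q := Fintype.card F with hqdef
  have hq : 2 ≤ q := Fintype.one_lt_card
  let K := AlgebraicClosure F
  let ι := algebraMap F K
  obtain ⟨p, hp⟩ := CharP.exists F
  have : Fact p.Prime := ⟨CharP.char_is_prime F p⟩
  have : CharP K p := charP_of_injective_algebraMap ι.injective p
  obtain ⟨a, -, ha⟩ := FiniteField.card F p
  refine ⟨iterateFrobeniusEquiv K p a, fun x => ?_, ?_⟩
  · rw [hqdef, ha]; exact iterateFrobeniusEquiv_def K p a x
  have hσ : ∀ x, iterateFrobeniusEquiv K p a x = x ^ q := fun x => by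
    rw [hqdef, ha]; exact iterateFrobeniusEquiv_def K p a x
  intro x
  rw [hσ]
  constructor
  · intro hx
    by_contra hne
    let S : Finset K := insert x (Finset.univ.image ι)
    have hcard : q + 1 ≤ S.card := by
      rw [Finset.card_insert_of_notMem, Finset.card_image_of_injective _ ι.injective, Finset.card_univ]
      simpa using hne
    have hroots : S ⊆ (Polynomial.X ^ q - Polynomial.X : Polynomial K).roots.toFinset := by
      intro y hy
      rw [Multiset.mem_toFinset, Polynomial.mem_roots (FiniteField.X_pow_card_sub_X_ne_zero K hq)]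
      rcases Finset.mem_insert.1 hy with rfl | hy
      · simp [hx]
      · obtain ⟨z, -, rfl⟩ := Finset.mem_image.1 hy
        simp [← map_pow, hqdef, FiniteField.pow_card, ι]
    have := (Finset.card_le_card hroots).trans ((Multiset.toFinset_card_le _).trans
      (Polynomial.card_roots' _))
    rw [FiniteField.X_pow_card_sub_X_natDegree_eq K hq] at this
    omega
  · rintro ⟨z, rfl⟩
    rw [← map_pow, hqdef, FiniteField.pow_card]

variable {G : Good D} {T : TorusData D}
variable {E : ChevalleyDatum} {Ge : Good E} {L : List ℕ} (hL : RootEmbed.chk G Ge L = true) (hU : Unimod E Ge.tab)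
variable (hA : AdjOk Ge T) (hcert : Cert D)

section Field

variable {K : Type*} [Field K]

theorem torusVal_extW (hr : D.rank ≤ E.rank) (z : Fin D.rank → Kˣ) (s : ℕ) :
    Ge.torusVal (extW z) s = ∏ k : Fin D.rank, z k ^ Ge.cartForm k (Ge.rc s) := by
  symm
  refine Finset.prod_of_injOn (Fin.castLE hr) (Fin.castLE_injective hr).injOn (fun x _ => Finset.mem_univ _)
    (fun i _ hi => ?_) (fun i _ => by simp [extW])
  have : ¬ (i : ℕ) < D.rank := fun h => hi ⟨⟨i, h⟩, Finset.mem_univ _, Fin.ext rfl⟩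
  simp [extW, this]

include hL hU hA in
/-- Conjugation of the torus of Steinberg's group by the lifted word. -/
theorem W_conj (z : Fin D.rank → Kˣ) :
    (groupPres G).W T.L * stTorus G hcert z * ((groupPres G).W T.L)⁻¹ = stTorus G hcert (T.coW z) := by
  have hr := (RootEmbed.chk_spec hL).1
  set P := groupPres G (F := K)
  obtain ⟨u, hu⟩ := exists_stTorus G hcert (x := P.W T.L * stTorus G hcert z * (P.W T.L)⁻¹) (by
    rw [map_mul, map_mul, map_inv, P.π_W, π_stTorus]
    exact G.diagonal_normalized (G.nProd_mem _) (G.mem_diagonal.2 ⟨z, rfl⟩))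
  rw [hu]
  refine congrArg _ ?_
  have h := congrArg (emb G Ge hL) hu
  rw [map_mul, map_mul, map_inv, emb_W, emb_stTorus, emb_stTorus] at h
  set L8 := T.L.map (Fin.castLE hr)
  have hperm : ∀ s : Fin E.nroots, (Ge.perm (Ge.nProd L8 : GL E.Idx K) s).val = T.actE Ge s := by
    intro s
    rw [Ge.perm_nProd]
    unfold TorusData.actE
    simp only [L8]
    induction T.L with
    | nil => rfl
    | cons i W ih =>
      rw [List.map_cons, List.map_cons, List.prod_cons, Equiv.Perm.mul_apply, List.foldr_cons, Ge.sPerm_apply,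
        ← Ge.refl_eq (Fin.castLE hr i).2 (Fin.isLt _), ih]
      rfl
  have key : ∀ s : Fin E.nroots, Ge.torusVal (extW u) (Ge.perm (Ge.nProd L8 : GL E.Idx K) s) =
      Ge.torusVal (extW (T.coW z)) (Ge.perm (Ge.nProd L8 : GL E.Idx K) s) := by
    intro s
    rw [torusVal_conj (Ge.nProd_mem L8) (extW z) (extW u) s h, torusVal_extW hr, torusVal_extW hr]
    simp only [TorusData.coW, MonoidHom.coe_mk, OneHom.coe_mk, ← Finset.prod_zpow, ← zpow_mul]
    rw [Finset.prod_comm]
    refine Finset.prod_congr rfl fun l _ => ?_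
    have hsum : ∀ (S : Finset (Fin D.rank)) (f : Fin D.rank → ℤ), (∏ k ∈ S, z l ^ f k) = z l ^ ∑ k ∈ S, f k := by
      intro S f
      induction S using Finset.induction_on with
      | empty => simp
      | insert b S hb ih => rw [Finset.prod_insert hb, Finset.sum_insert hb, zpow_add, ih]
    rw [hsum]
    congr 1
    rw [← Ge.cart_eq_cartForm, ← hA.hrot s l]
    exact Finset.sum_congr rfl fun k _ => by rw [hperm, Ge.cart_eq_cartForm]
  have h2 : Ge.torus (extW u) = Ge.torus (extW (T.coW z)) := by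
    rw [← div_eq_one, ← map_div, Ge.torus_eq_one_iff]
    intro s hs
    obtain ⟨s', hs'⟩ := (Ge.perm (Ge.nProd L8 : GL E.Idx K)).surjective ⟨s, hs⟩
    have hk := key s'
    rw [hs'] at hk
    have := Ge.torusVal_mul (extW u / extW (T.coW z)) (extW (T.coW z)) s
    rw [div_mul_cancel, hk] at this
    exact mul_eq_right.1 this.symm
  have h3 := torus_injective Ge hU h2
  funext k
  have := congrFun h3 ⟨k.val, lt_of_lt_of_le k.2 hr⟩
  simpa [extW] using this

include hA in
theorem pow_eq_one_of_ker {u : Fin D.rank → Kˣ} (hu : G.torus u = 1) : u ^ T.d = 1 := by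
  obtain ⟨MI, hMI⟩ := hA.ker
  funext k
  have h1 := CenterCard.prod_torusVal G u fun j => (MI.getD k []).getD j 0
  rw [Finset.prod_eq_one fun j _ => by rw [(G.torus_eq_one_iff u).1 hu _ (G.simple_lt j.2), one_zpow],
    Finset.prod_congr rfl fun i _ => by rw [hMI k i], Finset.prod_eq_single k ?_ (by simp)] at h1
  · simpa using h1.symm
  · intro b _ hb
    rw [if_neg hb, zpow_zero]

include hL hU hA hcert in
theorem coW_of_ker {u : Fin D.rank → Kˣ} (hu : G.torus u = 1) : T.coW u = u := by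
  refine stTorus_injective G Ge hL hcert hU ?_
  rw [← W_conj hL hU hA hcert]
  have hc := mem_center_of_π G hcert (x := stTorus G hcert u) (by rw [π_stTorus, hu])
  rw [Subgroup.mem_center_iff.1 hc, mul_inv_cancel_right]

end Field

include hL hU hA hcert in
/-- A self-centralising cyclic subgroup of order `P(q) / gcd(d, q - 1)`. -/
theorem exists_cyclic_self_centralizing_adj (hT : TorusOk G T) {F : Type*} [Field F] [Fintype F] (q : ℕ)
    (hF : Fintype.card F = q) (N : ℕ) (hN : (N : ℤ) = polVal T.c q) (hNpos : 0 < N) :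
    ∃ H : Subgroup ↥(D.group F), IsCyclic ↥H ∧ Nat.card ↥H = N / Nat.gcd T.d (q - 1) ∧
      Subgroup.centralizer (H : Set ↥(D.group F)) = H := by
  classical
  subst hF
  set q := Fintype.card F with hqdef
  have hq : 2 ≤ q := Fintype.one_lt_card
  let K := AlgebraicClosure F
  let ι := algebraMap F K
  obtain ⟨σ, hσ, hfix⟩ := exists_frobenius F
  have hdN : T.d ∣ q - 1 ↔ T.d ∣ N := by
    have hd2 := hA.prime.two_le
    let r : Fin T.d := ⟨q % T.d, Nat.mod_lt _ (by omega)⟩
    have e : (T.d : ℤ) ∣ polVal T.c q - polVal T.c (r : ℕ) := polVal_modEq _ (by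
      show (T.d : ℤ) ∣ (q : ℤ) - ((q % T.d : ℕ) : ℤ)
      rw [Int.natCast_mod]; exact Int.dvd_self_sub_emod)
    rw [← Int.natCast_dvd_natCast (n := N), hN, dvd_iff_dvd_of_dvd_sub e, ← hA.res r,
      ← Nat.modEq_iff_dvd' (by omega : 1 ≤ q), Nat.ModEq, Nat.one_mod_eq_one.2 (by omega)]
    exact ⟨fun h => h.symm, fun h => h.symm⟩
  set d' := Nat.gcd T.d (q - 1) with hd'
  have hd'cases : d' = 1 ∧ ¬ T.d ∣ q - 1 ∨ d' = T.d ∧ T.d ∣ q - 1 := by
    by_cases h : T.d ∣ q - 1
    · exact Or.inr ⟨Nat.gcd_eq_left h, h⟩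
    · exact Or.inl ⟨(hA.prime.coprime_iff_not_dvd.2 h), h⟩
  have hd'N : d' ∣ N := by
    rcases hd'cases with ⟨h1, -⟩ | ⟨h1, h2⟩ <;> rw [h1]
    exacts [one_dvd _, hdN.1 h2]
  -- the roots of unity
  have hNK : (N : K) ≠ 0 := by
    obtain ⟨p, hp⟩ := CharP.exists F
    have hpprime : p.Prime := CharP.char_is_prime F p
    have : CharP K p := charP_of_injective_algebraMap ι.injective p
    obtain ⟨a, -, ha⟩ := FiniteField.card F p
    rw [Ne, CharP.cast_eq_zero_iff K p]
    intro h
    have hpq : (p : ℤ) ∣ (q : ℤ) - 0 := by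
      rw [sub_zero, hqdef, ha]; exact_mod_cast dvd_pow_self p a.ne_zero
    have h1 := polVal_modEq T.c hpq
    rw [← hN, show polVal T.c 0 = T.c.getD 0 0 by
      obtain ⟨b, c', hc'⟩ : ∃ b c', T.c = b :: c' := List.exists_cons_of_ne_nil
        (fun e => by have := hT.hclen; have := hT.hrank; simp [e] at *; omega)
      rw [hc', polVal, List.cons_append, evalL, zero_mul, add_zero, List.getD_cons_zero]] at h1
    have h2 := Int.natAbs_dvd_natAbs.2 ((dvd_sub_right (Int.natCast_dvd_natCast.2 h)).1 h1)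
    rw [hT.hc0, Int.natAbs_natCast, Nat.dvd_one] at h2
    exact hpprime.ne_one h2
  obtain ⟨η, hζ, hηN⟩ : ∃ η : Kˣ, IsPrimitiveRoot (η ^ T.d) N ∧ (T.d ∣ q - 1 → η ^ N ≠ 1) := by
    by_cases hdq : T.d ∣ q - 1
    · have hdK : (T.d : K) ≠ 0 := by
        intro h0
        obtain ⟨k, hk⟩ := hdq
        have hq0 : ((q : ℕ) : K) = 0 := by
          rw [hqdef, ← map_natCast ι, Nat.cast_card_eq_zero F, map_zero]
        have hq1 : ((q - 1 : ℕ) : K) = -1 := by
          rw [Nat.cast_sub (by omega), hq0, Nat.cast_one, zero_sub]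
        rw [hk, Nat.cast_mul, h0, zero_mul] at hq1
        simp at hq1
      have : NeZero ((T.d * N : ℕ) : K) := ⟨by rw [Nat.cast_mul]; exact mul_ne_zero hdK hNK⟩
      obtain ⟨η₀, hη₀⟩ := HasEnoughRootsOfUnity.exists_primitiveRoot K (T.d * N)
      have hpos : 0 < T.d * N := Nat.mul_pos hA.prime.pos hNpos
      obtain ⟨η, rfl⟩ : IsUnit η₀ := hη₀.isUnit hpos.ne'
      have hη : IsPrimitiveRoot η (T.d * N) := IsPrimitiveRoot.coe_units_iff.1 hη₀
      refine ⟨η, hη.pow hpos rfl, fun _ h => ?_⟩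
      have h2 := Nat.le_of_dvd hNpos (hη.dvd_of_pow_eq_one N h)
      nlinarith [hA.prime.two_le]
    · have : NeZero (N : K) := ⟨hNK⟩
      obtain ⟨ζ₀, hζ₀⟩ := HasEnoughRootsOfUnity.exists_primitiveRoot K N
      obtain ⟨x, hx⟩ := IsAlgClosed.exists_pow_nat_eq ζ₀ hA.prime.pos
      have hx0 : x ≠ 0 := fun e => by
        rw [e, zero_pow hA.prime.ne_zero] at hx
        exact hζ₀.ne_zero hNpos.ne' hx.symm
      refine ⟨Units.mk0 x hx0, IsPrimitiveRoot.coe_units_iff.1 ?_, fun h => absurd h hdq⟩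
      simpa [hx] using hζ₀
  set ζ := η ^ T.d with hζdef
  let A : Fin D.rank → ℤ := fun k => ∑ i : Fin D.rank, (T.B.getD k []).getD i 0 * (q : ℤ) ^ (i : ℕ)
  let z : Fin D.rank → Kˣ := fun k => η ^ A k
  have hsum : ∀ (S : Finset (Fin D.rank)) (f : Fin D.rank → ℤ), (∏ k ∈ S, η ^ f k) = η ^ ∑ k ∈ S, f k := by
    intro S f
    induction S using Finset.induction_on with
    | empty => simp
    | insert b S hb ih => rw [Finset.prod_insert hb, Finset.sum_insert hb, zpow_add, ih]
  have hval : ∀ s, s < D.nroots → G.torusVal z s = ζ ^ expo T q s := by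
    intro s hs
    simp only [Good.torusVal, z, A, ← zpow_mul]
    rw [Finset.prod_congr rfl fun k (_ : k ∈ Finset.univ) => by rw [← G.cartan_eq hs k.2], hsum, hζdef,
      ← zpow_natCast, ← zpow_mul, expo_eq]
    congr 1
    simp only [Finset.mul_sum, Finset.sum_mul]
    rw [Finset.sum_comm]
    refine Finset.sum_congr rfl fun i _ => ?_
    rw [← mul_assoc, hA.hdiv ⟨s, hs⟩ i, Finset.sum_mul]
    exact Finset.sum_congr rfl fun k _ => by ring
  have hω : (η ^ N) ^ T.d = 1 := by rw [← pow_mul, mul_comm, pow_mul, ← hζdef, hζ.pow_eq_one]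
  -- one turn multiplies the parameters by powers of `η ^ N`
  have hturn : ∀ k, T.coW (z ^ q) k = z k * (η ^ N) ^ T.vv k := by
    intro k
    simp only [TorusData.coW, MonoidHom.coe_mk, OneHom.coe_mk, Pi.pow_apply, z, ← zpow_natCast, ← zpow_mul]
    rw [hsum, ← zpow_add]
    congr 1
    have hPsum : polVal T.c q = ∑ i : Fin (D.rank + 1), (T.c ++ [1]).getD i 0 * (q : ℤ) ^ (i : ℕ) := by
      rw [polVal, evalL_eq_sum, List.length_append, List.length_singleton, hT.hclen]
      exact (Fin.sum_univ_eq_sum_range (fun i => (T.c ++ [1]).getD i 0 * (q : ℤ) ^ i) (D.rank + 1)).symm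
    have hAext : A k = ∑ i : Fin (D.rank + 1), (T.B.getD k []).getD i 0 * (q : ℤ) ^ (i : ℕ) := by
      rw [Fin.sum_univ_castSucc, Fin.val_last, hA.last k, zero_mul, add_zero]
      rfl
    have hMB : (∑ l, A l * (q : ℤ) * T.coM k l) = ∑ i : Fin (D.rank + 1),
        (if (i : ℕ) = 0 then 0 else ∑ l : Fin D.rank, T.coM k l * (T.B.getD l []).getD (i - 1) 0) *
          (q : ℤ) ^ (i : ℕ) := by
      rw [Fin.sum_univ_succ]
      simp only [Fin.val_zero, if_pos, zero_mul, zero_add, Fin.val_succ, Nat.succ_ne_zero, if_false,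
        Nat.add_sub_cancel, A, Finset.sum_mul]
      rw [Finset.sum_comm]
      exact Finset.sum_congr rfl fun i _ => Finset.sum_congr rfl fun l _ => by ring
    rw [← sub_eq_iff_eq_add', hMB, hAext, hN, hPsum, Finset.sum_mul, ← Finset.sum_sub_distrib]
    exact Finset.sum_congr rfl fun i _ => by rw [← sub_mul, hA.turn k i]; ring
  set n : GL D.Idx K := G.nProd T.L
  have hnN : n ∈ D.monomialSubgroup K := G.nProd_mem T.L
  set t := G.torus z with ht
  have htwist : n * mapGL D (σ : K →+* K) t * n⁻¹ = t := twist_fixed hT (fun x => hσ x) hN hζ hval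
  have hnG : n ∈ D.group K := G.monomial_le_group hnN
  obtain ⟨g, hg, hgn⟩ := lang G hq (σ := (σ : K →+* K)) (fun x => hσ x) hnG
  have hσg : mapGL D (σ : K →+* K) g = g * n := by rw [← hgn, mul_inv_cancel_left]
  set P := groupPres G (F := K)
  obtain ⟨γ, hγ⟩ : g ∈ P.π.range := by rw [P.range_π]; exact hg
  set W := P.W T.L
  obtain ⟨κ, hκ, hσγ⟩ : ∃ κ ∈ Subgroup.center (D.SteinbergGroup K), stMap G (σ : K →+* K) γ = γ * W * κ := by
    refine ⟨(γ * W)⁻¹ * stMap G (σ : K →+* K) γ, mem_center_of_π G hcert ?_, (mul_inv_cancel_left _ _).symm⟩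
    rw [map_mul, map_inv, map_mul, π_stMap, hγ, hσg, P.π_W, inv_mul_cancel]
  have hσpow : ∀ w : Fin D.rank → Kˣ,
      (fun k => Units.map (σ : K →+* K).toMonoidHom (w k)) = w ^ q := fun w => by
    funext k
    exact Units.ext (by simpa using hσ (w k : K))
  have hstfix : ∀ w : Fin D.rank → Kˣ,
      stMap G (σ : K →+* K) (γ * stTorus G hcert w * γ⁻¹) = γ * stTorus G hcert (T.coW (w ^ q)) * γ⁻¹ := by
    intro w
    rw [map_mul, map_mul, map_inv, hσγ, stMap_stTorus, hσpow, ← W_conj hL hU hA hcert]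
    have hc := Subgroup.mem_center_iff.1 hκ (stTorus G hcert (w ^ q))
    calc γ * W * κ * stTorus G hcert (w ^ q) * (γ * W * κ)⁻¹
        = γ * W * (κ * stTorus G hcert (w ^ q) * κ⁻¹) * W⁻¹ * γ⁻¹ := by group
      _ = γ * W * stTorus G hcert (w ^ q) * W⁻¹ * γ⁻¹ := by rw [← hc, mul_inv_cancel_right]
      _ = _ := by simp only [W, P]; group
  have crit : ∀ j : ℕ, g * t ^ j * g⁻¹ ∈ (D.group F).map (mapGL D ι) ↔ d' ∣ j := by
    intro j
    constructor
    · intro hmem
      rcases hd'cases with ⟨h1, -⟩ | ⟨h1, hdq⟩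
      · rw [h1]; exact one_dvd _
      obtain ⟨x0, hx0, hxe⟩ := hmem
      rw [SetLike.mem_coe, ← (groupPres G (F := F)).range_π] at hx0
      obtain ⟨y0, rfl⟩ := hx0
      set y := stMap G ι y0 with hy
      have hπy : P.π y = g * t ^ j * g⁻¹ := by rw [hy, π_stMap]; exact hxe
      have hσy : stMap G (σ : K →+* K) y = y := by
        rw [hy]
        refine DFunLike.congr_fun ((groupPres G).hom_ext (f := (stMap G (σ : K →+* K)).comp (stMap G ι))
          (g := stMap G ι) fun r hr a => ?_) y0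
        rw [MonoidHom.comp_apply, stMap_X G ι hr, stMap_X G _ hr,
          show (σ : K →+* K) (ι a) = ι a from (hfix _).2 ⟨a, rfl⟩]
      obtain ⟨w, hw⟩ := exists_stTorus G hcert (x := γ⁻¹ * y * γ) (by
        rw [map_mul, map_mul, map_inv, hπy, hγ]
        have e : g⁻¹ * (g * t ^ j * g⁻¹) * g = t ^ j := by group
        rw [e, ht, ← map_pow]
        exact G.mem_diagonal.2 ⟨_, rfl⟩)
      have hyw : y = γ * stTorus G hcert w * γ⁻¹ := by rw [← hw]; group
      have hfixw : T.coW (w ^ q) = w := by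
        refine stTorus_injective G Ge hL hcert hU (mul_left_cancel (a := γ) (mul_right_cancel (b := γ⁻¹) ?_))
        rw [← hstfix, ← hyw, hσy]
      have hker : G.torus (w * (z ^ j)⁻¹) = 1 := by
        rw [map_mul, map_inv, map_pow, ← π_stTorus G hcert w, ← hw, map_mul, map_mul, map_inv, hπy, hγ, ← ht]
        group
      set u := w * (z ^ j)⁻¹ with hu
      have huq : u ^ q = u := by
        obtain ⟨e, he⟩ := hdq
        rw [show q = T.d * e + 1 by omega, pow_succ, pow_mul, pow_eq_one_of_ker hA hker, one_pow, one_mul]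
      have hzj : T.coW ((z ^ j) ^ q) = z ^ j := by
        have e := hfixw
        rw [show w = u * z ^ j by rw [hu, inv_mul_cancel_right], mul_pow, map_mul, huq,
          coW_of_ker hL hU hA hcert hker] at e
        exact mul_left_cancel e
      obtain ⟨k, hk⟩ := hA.hv
      have e := congrFun hzj k
      rw [← pow_mul, mul_comm, pow_mul, map_pow, Pi.pow_apply, Pi.pow_apply, hturn, mul_pow, mul_eq_left,
        ← zpow_natCast ((η ^ N) ^ T.vv k), ← zpow_mul] at e
      have hord : orderOf (η ^ N) = T.d :=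
        orderOf_eq_prime (hp := ⟨hA.prime⟩) hω (hηN hdq)
      rw [← orderOf_dvd_iff_zpow_eq_one, hord] at e
      rw [h1]
      rcases (Nat.prime_iff_prime_int.1 hA.prime).dvd_or_dvd e with h | h
      · exact absurd h hk
      · exact_mod_cast h
    · intro hj
      obtain ⟨j', hj', hjj'⟩ : ∃ j', T.d ∣ j' ∧ t ^ j' = t ^ j := by
        rcases hd'cases with ⟨-, hdq⟩ | ⟨h1, -⟩
        · have hco : Nat.Coprime T.d N := hA.prime.coprime_iff_not_dvd.2 fun h => hdq (hdN.2 h)
          obtain ⟨j', h1, h2⟩ := Nat.chineseRemainder hco 0 j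
          refine ⟨j', Nat.modEq_zero_iff_dvd.1 h1, ?_⟩
          have htN : t ^ N = 1 := by
            rw [ht, ← map_pow, G.torus_eq_one_iff]
            intro s hs
            rw [torusVal_pow, hval s hs, ← zpow_natCast, ← zpow_mul, mul_comm, zpow_mul, zpow_natCast,
              hζ.pow_eq_one, one_zpow]
          exact pow_eq_pow_iff_modEq.2 (h2.of_dvd (orderOf_dvd_of_pow_eq_one htN))
        · exact ⟨j, h1 ▸ hj, rfl⟩
      rw [← hjj']
      have hzfix : T.coW ((z ^ j') ^ q) = z ^ j' := by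
        funext k
        obtain ⟨e, rfl⟩ := hj'
        rw [← pow_mul, mul_comm, pow_mul, map_pow, Pi.pow_apply, Pi.pow_apply, hturn, mul_pow]
        refine mul_eq_left.2 ?_
        rw [← zpow_natCast ((η ^ N) ^ T.vv k), ← zpow_mul, mul_comm, zpow_mul, zpow_natCast, pow_mul, hω,
          one_pow, one_zpow]
      have hfx : stMap G (σ : K →+* K) (γ * stTorus G hcert (z ^ j') * γ⁻¹) =
          γ * stTorus G hcert (z ^ j') * γ⁻¹ := by rw [hstfix, hzfix]
      have := π_fixed G hL hU ι σ hcert hfix hfx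
      rwa [map_mul, map_mul, map_inv, π_stTorus, hγ, map_pow] at this
  obtain ⟨x, hx, hxe⟩ := (crit d').2 dvd_rfl
  set x' : ↥(D.group F) := ⟨x, hx⟩
  have hxpow : ∀ k : ℕ, mapGL D ι ((x' ^ k : ↥(D.group F)) : GL D.Idx F) = g * t ^ (d' * k) * g⁻¹ := fun k => by
    rw [SubgroupClass.coe_pow, map_pow, hxe, conj_pow, pow_mul]
  have htpow : ∀ k : ℕ, t ^ k = 1 ↔ N ∣ k := by
    intro k
    rw [ht, ← map_pow, G.torus_eq_one_iff]
    constructor
    · intro h
      have := h T.α₀ hT.hα
      rw [torusVal_pow, hval _ hT.hα, expo_base hT, zpow_one] at this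
      exact hζ.dvd_of_pow_eq_one k this
    · rintro ⟨j, rfl⟩ s hs
      rw [torusVal_pow, hval s hs, ← zpow_natCast (ζ ^ _), ← zpow_mul]
      exact (hζ.zpow_eq_one_iff_dvd _).2 ⟨expo T q s * j, by push_cast; ring⟩
  have hd'pos : 0 < d' := Nat.pos_of_dvd_of_pos hd'N hNpos
  have hord : orderOf x' = N / d' := by
    refine Nat.dvd_antisymm ?_ ?_
    · rw [orderOf_dvd_iff_pow_eq_one]
      refine Subtype.ext (mapGL_injective ι ?_)
      rw [hxpow, (htpow _).2 (dvd_of_eq (Nat.mul_div_cancel' hd'N).symm), mul_one, mul_inv_cancel]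
      simp
    · have h1 := hxpow (orderOf x')
      rw [pow_orderOf_eq_one, OneMemClass.coe_one, map_one] at h1
      exact Nat.div_dvd_iff_dvd_mul hd'N hd'pos |>.2 ((htpow _).1 (conj_eq_one_iff.1 h1.symm))
  refine ⟨Subgroup.zpowers x', inferInstance, by rw [Nat.card_zpowers, hord], le_antisymm ?_ ?_⟩
  swap
  · rintro y ⟨k, rfl⟩
    refine Subgroup.mem_centralizer_iff.2 ?_
    rintro _ ⟨j, rfl⟩
    exact (Commute.zpow_zpow_self x' j k).eq
  intro y hy
  have hcomm : x' * y = y * x' := Subgroup.mem_centralizer_iff.1 hy x' (Subgroup.mem_zpowers x')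
  set Y := mapGL D ι (y : GL D.Idx F) with hYdef
  have hYG : Y ∈ D.group K := mapGL_mem_group ι y.2
  have hYfix : mapGL D (σ : K →+* K) Y = Y :=
    Units.ext (Matrix.ext fun i j => (hfix _).2 ⟨_, rfl⟩)
  set m := g⁻¹ * Y * g with hmdef
  have hmG : m ∈ D.group K := mul_mem (mul_mem (inv_mem hg) hYG) hg
  have hmc : t ^ d' * m = m * t ^ d' := by
    have h1 : (g * t ^ d' * g⁻¹) * Y = Y * (g * t ^ d' * g⁻¹) := by
      rw [← hxe, ← map_mul, ← map_mul]
      exact congrArg (fun w : ↥(D.group F) => mapGL D ι (w : GL D.Idx F)) hcomm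
    calc t ^ d' * m = g⁻¹ * ((g * t ^ d' * g⁻¹) * Y) * g := by rw [hmdef]; group
      _ = g⁻¹ * (Y * (g * t ^ d' * g⁻¹)) * g := by rw [h1]
      _ = _ := by rw [hmdef]; group
  have hσm : mapGL D (σ : K →+* K) m = n⁻¹ * m * n := by
    rw [hmdef, map_mul, map_mul, map_inv, hσg, hYfix]; group
  have hd'd : d' ∣ T.d := Nat.gcd_dvd_left _ _
  obtain ⟨k, hmt⟩ := twisted_centralizer hT (fun x => hσ x) hN hNpos hζ hval d'
    (fun s h => not_dvd_of_notDvd (hA.reg s) hq (by
      rw [evalL_map_mul, ← hN, mul_comm]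
      exact h.trans (mul_dvd_mul_left _ (Int.natCast_dvd_natCast.2 hd'd))))
    hq hd'd (fun k hk h => not_dvd_of_notDvd (hA.free k hk) hq (by
      rw [evalL_map_mul, evalL_sub, ← hN, mul_comm]
      exact h.trans (mul_dvd_mul_left _ (Int.natCast_dvd_natCast.2 hd'd))))
    hmG hmc hσm
  have hk : d' ∣ k := (crit k).1 ⟨y, y.2, by rw [← hmt, hmdef]; simp only [Y]; group⟩
  obtain ⟨e, rfl⟩ := hk
  refine ⟨(e : ℤ), Subtype.ext (mapGL_injective ι ?_)⟩
  show mapGL D ι ((x' ^ (e : ℤ) : ↥(D.group F)) : GL D.Idx F) = Y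
  rw [zpow_natCast, hxpow, ← hmt, hmdef]
  group

end Cfsg.Agent.H67.Chev
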