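import Cfsg.Agent.H67.ChevTorusLang

set_option autoImplicit false

/-!
# The torus table checks on packed tables
-/

namespace Cfsg.Agent.H67.Chev

open Cfsg.Lie Cfsg.Agent.H46

variable {D : ChevalleyDatum} (G : Good D) (T : TorusData D)

namespace TorusData

/-- The action, on packed tables. -/
def actF (s : ℕ) : ℕ := T.L.foldr (fun (i : Fin D.rank) x => G.tab.refl i.val x) s

/-- The coordinates, on packed tables. -/
def eCF (s i : ℕ) : ℤ :=
  ((List.range D.rank).map fun k => (T.B.getD k []).getD i 0 * G.tab.cart D.rank k s).sum / (T.d : ℤ)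

/-- The coordinate vector, on packed tables. -/
def eVF (s : ℕ) : List ℤ := (List.range D.rank).map (T.eCF G s)

/-- The translates, on packed tables. -/
def orbF : ℕ → ℕ
  | 0 => T.α₀
  | k + 1 => T.actF G (orbF k)

/-- The translates of a root, on packed tables. -/
def orbOfF (s : ℕ) : ℕ → ℕ
  | 0 => s
  | k + 1 => T.actF G (orbOfF s k)

theorem act_eq_actF {s : ℕ} (hs : s < D.nroots) : T.act s = T.actF G s ∧ T.act s < D.nroots := by
  unfold act actF
  induction T.L with
  | nil => exact ⟨rfl, hs⟩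
  | cons i L ih =>
    simp only [List.foldr_cons]
    rw [← ih.1]
    exact ⟨(G.refl_eq i.2 ih.2).symm, G.reflectRoot_lt i.2 ih.2⟩

theorem eC_eq_eCF {s : ℕ} (hs : s < D.nroots) (i : ℕ) : T.eC s i = T.eCF G s i := by
  refine congrArg (fun L : List ℤ => L.sum / (T.d : ℤ)) (List.map_congr_left fun k hk => ?_)
  rw [G.cartan_eq_cart hs (List.mem_range.1 hk)]

theorem eV_eq_eVF {s : ℕ} (hs : s < D.nroots) : T.eV s = T.eVF G s :=
  List.map_congr_left fun i _ => T.eC_eq_eCF G hs i

theorem orb_eq_orbF (h : T.α₀ < D.nroots) : ∀ k, T.orb k = T.orbF G k ∧ T.orb k < D.nroots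
  | 0 => ⟨rfl, h⟩
  | k + 1 => by
    obtain ⟨e, hlt⟩ := orb_eq_orbF h k
    show T.act (T.orb k) = T.actF G (T.orbF G k) ∧ T.act (T.orb k) < _
    rw [← e]
    exact T.act_eq_actF G hlt

theorem orbOf_eq_orbOfF {s : ℕ} (h : s < D.nroots) : ∀ k, T.orbOf s k = T.orbOfF G s k ∧ T.orbOf s k < D.nroots
  | 0 => ⟨rfl, h⟩
  | k + 1 => by
    obtain ⟨e, hlt⟩ := orbOf_eq_orbOfF h k
    show T.act (T.orbOf s k) = T.actF G (T.orbOfF G s k) ∧ T.act (T.orbOf s k) < _
    rw [← e]
    exact T.act_eq_actF G hlt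

end TorusData

variable {G T}

/-- The table checks follow from the checks on packed tables. -/
theorem TorusOk.of_fast (hα : T.α₀ < D.nroots) (hclen : T.c.length = D.rank)
    (hc0 : (T.c.getD 0 0).natAbs = 1) (hrank : 0 < D.rank)
    (shift : ∀ s : Fin D.nroots, T.eVF G (T.actF G s) = T.shiftRed (T.eVF G s))
    (unit : T.eVF G T.α₀ = (List.range D.rank).map fun i => if i = 0 then 1 else 0)
    (basis : ∀ s : Fin D.nroots, ∀ k : Fin D.rank,
      G.rc s k = ∑ i : Fin D.rank, T.eCF G s i * G.rc (T.orbF G i) k)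
    (cand : ∀ β : Fin D.nroots, (β : ℕ) ∈ (List.range T.h).map (T.orbF G) ∨
      (∃ j : Fin D.rank, ((List.range D.nroots).map G.key).elem
        (∑ i : Fin D.rank, T.eCF G (D.simple j) i * G.key (T.orbOfF G β i)) = false) ∨
      NotDvd T.c ((List.zipWith (· - ·) (T.eVF G β) (T.eVF G T.α₀)).map fun a => (T.d : ℤ) * a))
    (reg : ∀ s : Fin D.nroots, NotDvd T.c (T.eVF G s))
    (free : ∀ k : Fin T.h, (k : ℕ) ≠ 0 →
      NotDvd T.c (List.zipWith (· - ·) (T.eVF G (T.orbF G k)) (T.eVF G T.α₀))) :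
    TorusOk G T where
  hα := hα
  hclen := hclen
  hc0 := hc0
  hrank := hrank
  shift s := by
    obtain ⟨e, hlt⟩ := T.act_eq_actF G s.2
    rw [T.eV_eq_eVF G hlt, e, T.eV_eq_eVF G s.2]
    exact shift s
  unit := by rw [T.eV_eq_eVF G hα]; exact unit
  basis s k := by
    rw [basis s k]
    exact Finset.sum_congr rfl fun i _ => by
      rw [T.eC_eq_eCF G s.2, (T.orb_eq_orbF G hα i).1]
  cand β := by
    refine (cand β).imp (fun h => ?_) (Or.imp (fun ⟨j, hj⟩ => ⟨j, fun s e => ?_⟩)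
      fun h => by rw [T.eV_eq_eVF G β.2, T.eV_eq_eVF G hα]; exact h)
    · rwa [List.map_congr_left fun k _ => (T.orb_eq_orbF G hα k).1]
    · have hm : G.key s ∈ (List.range D.nroots).map G.key :=
        List.mem_map_of_mem (List.mem_range.2 s.2)
      rw [e, Finset.sum_congr rfl fun i _ => by
        rw [T.eC_eq_eCF G (G.simple_lt j.2), (T.orbOf_eq_orbOfF G β.2 i).1]] at hm
      rw [List.elem_eq_mem, decide_eq_false_iff_not] at hj
      exact hj hm
  reg s := by rw [T.eV_eq_eVF G s.2]; exact reg s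
  free k hk := by
    rw [T.eV_eq_eVF G (T.orb_eq_orbF G hα k).2, (T.orb_eq_orbF G hα k).1, T.eV_eq_eVF G hα]
    exact free k hk

end Cfsg.Agent.H67.Chev
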