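import Mathlib
import Cfsg.Agent.H46.Parabolic
import Cfsg.Agent.H65.Chev.G2

set_option autoImplicit false

/-!
# Weakly closed subgroups of the unipotent group of a Chevalley group

A subgroup `X` of `U` weakly closed in `U` is normalised by `B`.  With `J` the set of nodes `i` such that no
element of `X` involves `p_i`, the elements `n_j`, `j ∈ J`, normalise `X`, so `X ≤ U_J`; torus commutators isolate
the root subgroups `X_{p_i}`, `i ∉ J`, inside `X`, and commutators with `U` then give all of `U_J`.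
-/

namespace Cfsg.Agent.H67.Chev

open Cfsg.Lie Cfsg.Agent.H46 Cfsg.Agent.H65
open scoped Matrix MatrixGroups

section Elementary

variable {F : Type*} [Field F]

/-- A non-zero additive subgroup stable under multiplication by non-zero squares is everything. -/
theorem eq_top_of_sq_stable [Finite F] (A : AddSubgroup F) (hA : ∀ c : F, c ≠ 0 → ∀ b ∈ A, c ^ 2 * b ∈ A)
    {a : F} (ha : a ∈ A) (ha0 : a ≠ 0) (b : F) : b ∈ A := by
  have hsq : ∀ c : F, c ^ 2 * a ∈ A := fun c => by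
    by_cases hc : c = 0
    · simp [hc]
    · exact hA c hc a ha
  obtain h2 | h2 := eq_or_ne (ringChar F) 2
  · obtain ⟨c, hc⟩ := FiniteField.isSquare_of_char_two h2 (b * a⁻¹)
    have := hsq c
    rwa [pow_two, ← hc, inv_mul_cancel_right₀ ha0] at this
  · have h2' : (2 : F) ≠ 0 := Ring.two_ne_zero h2
    have := sub_mem (hsq ((b * a⁻¹ + 1) / 2)) (hsq ((b * a⁻¹ - 1) / 2))
    convert this using 1
    field_simp
    ring

theorem exists_ne_ne [Finite F] (h : 3 ≤ Nat.card F) (a b : F) : ∃ l : F, l ≠ a ∧ l ≠ b := by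
  classical
  have := Fintype.ofFinite F
  rw [Nat.card_eq_fintype_card] at h
  by_contra hc
  push Not at hc
  have h1 : Fintype.card F ≤ ({a, b} : Finset F).card := Finset.card_le_card fun x _ => by
    by_cases hx : x = a
    · simp [hx]
    · simp [hc x hx]
  have h2 : ({a, b} : Finset F).card ≤ 2 := Finset.card_le_two
  omega

theorem exists_good_scalar [Finite F] (h : 4 ≤ Nat.card F) : ∃ l : F, l ≠ 0 ∧ l ≠ 1 ∧ l ≠ -1 := by
  classical
  have := Fintype.ofFinite F
  rw [Nat.card_eq_fintype_card] at h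
  by_contra hc
  push Not at hc
  have h1 : Fintype.card F ≤ ({0, 1, -1} : Finset F).card := Finset.card_le_card fun x _ => by
    by_cases hx : x = 0
    · simp [hx]
    · by_cases hx' : x = 1
      · simp [hx']
      · simp [hc x hx hx']
  have h2 : ({0, 1, -1} : Finset F).card ≤ 3 := Finset.card_le_three
  omega

end Elementary

variable {D : ChevalleyDatum} (G : Good D) {F : Type*} [Field F]

include G in
theorem commTerms_ne_simple {i r s : ℕ} (hi : i < D.rank) (hr : D.IsPosRoot r) (hs : D.IsPosRoot s)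
    (hne : s ≠ r) {c : ℕ × ℤ × ℕ × ℕ} (hc : c ∈ D.commTerms r s) : c.1 ≠ D.simple i := by
  intro e
  obtain ⟨-, h2, h3, h4⟩ := G.commTerms_spec hr.1 hs.1 hc
  rw [e, G.rc_simple hi] at h4
  have key : ∀ k : Fin D.rank, k.val ≠ i → G.rc r k = 0 ∧ G.rc s k = 0 := fun k hk => by
    have := congrFun h4 k
    rw [Pi.single_eq_of_ne (fun h => hk (congrArg Fin.val h))] at this
    simp only [Pi.add_apply, Pi.smul_apply, smul_eq_mul] at this
    have hr0 := G.rc_nonneg hr k
    have hs0 := G.rc_nonneg hs k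
    constructor <;> nlinarith
  exact hne ((G.eq_simple_of_rc_support hi hs fun k hk => (key k hk).2).trans
    (G.eq_simple_of_rc_support hi hr fun k hk => (key k hk).1).symm)

/-- What weak closure in `U` gives at once. -/
structure WClosed (G : Good D) (X : Subgroup (GL D.Idx F)) : Prop where
  le : X ≤ D.posUnipotent F
  conj : ∀ g ∈ D.group F, (∀ x ∈ X, g * x * g⁻¹ ∈ D.posUnipotent F) → ∀ x ∈ X, g * x * g⁻¹ ∈ X

theorem wclosed_of_map (X : Subgroup (GL D.Idx F)) (hXU : X ≤ D.posUnipotent F)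
    (hwc : ∀ g ∈ D.group F, X.map (MulAut.conj g).toMonoidHom ≤ D.posUnipotent F →
      X.map (MulAut.conj g).toMonoidHom = X) : WClosed G X := by
  refine ⟨hXU, fun g hg h x hx => ?_⟩
  have e := hwc g hg (by rintro _ ⟨y, hy, rfl⟩; exact h y hy)
  rw [← e]
  exact ⟨x, hx, rfl⟩

/-- The nodes not involved in `X`. -/
def nodes (X : Subgroup (GL D.Idx F)) : Set ℕ := {i | i < D.rank ∧ X ≤ D.unipotentRadical F {i}}

section General

variable {G} {X : Subgroup (GL D.Idx F)} (hX : WClosed G X)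

include hX in
theorem conj_borel {g : GL D.Idx F} (hg : g ∈ D.borelSubgroup F) {x : GL D.Idx F} (hx : x ∈ X) :
    g * x * g⁻¹ ∈ X :=
  hX.conj g (G.borel_le_group hg) (fun _ hy => G.conj_posUnipotent hg (hX.le hy)) x hx

include hX in
theorem conj_pos {r : ℕ} (hr : D.IsPosRoot r) (t : F) {x : GL D.Idx F} (hx : x ∈ X) :
    G.xg r t * x * (G.xg r t)⁻¹ ∈ X := conj_borel hX (G.xg_mem_borel hr t) hx

include hX in
/-- Commutators of `X` with positive root elements lie in `X`. -/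
theorem comm_mem {r : ℕ} (hr : D.IsPosRoot r) (t : F) {x : GL D.Idx F} (hx : x ∈ X) :
    x⁻¹ * (G.xg r t)⁻¹ * x * G.xg r t ∈ X := by
  have := conj_pos hX hr (-t) hx
  rw [← G.xg_inv, inv_inv] at this
  simpa [mul_assoc] using mul_mem (inv_mem hx) this

include hX in
theorem word_mem {r s : ℕ} (hr : D.IsPosRoot r) (hs : D.IsPosRoot s) (hrs : s ≠ r)
    {L : List (ℕ × ℤ × ℕ × ℕ)} (hL : D.commTerms r s = L)
    (hmem : (∀ t : F, G.xg r t ∈ X) ∨ ∀ t : F, G.xg s t ∈ X) (T u : F) :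
    (L.map fun c => G.xg c.1 ((c.2.1 : F) * T ^ c.2.2.1 * u ^ c.2.2.2)).prod ∈ X := by
  have e := xg_mul_xg G hr.1 hs.1 hrs (G.ne_neg_of_pos hr hs) hL (-T) u
  rw [neg_neg] at e
  set w := (L.map fun c => G.xg c.1 ((c.2.1 : F) * T ^ c.2.2.1 * u ^ c.2.2.2)).prod
  have hw : w = (G.xg s u)⁻¹ * (G.xg r (-T))⁻¹ * G.xg s u * G.xg r (-T) := by
    rw [mul_assoc _ (G.xg s u), e]; group
  rcases hmem with h | h
  · have := inv_mem (comm_mem hX hs u (h (-T)))
    rw [hw]; simpa [mul_assoc] using this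
  · rw [hw]; exact comm_mem hX hr (-T) (h u)

include hX in
theorem ng_conj_mem {j : ℕ} (hj : j ∈ nodes X) {x : GL D.Idx F} (hx : x ∈ X) :
    G.ng (D.simple j) 1 * x * (G.ng (D.simple j) 1)⁻¹ ∈ X := by
  refine hX.conj _ (G.ng_mem_group _ _) (fun y hy => ?_) x hx
  have hn := G.parabolic_le_normalizer (J := {j}) (G.ng_simple_mem_parabolic (F := F) hj.1 rfl)
  have := (Subgroup.mem_normalizer_iff.1 hn y).1 (hj.2 hy)
  rw [G.unipotentRadical_eq] at this
  exact G.posSub_le_posUnipotent _ this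

include hX in
/-- `X ≤ U_J`. -/
theorem le_radical : X ≤ D.unipotentRadical F (nodes X) := by
  intro x hx
  have hxU := hX.le hx
  rw [G.posUnipotent_eq] at hxU
  obtain ⟨t, ⟨ht, rfl⟩, huniq⟩ := G.posSub_normal_form G.posClosed_univ hxU
  have key : ∀ r, D.IsPosRoot r → D.InRootSub (nodes X) r → ∀ hr : r < D.nroots, ∃ n : GL D.Idx F,
      n ∈ D.monomialSubgroup F ∧ (∀ y ∈ X, n * y * n⁻¹ ∈ X) ∧ D.IsNegRoot (G.perm n ⟨r, hr⟩) := by
    refine G.inRootSub_induction (P := fun r => ∀ hr : r < D.nroots, ∃ n : GL D.Idx F,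
      n ∈ D.monomialSubgroup F ∧ (∀ y ∈ X, n * y * n⁻¹ ∈ X) ∧ D.IsNegRoot (G.perm n ⟨r, hr⟩)) ?_ ?_
    · intro j hj hjJ hr
      refine ⟨G.ng (D.simple j) 1, G.ng_mem_N (G.simple_lt hj) one_ne_zero, fun y hy => ng_conj_mem hX hjJ hy, ?_⟩
      rw [G.perm_ng_simple ⟨j, hj⟩, G.sPerm_apply, G.reflectRoot_simple hj]
      exact G.isNegRoot_neg (G.isPosRoot_simple hj)
    · intro j s hj hjJ hs _ ih hr
      obtain ⟨n, hn, hnX, hneg⟩ := ih hs.1
      have hnj : G.ng (D.simple j) (1 : F) ∈ D.monomialSubgroup F := G.ng_mem_N (G.simple_lt hj) one_ne_zero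
      refine ⟨n * G.ng (D.simple j) 1, mul_mem hn hnj, fun y hy => ?_, ?_⟩
      · simpa [mul_assoc] using hnX _ (ng_conj_mem hX hjJ hy)
      · have e : G.sPerm ⟨j, hj⟩ ⟨D.reflectRoot j s, hr⟩ = ⟨s, hs.1⟩ := Fin.ext (by
          rw [G.sPerm_apply]; exact G.reflectRoot_reflectRoot hj hs.1)
        rw [G.perm_mul hn hnj, G.perm_ng_simple ⟨j, hj⟩, Equiv.Perm.mul_apply, e]
        exact hneg
  rw [G.unipotentRadical_eq]
  refine G.ordProd_half_mem fun r hr hrS => ?_
  have hJ : D.InRootSub (nodes X) r := by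
    by_contra h
    exact hrS ⟨hr, h⟩
  obtain ⟨n, hn, hnX, hneg⟩ := key r hr hJ hr.1
  obtain ⟨a, ha, b, hb, hab⟩ := G.factor (G.invSet n)ᶜ (hX.le hx)
  rw [compl_compl] at hb
  have hb1 : n * b * n⁻¹ = 1 := by
    rw [← Subgroup.mem_bot, ← G.pos_inf_neg]
    refine ⟨?_, G.conj_posSub_invSet hn hb⟩
    have := mul_mem (inv_mem (G.conj_posSub_compl hn ha)) (hX.le (hnX _ hx))
    rw [hab] at this
    simpa [mul_assoc] using this
  rw [conj_eq_one_iff] at hb1
  rw [hb1, mul_one] at hab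
  obtain ⟨t', ⟨ht', he⟩, -⟩ := G.posSub_normal_form (G.posClosed_invSet_compl hn) ha
  have : t' = t := huniq t' ⟨fun q hq => ht' q (hq.imp (fun h => absurd (Set.mem_univ q) h) id),
    hab.trans he⟩
  rw [← this]
  exact ht' r (Or.inl fun h => h ⟨hr.1, hr, hneg⟩)

include hX in
/-- `X` contains the whole root subgroup of any of its non-trivial root elements. -/
theorem line_mem [Finite F] {r : ℕ} (hr : D.IsPosRoot r) {a : F} (ha : a ≠ 0) (h : G.xg r a ∈ X) (b : F) :
    G.xg r b ∈ X := by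
  let A : AddSubgroup F :=
    { carrier := {b | G.xg r b ∈ X}
      add_mem' := fun {u v} (hu : G.xg r u ∈ X) (hv : G.xg r v ∈ X) => by
        show G.xg r (u + v) ∈ X
        rw [← G.xg_add]
        exact mul_mem hu hv
      zero_mem' := by show G.xg r (0 : F) ∈ X; rw [G.xg_zero]; exact one_mem _
      neg_mem' := fun {u} (hu : G.xg r u ∈ X) => by
        show G.xg r (-u) ∈ X
        rw [← G.xg_inv]
        exact inv_mem hu }
  refine eq_top_of_sq_stable A (fun c hc u hu => ?_) h ha b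
  show G.xg r (c ^ 2 * u) ∈ X
  have hb : G.hg r c ∈ D.borelSubgroup F := Subgroup.mem_sup_right (G.hg_mem_diagonal hr.1 hc)
  have := conj_borel hX hb hu
  rwa [G.hg_mul_xg hr.1 hr.1 hc, G.pairing_self hr.1, zpow_two, ← pow_two, mul_inv_cancel_right] at this

/-- The torus separates the root `p_i` from the root `k`. -/
def Sep (G : Good D) (F : Type*) [Field F] (i k : ℕ) : Prop :=
  ∃ z : Fin D.rank → Fˣ, G.torusVal z k = 1 ∧ G.torusVal z (D.simple i) ≠ 1

theorem posClosed_tail {i : ℕ} (hi : i < D.rank) (k : ℕ) :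
    G.PosClosed {s | s ≠ D.simple i ∧ k ≤ s} := fun r s hr hs ⟨_, hr2⟩ _ hne c hc =>
  ⟨commTerms_ne_simple G hi hr hs hne hc, hr2.trans (G.commTerms_pos hr hs hc).2.1.le⟩

theorem xg_norm_tail {i : ℕ} (hi : i < D.rank) (k : ℕ) {r : ℕ} (hr : D.IsPosRoot r) (v : F) {q : GL D.Idx F}
    (hq : q ∈ G.posSub (F := F) {s | s ≠ D.simple i ∧ k ≤ s}) :
    G.xg r v * q * (G.xg r v)⁻¹ ∈ G.posSub (F := F) {s | s ≠ D.simple i ∧ k ≤ s} :=
  (Subgroup.mem_normalizer_iff.1 (G.xg_mem_normalizer_posSub (T := {s | s ≠ D.simple i ∧ k ≤ s}) hr (fun _ hs ⟨_, hsk⟩ hne c hc =>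
    ⟨commTerms_ne_simple G hi hr hs hne hc, le_trans hsk (G.commTerms_pos hr hs hc).2.2.le⟩) v) q).1 hq

include hX in
/-- Torus commutators push an element involving `p_i` upwards. -/
theorem exists_tail {i : ℕ} (hi : i < D.rank) (hiJ : i ∉ nodes X) : ∀ k, D.nroots / 2 ≤ k → k ≤ D.nroots →
    (∀ k', D.nroots / 2 ≤ k' → k' < k → k' ≠ D.simple i → Sep G F i k') →
    ∃ (a : F) (y : GL D.Idx F), a ≠ 0 ∧ y ∈ G.posSub (F := F) {s | s ≠ D.simple i ∧ k ≤ s} ∧
      G.xg (D.simple i) a * y ∈ X := by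
  intro k hk
  induction k, hk using Nat.le_induction with
  | base =>
    intro _ _
    obtain ⟨x, hx, hxn⟩ := SetLike.not_le_iff_exists.1 fun h => hiJ ⟨hi, h⟩
    obtain ⟨a, ha, b, hb, rfl⟩ := G.factor {D.simple i} (hX.le hx)
    have ha' : G.posSub (F := F) {D.simple i} ≤ D.rootSubgroup F (D.simple i) := by
      refine (Subgroup.closure_le _).2 ?_
      rintro g ⟨r, v, ⟨-, hr⟩, rfl⟩
      rw [show r = D.simple i from hr]
      exact G.xg_mem_rootSubgroup _ _
    obtain ⟨a, rfl⟩ := G.mem_rootSubgroup.1 (ha' ha)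
    refine ⟨a, b, fun e => hxn ?_, G.posSub_mono (S := {D.simple i}ᶜ) (T := {s | s ≠ D.simple i ∧ D.nroots / 2 ≤ s}) (fun r hr h => And.intro h (G.isPosRoot_iff.1 hr).1) hb, hx⟩
    rw [e, G.xg_zero, one_mul, G.unipotentRadical_eq]
    exact G.posSub_mono (T := G.radSet {i}) (fun r hr h => (G.mem_radSet_singleton hi).2 ⟨hr, h⟩) hb
  | succ k hk ih =>
    intro hkn hsep
    obtain ⟨a, y, ha, hy, hx⟩ := ih (by omega) fun k' h1 h2 h3 => hsep k' h1 (by omega) h3
    by_cases hki : k = D.simple i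
    · exact ⟨a, y, ha, G.posSub_mono (S := {s | s ≠ D.simple i ∧ k ≤ s}) (T := {s | s ≠ D.simple i ∧ k + 1 ≤ s}) (fun r _ h => And.intro h.1 (by have h1 : r ≠ D.simple i := h.1; have h2 : k ≤ r := h.2; omega)) hy, hx⟩
    have hkp : D.IsPosRoot k := G.isPosRoot_iff.2 ⟨hk, by omega⟩
    set T : Set ℕ := {s | s ≠ D.simple i ∧ k + 1 ≤ s}
    have hnorm : D.rootSubgroup F k ≤ Subgroup.normalizer (G.posSub (F := F) T : Set (GL D.Idx F)) := by
      intro g hg
      obtain ⟨v, rfl⟩ := G.mem_rootSubgroup.1 hg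
      exact G.xg_mem_normalizer_posSub (T := T) hkp (fun _ hs ⟨_, hsk⟩ hne c hc =>
        ⟨commTerms_ne_simple G hi hkp hs hne hc, le_trans hsk (G.commTerms_pos hkp hs hc).2.2.le⟩) v
    have hle : G.posSub (F := F) {s | s ≠ D.simple i ∧ k ≤ s} ≤ D.rootSubgroup F k ⊔ G.posSub T := by
      refine (Subgroup.closure_le _).2 ?_
      rintro g ⟨r, v, ⟨hr, h1, h2⟩, rfl⟩
      rcases eq_or_lt_of_le h2 with rfl | h
      · exact Subgroup.mem_sup_left (G.xg_mem_rootSubgroup _ _)
      · exact Subgroup.mem_sup_right (G.xg_mem_posSub (S := T) hr (And.intro h1 h) v)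
    have hy' := hle hy
    rw [← SetLike.mem_coe, Subgroup.coe_mul_of_left_le_normalizer_right _ _ hnorm] at hy'
    obtain ⟨x1, hx1, y2, hy2, rfl⟩ := hy'
    obtain ⟨v, rfl⟩ := G.mem_rootSubgroup.1 hx1
    obtain ⟨z, hz1, hz2⟩ := hsep k hk (by omega) hki
    have hzB : G.torus z ∈ D.borelSubgroup F := Subgroup.mem_sup_right (G.mem_diagonal.2 ⟨z, rfl⟩)
    have hmem := mul_mem (conj_borel hX hzB hx) (inv_mem hx)
    set c : F := (G.torusVal z (D.simple i) : F)
    have hcon : ∀ g ∈ G.posSub (F := F) T, G.torus z * g * (G.torus z)⁻¹ ∈ G.posSub T := by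
      have hN := G.torus_mem_normalizer_gen (F := F) (S := fun r => D.IsPosRoot r ∧ r ∈ T)
        (fun r h => h.1.1) z
      intro g hg
      have e : G.posSub (F := F) T = Subgroup.closure {g : GL D.Idx F | ∃ (r : ℕ) (t : F),
          (D.IsPosRoot r ∧ r ∈ T) ∧ (g : Matrix D.Idx D.Idx F) = D.x F r t} := by
        refine le_antisymm (Subgroup.closure_mono ?_) ((Subgroup.closure_le _).2 ?_)
        · rintro g ⟨r, t, h, rfl⟩; exact ⟨r, t, h, G.coe_xg r t⟩
        · rintro g ⟨r, t, h, hg⟩; rw [G.eq_xg hg]; exact G.xg_mem_posSub h.1 h.2 t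
      rw [e] at hg ⊢
      exact (Subgroup.mem_normalizer_iff.1 hN g).1 hg
    set q := G.xg k v * (G.torus z * y2 * (G.torus z)⁻¹ * y2⁻¹) * (G.xg k v)⁻¹
    have hq : q ∈ G.posSub (F := F) T := xg_norm_tail hi (k + 1) hkp v (mul_mem (hcon y2 hy2) (inv_mem hy2))
    refine ⟨(c - 1) * a, G.xg (D.simple i) a * q * (G.xg (D.simple i) a)⁻¹, ?_,
      xg_norm_tail hi (k + 1) (G.isPosRoot_simple hi) a hq, ?_⟩
    · exact mul_ne_zero (sub_ne_zero.2 fun e => hz2 (Units.ext e)) ha
    · have e : G.torus z * (G.xg (D.simple i) a * (G.xg k v * y2)) * (G.torus z)⁻¹ *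
          (G.xg (D.simple i) a * (G.xg k v * y2))⁻¹ =
          (G.torus z * G.xg (D.simple i) a * (G.torus z)⁻¹) * ((G.torus z * G.xg k v * (G.torus z)⁻¹) *
            (G.torus z * y2 * (G.torus z)⁻¹ * y2⁻¹) * (G.xg k v)⁻¹) * (G.xg (D.simple i) a)⁻¹ := by group
      rw [e, G.torus_conj_xg z (G.simple_lt hi), G.torus_conj_xg z hkp.1, hz1, Units.val_one, one_mul] at hmem
      convert hmem using 1
      show G.xg (D.simple i) ((c - 1) * a) * (G.xg (D.simple i) a * q * (G.xg (D.simple i) a)⁻¹) =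
        G.xg (D.simple i) (c * a) * q * (G.xg (D.simple i) a)⁻¹
      rw [show c * a = (c - 1) * a + a by ring, ← G.xg_add]
      group

include hX in
theorem simple_mem_of_sep [Finite F] {i : ℕ} (hi : i < D.rank) (hiJ : i ∉ nodes X)
    (hsep : ∀ k, D.IsPosRoot k → k ≠ D.simple i → Sep G F i k) (t : F) : G.xg (D.simple i) t ∈ X := by
  obtain ⟨a, y, ha, hy, hx⟩ := exists_tail hX hi hiJ D.nroots (by omega) le_rfl
    fun k h1 h2 h3 => hsep k (G.isPosRoot_iff.2 ⟨h1, h2⟩) h3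
  have hy1 : y = 1 := by
    have : G.posSub (F := F) {s | s ≠ D.simple i ∧ D.nroots ≤ s} = ⊥ := by
      rw [Good.posSub, Subgroup.closure_eq_bot_iff]
      rintro g ⟨r, v, ⟨hr, -, hrk⟩, rfl⟩
      exact absurd hr.1 (not_lt.2 hrk)
    rwa [this, Subgroup.mem_bot] at hy
  rw [hy1, mul_one] at hx
  exact line_mem hX (G.isPosRoot_simple hi) ha hx t

end General

/-- One or two commutator terms, with coefficients `±1`, one of them the root `r`. -/
def shapeOk (D : ChevalleyDatum) (j r' r : ℕ) : Bool :=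
  match D.commTerms j r' with
  | [c] => c.2.1.natAbs == 1 && c.1 == r && c.2.2.1 == 1 && c.2.2.2 == 1
  | [c, d] => c.2.1.natAbs == 1 && d.2.1.natAbs == 1 && c.2.2.1 == 1 && c.2.2.2 == 1 && (c.1 == r || d.1 == r) &&
      ((d.2.2.1 == 2 && d.2.2.2 == 1) || (d.2.2.1 == 1 && d.2.2.2 == 2))
  | _ => false

/-- The root `r` is reached from a lower root by a commutator with a fundamental root element. -/
def GenOk (D : ChevalleyDatum) (r : ℕ) : Prop :=
  (∃ i : Fin D.rank, r = D.simple i) ∨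
  ∃ i : Fin D.rank, 0 < D.cartan i r ∧ shapeOk D (D.simple i) (D.reflectRoot i r) r = true

instance (D : ChevalleyDatum) (r : ℕ) : Decidable (GenOk D r) := inferInstanceAs (Decidable (_ ∨ _))

theorem cast_natAbs_one {F : Type*} [Field F] {m : ℤ} (h : m.natAbs = 1) : (m : F) ≠ 0 := by
  rcases Int.natAbs_eq_iff.1 h with rfl | rfl <;> simp

variable {G} {X : Subgroup (GL D.Idx F)} (hX : WClosed G X)

include hX in
theorem shape_mem [Finite F] (hF : 3 ≤ Nat.card F) {j r' r : ℕ} (hj : D.IsPosRoot j) (hr' : D.IsPosRoot r')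
    (hne : r' ≠ j) (hs : shapeOk D j r' r = true)
    (hmem : (∀ t : F, G.xg j t ∈ X) ∨ ∀ t : F, G.xg r' t ∈ X) (v : F) : G.xg r v ∈ X := by
  rcases hL : D.commTerms j r' with _ | ⟨⟨k1, c1, i1, j1⟩, _ | ⟨⟨k2, c2, i2, j2⟩, _ | ⟨_, _⟩⟩⟩ <;>
    simp only [shapeOk, hL, Bool.and_eq_true, Bool.or_eq_true, beq_iff_eq, Bool.false_eq_true] at hs
  · obtain ⟨⟨⟨h1, rfl⟩, rfl⟩, rfl⟩ := hs
    have := word_mem hX hj hr' hne hL hmem 1 (v / (c1 : F))
    simp only [List.map_cons, List.map_nil, List.prod_cons, List.prod_nil, mul_one, pow_one] at this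
    rwa [mul_div_cancel₀ _ (cast_natAbs_one h1)] at this
  · obtain ⟨⟨⟨⟨⟨h1, h2⟩, rfl⟩, rfl⟩, hr⟩, hij⟩ := hs
    have hc1 := cast_natAbs_one (F := F) h1
    have hc2 := cast_natAbs_one (F := F) h2
    have hw : ∀ T u : F, G.xg k1 ((c1 : F) * T * u) * G.xg k2 ((c2 : F) * T ^ i2 * u ^ j2) ∈ X := fun T u => by
      simpa using word_mem hX hj hr' hne hL hmem T u
    obtain ⟨l, hl0, hl1⟩ := exists_ne_ne hF (0 : F) 1
    have hl : (l * l - l) ≠ 0 := by
      rw [← mul_sub_one]; exact mul_ne_zero hl0 (sub_ne_zero.2 hl1)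
    have hk2 : ∀ w : F, G.xg k2 w ∈ X := by
      intro w
      have key : ∀ (A B : F), G.xg k1 (A) * G.xg k2 B ∈ X → ∀ B', G.xg k1 A * G.xg k2 B' ∈ X →
          G.xg k2 (B' - B) ∈ X := fun A B h B' h' => by
        have := mul_mem (inv_mem h) h'
        rwa [mul_inv_rev, mul_assoc, inv_mul_cancel_left, G.xg_inv, G.xg_add, neg_add_eq_sub] at this
      rcases hij with ⟨rfl, rfl⟩ | ⟨rfl, rfl⟩
      · set u : F := w / ((c2 : F) * (l * l - l))
        have h' := key _ _ (hw 1 (l * u)) _ (by convert hw l u using 3; ring)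
        convert h' using 2
        simp only [u]; field_simp
      · set u : F := w / ((c2 : F) * (l * l - l))
        have h' := key _ _ (hw (l * u) 1) _ (by convert hw u l using 3; ring)
        convert h' using 2
        simp only [u]; field_simp
    rcases hr with rfl | rfl
    · have := mul_mem (hw (v / c1) 1) (hk2 (-((c2 : F) * (v / c1) ^ i2 * 1 ^ j2)))
      rwa [mul_assoc, G.xg_add, add_neg_cancel, G.xg_zero, mul_one, mul_one,
        mul_div_cancel₀ _ hc1] at this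
    · exact hk2 v

include hX in
/-- `U_J ≤ X` when the simple root subgroups off `J` lie in `X` and all roots are reached. -/
theorem radical_le [Finite F] (hF : 3 ≤ Nat.card F)
    (hsimple : ∀ i, i < D.rank → i ∉ nodes X → ∀ t : F, G.xg (D.simple i) t ∈ X)
    (hgen : ∀ r : Fin D.nroots, D.IsPosRoot r → GenOk D r) : D.unipotentRadical F (nodes X) ≤ X := by
  suffices h : ∀ r, D.IsPosRoot r → ¬ D.InRootSub (nodes X) r → ∀ t : F, G.xg r t ∈ X by
    refine (Subgroup.closure_le _).2 ?_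
    rintro g ⟨r, t, hr, hJ, hg⟩
    rw [G.eq_xg hg]
    exact h r hr hJ t
  intro r
  induction r using Nat.strong_induction_on with
  | _ r ih =>
    intro hr hJ t
    rcases hgen ⟨r, hr.1⟩ hr with ⟨i, hi⟩ | ⟨i, hA, hs⟩
    · obtain rfl : r = D.simple i := hi
      exact hsimple i i.2 (fun h => hJ (G.inRootSub_simple i.2 h)) t
    by_cases hri : r = D.simple i
    · subst hri; exact hsimple i i.2 (fun h => hJ (G.inRootSub_simple i.2 h)) t
    have hpos := G.isPosRoot_reflect i.2 hr hri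
    have hlt : D.reflectRoot i r < r := by
      have := G.lt_reflectRoot_of_cartan_neg i.2 hpos.1 (by rw [G.cartan_reflect_self i.2 hr.1]; simp only [] at hA; omega)
      rwa [G.reflectRoot_reflectRoot i.2 hr.1] at this
    have hne : D.reflectRoot i r ≠ D.simple i := fun e => by
      have h1 := G.reflectRoot_reflectRoot i.2 hr.1
      rw [e, G.reflectRoot_simple i.2] at h1
      exact G.not_isNegRoot hr (h1 ▸ G.isNegRoot_neg (G.isPosRoot_simple i.2))
    refine shape_mem hX hF (G.isPosRoot_simple i.2) hpos hne hs ?_ t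
    by_cases hiJ : i.val ∈ nodes X
    · refine Or.inr (ih _ hlt hpos fun h => hJ ?_)
      have := G.inRootSub_reflect i.2 hiJ h
      rwa [G.reflectRoot_reflectRoot i.2 hr.1] at this
    · exact Or.inl (hsimple i i.2 hiJ)

include hX in
/-- The generic case. -/
theorem eq_radical [Finite F] (hF : 3 ≤ Nat.card F)
    (hsep : ∀ i, i < D.rank → ∀ k, D.IsPosRoot k → k ≠ D.simple i → Sep G F i k)
    (hgen : ∀ r : Fin D.nroots, D.IsPosRoot r → GenOk D r) : X = D.unipotentRadical F (nodes X) :=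
  le_antisymm (le_radical hX)
    (radical_le hX hF (fun i hi hiJ => simple_mem_of_sep hX hi hiJ (hsep i hi)) hgen)

/-! ### Separating characters -/

/-- Exponent pairs tried for the separating torus element. -/
def sepPairs : List (ℤ × ℤ) :=
  [(1, 0), (1, 1), (1, -1), (1, 2), (2, 1), (1, -2), (2, -1), (1, 3), (3, 1), (1, -3), (3, -1),
   (2, 3), (3, 2), (2, -3), (3, -2)]

/-- A pair of coroot powers killing the root `k` but moving `p_i` by an exponent below `B`. -/
def SepOk (D : ChevalleyDatum) (B : ℕ) (i k : ℕ) : Prop :=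
  ∃ p ∈ sepPairs, ∃ m l : Fin D.rank, p.1 * D.cartan m k + p.2 * D.cartan l k = 0 ∧
    p.1 * D.cartan m (D.simple i) + p.2 * D.cartan l (D.simple i) ≠ 0 ∧
    (p.1 * D.cartan m (D.simple i) + p.2 * D.cartan l (D.simple i)).natAbs < B

instance (D : ChevalleyDatum) (B i k : ℕ) : Decidable (SepOk D B i k) :=
  inferInstanceAs (Decidable (∃ p ∈ sepPairs, _))

theorem sep_of_sepOk (G : Good D) [Finite F] {B i k : ℕ} (hB : B + 1 ≤ Nat.card F) (hi : i < D.rank)
    (hk : k < D.nroots) (h : SepOk D B i k) : Sep G F i k := by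
  classical
  have := Fintype.ofFinite F
  obtain ⟨p, -, m, l, h0, hne, hlt⟩ := h
  obtain ⟨g, hg⟩ := IsCyclic.exists_generator (α := Fˣ)
  have hord : orderOf g = Nat.card F - 1 := by
    rw [orderOf_eq_card_of_forall_mem_zpowers hg, Nat.card_units]
  have hval : ∀ s, s < D.nroots → G.torusVal (Pi.mulSingle m (g ^ p.1) * Pi.mulSingle l (g ^ p.2)) s =
      g ^ (p.1 * D.cartan m s + p.2 * D.cartan l s) := by
    intro s hs
    have hsingle : ∀ (a : Fin D.rank) (c : Fˣ),
        G.torusVal (Pi.mulSingle a c) s = c ^ G.cartForm a (G.rc s) := fun a c => by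
      rw [Good.torusVal, Finset.prod_eq_single a (fun b _ hb => by rw [Pi.mulSingle_eq_of_ne hb, one_zpow])
        (by simp), Pi.mulSingle_eq_same]
    rw [G.torusVal_mul, hsingle, hsingle, G.cartan_eq hs m.2, G.cartan_eq hs l.2, ← zpow_mul, ← zpow_mul,
      zpow_add]
  refine ⟨Pi.mulSingle m (g ^ p.1) * Pi.mulSingle l (g ^ p.2), ?_, ?_⟩
  · rw [hval k hk, h0, zpow_zero]
  · rw [hval _ (G.simple_lt hi), Ne, ← orderOf_dvd_iff_zpow_eq_one, hord, Int.natCast_dvd]
    intro hd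
    have := Nat.le_of_dvd (Int.natAbs_pos.2 hne) hd
    omega

/-- The tabulated check. -/
def SepAll (D : ChevalleyDatum) (B : ℕ) : Prop :=
  ∀ i : Fin D.rank, ∀ k : Fin D.nroots, D.IsPosRoot k → (k : ℕ) ≠ D.simple i → SepOk D B i k

instance (D : ChevalleyDatum) (B : ℕ) : Decidable (SepAll D B) := inferInstanceAs (Decidable (∀ _, _))

theorem eq_radical_of_check (G : Good D) [Finite F] {X : Subgroup (GL D.Idx F)} (hX : WClosed G X) {B : ℕ}
    (hF : 3 ≤ Nat.card F) (hB : B + 1 ≤ Nat.card F) (hsep : SepAll D B)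
    (hgen : ∀ r : Fin D.nroots, D.IsPosRoot r → GenOk D r) : X = D.unipotentRadical F (nodes X) :=
  eq_radical hX hF (fun i hi k hk hne => sep_of_sepOk G hB hi hk.1 (hsep ⟨i, hi⟩ ⟨k, hk.1⟩ hk hne)) hgen

end Cfsg.Agent.H67.Chev
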