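import Mathlib
import Cfsg.Agent.H67.ChevWeaklyClosed
import Cfsg.Agent.H46.TypeG2

set_option autoImplicit false

/-!
# Weakly closed subgroups of `U` in type `G₂`

With `a = p₁` (index 7) and `b = p₂` (index 6) the positive roots are `a, b, a + b, 2a + b, 3a + b, 3a + 2b`
(indices 7, 6, 8, 9, 10, 11).
-/

namespace Cfsg.Agent.H67.Chev

open Cfsg.Lie Cfsg.Agent.H46 Cfsg.Agent.H65
open scoped Matrix MatrixGroups

variable {F : Type*} [Field F]

local notation "x" => Good.xg goodG2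

theorem g2_simple : chevG2.simple 0 = 7 ∧ chevG2.simple 1 = 6 := by decide +kernel

theorem g2w_commute {r s : ℕ} (hr : r < 12) (hs : s < 12) (h : chevG2.commTerms r s = [])
    (hne : s ≠ r) (hneg : s ≠ chevG2.neg r) (a b : F) : Commute (x r a) (x s b) := by
  have e := xg_mul_xg goodG2 hr hs hne hneg h a b
  rw [List.map_nil, List.prod_nil, mul_one] at e
  exact e.symm

theorem g2_comm_tail {y : GL chevG2.Idx F} {r : ℕ} (hr : 7 ≤ r) (hr' : r < 12)
    (hy : y ∈ goodG2.posSub (F := F) {s | s ≠ chevG2.simple 1 ∧ 10 ≤ s}) (t : F) : Commute y (x r t) := by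
  induction hy using Subgroup.closure_induction with
  | mem g hg =>
    obtain ⟨s, v, ⟨hs, -, hs10⟩, rfl⟩ := hg
    have hsn : s < 12 := hs.1
    by_cases e : s = r
    · subst e
      rw [Commute, SemiconjBy, goodG2.xg_add, goodG2.xg_add, add_comm]
    have hd : ∀ s : Fin 12, ∀ r : Fin 12, 10 ≤ s.val → 7 ≤ r.val → r ≠ s →
        chevG2.commTerms s.val r.val = [] ∧ r.val ≠ chevG2.neg s.val := by decide +kernel
    obtain ⟨h1, h2⟩ := hd ⟨s, hsn⟩ ⟨r, hr'⟩ hs10 hr (by simpa [Fin.ext_iff] using Ne.symm e)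
    exact g2w_commute hsn hr' h1 (Ne.symm e) h2 v t
  | one => exact Commute.one_left _
  | mul u w _ _ iu iw => exact iu.mul_left iw
  | inv u _ iu => exact iu.inv_left

variable {X : Subgroup (GL chevG2.Idx F)} (hX : WClosed goodG2 X)

include hX in
theorem refl_line {j s : ℕ} (hj : j ∈ nodes X) (hs : s < 12) (h : ∀ t : F, x s t ∈ X) (t : F) :
    x (chevG2.reflectRoot j s) t ∈ X := by
  have e := goodG2.ng_simple_mul_xg (F := F) hj.1 hs ((goodG2.tab.eta j s : F) * t)
  rw [← mul_assoc (goodG2.tab.eta j s : F), goodG2.eta_cast_sq, one_mul] at e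
  have := ng_conj_mem hX hj (h ((goodG2.tab.eta j s : F) * t))
  rwa [e, mul_inv_cancel_right] at this

/-- The four term commutator. -/
theorem g2_word : chevG2.commTerms 7 6 = [(8, -1, 1, 1), (9, 1, 2, 1), (10, 1, 3, 1), (11, 1, 3, 2)] := by
  decide +kernel

include hX in
theorem g2_roots_of_b [Finite F] (hF : 4 ≤ Nat.card F) (hb : ∀ t : F, x 6 t ∈ X) :
    (∀ t : F, x 8 t ∈ X) ∧ (∀ t : F, x 9 t ∈ X) ∧ (∀ t : F, x 10 t ∈ X) ∧ ∀ t : F, x 11 t ∈ X := by
  have h11 : ∀ t : F, x 11 t ∈ X := fun t => by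
    simpa using word_mem hX (r := 10) (s := 6) (by decide +kernel) (by decide +kernel) (by decide)
      (L := [(11, -1, 1, 1)]) (by decide +kernel) (Or.inr hb) (-t) 1
  have hy : ∀ T u : F, x 8 (-T * u) * x 9 (T ^ 2 * u) * x 10 (T ^ 3 * u) ∈ X := fun T u => by
    have h := word_mem hX (r := 7) (s := 6) (by decide +kernel) (by decide +kernel) (by decide)
      g2_word (Or.inr hb) T u
    simp only [List.map_cons, List.map_nil, List.prod_cons, List.prod_nil, mul_one, Int.cast_neg, Int.cast_one,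
      neg_mul, one_mul, pow_one] at h
    rw [← mul_assoc, ← mul_assoc] at h
    simpa only [neg_mul] using (Subgroup.mul_mem_cancel_right _ (h11 _)).1 h
  have c910 : ∀ a b : F, Commute (x 9 a) (x 10 b) :=
    g2w_commute (by decide) (by decide) (by decide +kernel) (by decide) (by decide +kernel)
  obtain ⟨l, hl0, hl1, hl1'⟩ := exists_good_scalar hF
  have hl2 : l ^ 2 - l ≠ 0 := by
    rw [show l ^ 2 - l = l * (l - 1) by ring]; exact mul_ne_zero hl0 (sub_ne_zero.2 hl1)
  have hl3 : (l ^ 3 - l) * (l - 1) * l ≠ 0 := by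
    have : l + 1 ≠ 0 := fun e => hl1' (eq_neg_of_add_eq_zero_left e)
    rw [show (l ^ 3 - l) * (l - 1) * l = l * (l - 1) * (l + 1) * (l - 1) * l by ring]
    repeat' apply mul_ne_zero
    all_goals first | assumption | exact sub_ne_zero.2 hl1
  have hR : ∀ T u : F, x 9 ((l ^ 2 - l) * T ^ 2 * u) * x 10 ((l ^ 3 - l) * T ^ 3 * u) ∈ X := fun T u => by
    have h := mul_mem (inv_mem (hy T (l * u))) (hy (T * l) u)
    convert h using 1
    have e8 : -T * (l * u) = -(T * l) * u := by ring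
    rw [e8]
    simp only [mul_inv_rev, goodG2.xg_inv, mul_assoc]
    rw [← mul_assoc (x 8 _) (x 8 _), goodG2.xg_add, neg_add_cancel, goodG2.xg_zero, one_mul,
      ← mul_assoc (x 9 _) (x 9 _), goodG2.xg_add, ← mul_assoc (x 10 _) (x 9 _), ← (c910 _ _).eq, mul_assoc,
      goodG2.xg_add]
    ring_nf
  have h10 : ∀ t : F, x 10 t ∈ X := by
    intro t
    have hc : (l ^ 3 - l) * (l ^ 3 - l ^ 2) ≠ 0 := by
      have e : l ^ 3 - l ^ 2 = l * (l ^ 2 - l) := by ring
      rw [e]
      exact mul_ne_zero (left_ne_zero_of_mul (left_ne_zero_of_mul hl3)) (mul_ne_zero hl0 hl2)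
    set u := t / ((l ^ 3 - l) * (l ^ 3 - l ^ 2))
    have h := mul_mem (inv_mem (hR 1 (l ^ 2 * u))) (hR l u)
    convert h using 1
    have e9 : (l ^ 2 - l) * 1 ^ 2 * (l ^ 2 * u) = (l ^ 2 - l) * l ^ 2 * u := by ring
    rw [e9, mul_inv_rev, mul_assoc, inv_mul_cancel_left, goodG2.xg_inv, goodG2.xg_add]
    congr 1
    calc t = (l ^ 3 - l) * (l ^ 3 - l ^ 2) * u := (mul_div_cancel₀ t hc).symm
      _ = _ := by ring
  have h9 : ∀ t : F, x 9 t ∈ X := fun t => by
    have h := (Subgroup.mul_mem_cancel_right _ (h10 _)).1 (hR 1 (t / (l ^ 2 - l)))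
    rwa [one_pow, mul_one, mul_div_cancel₀ _ hl2] at h
  have h8 : ∀ t : F, x 8 t ∈ X := fun t => by
    have h := (Subgroup.mul_mem_cancel_right _ (h9 _)).1 ((Subgroup.mul_mem_cancel_right _ (h10 _)).1 (hy (-1) t))
    simpa using h
  exact ⟨h8, h9, h10, h11⟩

include hX in
theorem g2_roots_of_a [Finite F] (hF : 4 ≤ Nat.card F) (ha : ∀ t : F, x 7 t ∈ X) (hb : 1 ∈ nodes X) :
    (∀ t : F, x 8 t ∈ X) ∧ (∀ t : F, x 9 t ∈ X) ∧ (∀ t : F, x 10 t ∈ X) ∧ ∀ t : F, x 11 t ∈ X := by
  have h8 : ∀ t : F, x 8 t ∈ X := fun t => by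
    have := refl_line hX hb (s := 7) (by decide) ha t
    rwa [show chevG2.reflectRoot 1 7 = 8 by decide +kernel] at this
  have hR : ∀ T u : F, x 9 (T ^ 2 * u) * x 10 (T ^ 3 * u) * x 11 (T ^ 3 * u ^ 2) ∈ X := fun T u => by
    have h := word_mem hX (r := 7) (s := 6) (by decide +kernel) (by decide +kernel) (by decide)
      g2_word (Or.inl ha) T u
    simp only [List.map_cons, List.map_nil, List.prod_cons, List.prod_nil, mul_one, Int.cast_neg, Int.cast_one,
      neg_mul, one_mul, pow_one] at h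
    simpa only [mul_assoc] using (Subgroup.mul_mem_cancel_left _ (h8 _)).1 h
  have c910 : ∀ a b : F, Commute (x 9 a) (x 10 b) :=
    g2w_commute (by decide) (by decide) (by decide +kernel) (by decide) (by decide +kernel)
  have h11 : ∀ t : F, x 11 t ∈ X := by
    intro t
    by_cases h3 : (3 : F) = 0
    · obtain ⟨l, hl0, hl1, -⟩ := exists_good_scalar hF
      have hQ : ∀ T u : F, x 10 ((l ^ 3 - l ^ 2) * T ^ 3 * u) * x 11 ((l ^ 3 - l ^ 4) * T ^ 3 * u ^ 2) ∈ X :=
        fun T u => by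
        have h := mul_mem (inv_mem (hR T (l ^ 2 * u))) (hR (T * l) u)
        convert h using 1
        have e9 : T ^ 2 * (l ^ 2 * u) = (T * l) ^ 2 * u := by ring
        have c1011 : ∀ a b : F, Commute (x 10 a) (x 11 b) :=
          g2w_commute (by decide) (by decide) (by decide +kernel) (by decide) (by decide +kernel)
        rw [e9]
        simp only [mul_inv_rev, mul_assoc]
        rw [inv_mul_cancel_left, goodG2.xg_inv, goodG2.xg_inv, ← mul_assoc (x 10 _) (x 10 _), goodG2.xg_add,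
          ← mul_assoc (x 11 _) (x 10 _), ← (c1011 _ _).eq, mul_assoc, goodG2.xg_add]
        ring_nf
      have hc : (l ^ 3 - l ^ 4) * (l ^ 3 - l ^ 6) ≠ 0 := by
        have e1 : l - 1 ≠ 0 := sub_ne_zero.2 hl1
        have e2 : l ^ 3 - l ^ 6 = -(l ^ 3 * (l - 1) ^ 3) := by linear_combination (-l ^ 5 + l ^ 4) * h3
        rw [e2, show l ^ 3 - l ^ 4 = -(l ^ 3 * (l - 1)) by ring]
        exact mul_ne_zero (neg_ne_zero.2 (mul_ne_zero (pow_ne_zero _ hl0) e1))
          (neg_ne_zero.2 (mul_ne_zero (pow_ne_zero _ hl0) (pow_ne_zero _ e1)))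
      have h := mul_mem (inv_mem (hQ 1 (l ^ 3))) (hQ l 1)
      rw [show (l ^ 3 - l ^ 2) * l ^ 3 * 1 = (l ^ 3 - l ^ 2) * 1 ^ 3 * l ^ 3 by ring, mul_inv_rev, mul_assoc,
        inv_mul_cancel_left, goodG2.xg_inv, goodG2.xg_add] at h
      refine line_mem hX (by decide +kernel) (a := (l ^ 3 - l ^ 4) * (l ^ 3 - l ^ 6)) hc ?_ t
      convert h using 2
      ring
    · have h := word_mem hX (r := 8) (s := 9) (by decide +kernel) (by decide +kernel) (by decide)
        (L := [(11, 3, 1, 1)]) (by decide +kernel) (Or.inl h8) 1 (t / 3)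
      simpa [mul_div_cancel₀ _ h3] using h
  have h10 : ∀ t : F, x 10 t ∈ X := fun t => by
    have := refl_line hX hb (s := 11) (by decide) h11 t
    rwa [show chevG2.reflectRoot 1 11 = 10 by decide +kernel] at this
  have h9 : ∀ t : F, x 9 t ∈ X := fun t => by
    have h := (Subgroup.mul_mem_cancel_right _ (h10 _)).1 ((Subgroup.mul_mem_cancel_right _ (h11 _)).1 (hR 1 t))
    simpa using h
  exact ⟨h8, h9, h10, h11⟩

include hX in
/-- The simple root `b` over the field with four elements. -/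
theorem g2_simple_b_four [Finite F] (hF : Nat.card F = 4) (hJ : 1 ∉ nodes X) (t : F) : x 6 t ∈ X := by
  classical
  have := Fintype.ofFinite F
  have h2 : (2 : F) = 0 := by
    have e : ((4 : ℕ) : F) = 0 := by rw [← hF, Nat.card_eq_fintype_card]; exact FiniteField.cast_card_eq_zero F
    have : (2 : F) * 2 = 0 := by rw [← e]; norm_num
    exact mul_self_eq_zero.1 this
  have hsep : ∀ k : Fin chevG2.nroots, 6 ≤ k.val → k.val < 10 → k.val ≠ chevG2.simple 1 →
      SepOk chevG2 3 1 k := by decide +kernel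
  obtain ⟨a, y, ha, hy, hz⟩ := exists_tail hX (i := 1) (by decide) hJ 10 (by decide) (by decide)
    fun k h1 h3 h4 => sep_of_sepOk goodG2 (by omega) (by decide) (lt_trans h3 (by decide))
      (hsep ⟨k, lt_trans h3 (by decide)⟩ h1 h3 h4)
  rw [g2_simple.2] at hz
  have hcy : ∀ r, 7 ≤ r → r < 12 → ∀ v : F, Commute y (x r v) := fun r h1 h2 v => g2_comm_tail h1 h2 hy v
  have hw : ∀ (r : ℕ) (L : List (ℕ × ℤ × ℕ × ℕ)), chevG2.commTerms r 6 = L → 7 ≤ r → r < 12 →
      (6 ≠ chevG2.neg r) → (∀ c ∈ L, 7 ≤ c.1 ∧ c.1 < 12) → ∀ T : F,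
      (L.map fun c => x c.1 ((c.2.1 : F) * T ^ c.2.2.1 * a ^ c.2.2.2)).prod ∈ X := by
    intro r L hL hr hr' hneg hc T
    have e := xg_mul_xg goodG2 hr' (show 6 < 12 by decide) (by omega) hneg hL (-T) a
    rw [neg_neg] at e
    set w := (L.map fun c => x c.1 ((c.2.1 : F) * T ^ c.2.2.1 * a ^ c.2.2.2)).prod
    have hwy : Commute y w := Commute.list_prod_right _ _ fun g hg => by
      obtain ⟨c, hc', rfl⟩ := List.mem_map.1 hg
      exact hcy _ (hc c hc').1 (hc c hc').2 _
    have h := comm_mem hX (r := r) (goodG2.isPosRoot_iff.2 ⟨le_trans (by decide) hr, hr'⟩) (-T) hz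
    convert h using 1
    calc w = y⁻¹ * w * y := by rw [mul_assoc, hwy.symm.eq, inv_mul_cancel_left]
      _ = y⁻¹ * ((x 6 a)⁻¹ * (x r (-T))⁻¹ * (x 6 a * x r (-T))) * y := by rw [e]; group
      _ = (x 6 a * y)⁻¹ * (x r (-T))⁻¹ * (x 6 a * (x r (-T) * y)) := by group
      _ = _ := by rw [← (hcy r hr hr' _).eq]; group
  have h11 : ∀ v : F, x 11 v ∈ X := fun v => by
    have h := hw 10 [(11, -1, 1, 1)] (by decide +kernel) (by decide) (by decide) (by decide +kernel)
      (by simp) (-(v / a))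
    simpa [ha] using h
  have hP : ∀ T : F, x 8 (-T * a) * x 9 (T ^ 2 * a) * x 10 (T ^ 3 * a) ∈ X := fun T => by
    have h := hw 7 _ g2_word (by decide) (by decide) (by decide +kernel) (by simp) T
    simp only [List.map_cons, List.map_nil, List.prod_cons, List.prod_nil, mul_one, Int.cast_neg, Int.cast_one,
      neg_mul, one_mul, pow_one] at h
    rw [← mul_assoc, ← mul_assoc] at h
    simpa only [neg_mul] using (Subgroup.mul_mem_cancel_right _ (h11 _)).1 h
  have hprod : ∀ A B C A' B' C' : F, ∃ e : F, x 8 A * x 9 B * x 10 C * (x 8 A' * x 9 B' * x 10 C') =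
      x 8 (A + A') * x 9 (B + B') * x 10 (C + C') * x 11 e := by
    intro A B C A' B' C'
    have e1 := xg_mul_xg goodG2 (r := 8) (s := 9) (by decide +kernel) (by decide +kernel) (by decide)
      (by decide +kernel) (L := [(11, 3, 1, 1)]) (by decide +kernel) A' B
    simp only [List.map_cons, List.map_nil, List.prod_cons, List.prod_nil, mul_one, pow_one] at e1
    refine ⟨((3 : ℤ) : F) * -A' * B, ?_⟩
    set E := ((3 : ℤ) : F) * -A' * B
    have c8 : Commute (x 10 C) (x 8 A') :=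
      (g2w_commute (by decide) (by decide) (by decide +kernel) (by decide) (by decide +kernel) A' C).symm
    have c9 : Commute (x 10 C) (x 9 B') :=
      (g2w_commute (by decide) (by decide) (by decide +kernel) (by decide) (by decide +kernel) B' C).symm
    have cE : ∀ r, r = 9 ∨ r = 10 → ∀ v : F, Commute (x 11 E) (x r v) := by
      rintro r (rfl | rfl) v <;>
        exact (g2w_commute (by decide) (by decide) (by decide +kernel) (by decide) (by decide +kernel) v E).symm
    calc x 8 A * x 9 B * x 10 C * (x 8 A' * x 9 B' * x 10 C')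
        = x 8 A * x 9 B * (x 10 C * x 8 A') * x 9 B' * x 10 C' := by group
      _ = x 8 A * (x 9 B * x 8 A') * (x 10 C * x 9 B') * x 10 C' := by rw [c8.eq]; group
      _ = (x 8 A * x 8 A') * x 9 B * (x 11 E * x 9 B') * (x 10 C * x 10 C') := by rw [e1, c9.eq]; group
      _ = (x 8 A * x 8 A') * (x 9 B * x 9 B') * (x 11 E * (x 10 C * x 10 C')) := by
          rw [(cE 9 (Or.inl rfl) _).eq]; group
      _ = _ := by rw [goodG2.xg_add, goodG2.xg_add, goodG2.xg_add, (cE 10 (Or.inr rfl) _).eq]; group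
  obtain ⟨l, hl0, hl1, hl1'⟩ := exists_good_scalar (show 4 ≤ Nat.card F by omega)
  obtain ⟨e, he⟩ := hprod (-1 * a) (1 ^ 2 * a) (1 ^ 3 * a) (-l * a) (l ^ 2 * a) (l ^ 3 * a)
  have hprodmem := (Subgroup.mul_mem_cancel_right _ (h11 e)).1 (he ▸ mul_mem (hP 1) (hP l))
  have hlast := mul_mem (inv_mem (hP (1 + l))) hprodmem
  rw [show -(1 + l) * a = -1 * a + -l * a by ring,
    show (1 + l) ^ 2 * a = 1 ^ 2 * a + l ^ 2 * a by linear_combination (l * a) * h2] at hlast
  simp only [mul_inv_rev, mul_assoc, inv_mul_cancel_left] at hlast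
  rw [goodG2.xg_inv, goodG2.xg_add] at hlast
  have hne : -((1 + l) ^ 3 * a) + (1 ^ 3 * a + l ^ 3 * a) ≠ 0 := by
    rw [show -((1 + l) ^ 3 * a) + (1 ^ 3 * a + l ^ 3 * a) = l * (l + 1) * a by linear_combination (-2 * l ^ 2 * a - 2 * l * a) * h2]
    exact mul_ne_zero (mul_ne_zero hl0 fun e => hl1' (eq_neg_of_add_eq_zero_left e)) ha
  have h10 : ∀ v : F, x 10 v ∈ X :=
    line_mem hX (by decide +kernel) hne (by simpa only [mul_assoc] using hlast)
  have hyX : y ∈ X := by
    refine (Subgroup.closure_le _).2 ?_ hy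
    rintro g ⟨s, v, ⟨hs, -, h10'⟩, rfl⟩
    have hs12 : s < 12 := hs.1
    rcases (show s = 10 ∨ s = 11 by omega) with rfl | rfl
    exacts [h10 v, h11 v]
  exact line_mem hX (by decide +kernel) ha ((Subgroup.mul_mem_cancel_right _ hyX).1 hz) t

include hX in
/-- Weakly closed subgroups of `U` in type `G₂`. -/
theorem g2_eq_radical [Finite F] (hF : 4 ≤ Nat.card F) : X = chevG2.unipotentRadical F (nodes X) := by
  refine le_antisymm (le_radical hX) ?_
  have hsimple : ∀ i, i < chevG2.rank → i ∉ nodes X → ∀ t : F, x (chevG2.simple i) t ∈ X := by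
    intro i hi hiJ t
    rcases (show i = 0 ∨ i = 1 by have : i < 2 := hi; omega) with rfl | rfl
    · have h : ∀ k : Fin chevG2.nroots, chevG2.IsPosRoot k → (k : ℕ) ≠ chevG2.simple 0 → SepOk chevG2 3 0 k := by
        decide +kernel
      exact simple_mem_of_sep hX hi hiJ
        (fun k hk hne => sep_of_sepOk goodG2 (by omega) hi hk.1 (h ⟨k, hk.1⟩ hk hne)) t
    · by_cases h4 : Nat.card F = 4
      · rw [g2_simple.2]; exact g2_simple_b_four hX h4 hiJ t
      · have h : ∀ k : Fin chevG2.nroots, chevG2.IsPosRoot k → (k : ℕ) ≠ chevG2.simple 1 → SepOk chevG2 4 1 k := by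
          decide +kernel
        exact simple_mem_of_sep hX hi hiJ
          (fun k hk hne => sep_of_sepOk goodG2 (by omega) hi hk.1 (h ⟨k, hk.1⟩ hk hne)) t
  refine (Subgroup.closure_le _).2 ?_
  rintro g ⟨r, t, hr, hJ, hg⟩
  rw [goodG2.eq_xg hg]
  by_cases h7 : r = 7
  · subst h7
    have : 0 ∉ nodes X := fun h => hJ (g2_simple.1 ▸ goodG2.inRootSub_simple (by decide) h)
    simpa [g2_simple.1] using hsimple 0 (by decide) this t
  by_cases h6 : r = 6
  · subst h6
    have : 1 ∉ nodes X := fun h => hJ (g2_simple.2 ▸ goodG2.inRootSub_simple (by decide) h)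
    simpa [g2_simple.2] using hsimple 1 (by decide) this t
  have hr' : r = 8 ∨ r = 9 ∨ r = 10 ∨ r = 11 := by
    have := goodG2.isPosRoot_iff.1 hr
    simp only [show chevG2.nroots = 12 from rfl] at this
    omega
  have hall : (∀ t : F, x 8 t ∈ X) ∧ (∀ t : F, x 9 t ∈ X) ∧ (∀ t : F, x 10 t ∈ X) ∧ ∀ t : F, x 11 t ∈ X := by
    by_cases hb : 1 ∈ nodes X
    · by_cases ha : 0 ∈ nodes X
      · refine absurd (goodG2.inRootSub_iff.2 ⟨hr.1, fun k hk => absurd ?_ hk⟩) hJ
        rcases (show k.val = 0 ∨ k.val = 1 by have : k.val < 2 := k.2; omega) with e | e <;> rw [e]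
        exacts [ha, hb]
      · exact g2_roots_of_a hX hF (by simpa [g2_simple.1] using hsimple 0 (by decide) ha) hb
    · exact g2_roots_of_b hX hF (by simpa [g2_simple.2] using hsimple 1 (by decide) hb)
  obtain ⟨h8, h9, h10, h11⟩ := hall
  rcases hr' with rfl | rfl | rfl | rfl
  exacts [h8 t, h9 t, h10 t, h11 t]

end Cfsg.Agent.H67.Chev
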