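import Cfsg.Agent.H67.TorusDataE7
import Cfsg.Agent.S1064

set_option autoImplicit false
set_option maxRecDepth 20000

/-!
# `E₇(2)` has no elements of order 65

An element of order 13 lies in the twisted torus of order 117; over the algebraic closure its centraliser is the
torus times three orthogonal root `SL₂`, permuted cyclically by the twist, which leaves no room for an element of
order five.
-/

namespace Cfsg.Agent.H67.E7Two65

open Cfsg.Lie Cfsg.Agent.H46 Cfsg.Agent.H65 Cfsg.Agent.H67.Chev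
open scoped Matrix MatrixGroups

/-! ### The tables -/

/-- The three pairs of roots vanishing on the element of order 13: positive members. -/
def pa : Fin 3 → Fin chevE7.nroots := ![⟨79, by decide⟩, ⟨65, by decide⟩, ⟨71, by decide⟩]

/-- The negative members. -/
def pb : Fin 3 → Fin chevE7.nroots := ![⟨46, by decide⟩, ⟨60, by decide⟩, ⟨54, by decide⟩]

/-- A member of a pair. -/
def pr (P : Fin 3) : Fin 2 → Fin chevE7.nroots := ![pa P, pb P]

/-- The exponents of the element of order 13. -/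
def aZ : List ℤ := [144, 101, 252, 264, 217, 114, 77]

/-- The value of a root on the element of order 13. -/
def chi (s : ℕ) : ℤ := 7 * ((List.range 7).map fun k => aZ.getD k 0 * goodE7.tab.cart 7 k s).sum

/-- The residue of that value. -/
def res (s : ℕ) : ℤ := chi s % 13

/-- The roots with the value of a fundamental root. -/
def cand : List (List ℕ) :=
  [[20, 22, 27, 29, 44, 47, 58, 69, 91, 93], [32, 34, 56, 67, 78, 81, 96, 98, 103, 105],
   [8, 10, 14, 16, 40, 73, 76, 83, 88, 101], [20, 22, 27, 29, 44, 47, 58, 69, 91, 93],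
   [9, 33, 35, 39, 41, 66, 68, 80, 82, 124], [0, 53, 55, 62, 64, 95, 113, 118, 120, 123],
   [2, 5, 7, 12, 30, 61, 63, 70, 72, 125]]

/-- The images of the fundamental roots under the stabiliser of the element of order 13. -/
def sols : List (List ℕ) :=
  [[93, 78, 73, 69, 66, 64, 63], [93, 78, 73, 69, 68, 62, 61], [93, 81, 76, 58, 66, 55, 72],
   [93, 81, 76, 58, 68, 53, 70], [93, 56, 83, 47, 80, 64, 63], [93, 56, 83, 47, 82, 62, 61],
   [93, 67, 88, 44, 80, 55, 72], [93, 67, 88, 44, 82, 53, 70]]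

/-- Compatibility of two images. -/
def ok (x y i j : ℕ) : Prop :=
  goodE7.tab.pair 7 x y = goodE7.tab.pair 7 (chevE7.simple i) (chevE7.simple j)

instance (x y i j : ℕ) : Decidable (ok x y i j) := inferInstanceAs (Decidable (_ = _))

set_option synthInstance.maxSize 4000 in
set_option synthInstance.maxHeartbeats 400000 in
theorem search : ∀ a ∈ cand.getD 0 [], ∀ c ∈ cand.getD 2 [], ok c a 2 0 →
    ∀ d ∈ cand.getD 3 [], ok d a 3 0 → ok d c 3 2 →
    ∀ b ∈ cand.getD 1 [], ok b a 1 0 → ok b c 1 2 → ok b d 1 3 →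
    ∀ e ∈ cand.getD 4 [], ok e a 4 0 → ok e b 4 1 → ok e c 4 2 → ok e d 4 3 →
    ∀ f ∈ cand.getD 5 [], ok f a 5 0 → ok f b 5 1 → ok f c 5 2 → ok f d 5 3 → ok f e 5 4 →
    ∀ g ∈ cand.getD 6 [], ok g a 6 0 → ok g b 6 1 → ok g c 6 2 → ok g d 6 3 → ok g e 6 4 → ok g f 6 5 →
      [a, b, c, d, e, f, g] ∈ sols := by decide +kernel

theorem cand_spec : ∀ j : Fin 7, ∀ s : Fin chevE7.nroots, res s = res (chevE7.simple j) →
    (s : ℕ) ∈ cand.getD j [] := by decide +kernel

theorem chi_act : ∀ s : Fin chevE7.nroots, (13 : ℤ) ∣ chi (torusE7.actF goodE7 s) - 2 * chi s := by decide +kernel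

theorem res_psi : ∀ s : Fin chevE7.nroots, (13 : ℤ) ∣ chi s ↔ ∃ P i, pr P i = s := by decide +kernel

theorem pos_pa : ∀ P, chevE7.IsPosRoot (pa P) := by decide +kernel

theorem neg_pb : ∀ P, ¬ chevE7.IsPosRoot (pb P) := by decide +kernel

theorem negIdx_pr : ∀ P, chevE7.neg (pa P) = pb P ∧ chevE7.neg (pb P) = pa P := by decide +kernel

/-- The image of a root under the linear extension of images of the fundamental roots. -/
def imRc (l : List ℕ) (s : ℕ) (k : Fin chevE7.rank) : ℤ :=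
  ∑ j : Fin chevE7.rank, goodE7.rc s j * goodE7.rc (l.getD j 0) k

theorem sols_spec : ∀ l ∈ sols,
    (∀ P, (∀ k, imRc l (pa P) k = goodE7.rc (pa P) k) ∨ ∀ k, imRc l (pa P) k = goodE7.rc (pb P) k) ∧
    ((∀ P, ∀ k, imRc l (pa P) k = goodE7.rc (pa P) k) → ∀ j : Fin chevE7.rank, l.getD j 0 = chevE7.simple j) := by
  decide +kernel

theorem chain_empty : ∀ P P' : Fin 3, ∀ i j : Fin 2, pr P' j ≠ pr P i → (pr P' j : ℕ) ≠ chevE7.neg (pr P i) →
    ((chevE7.chain.getD (pr P i : ℕ) #[]).toList.filter fun e => e.1 = (pr P' j : ℕ)) = [] := by decide +kernel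

theorem fix_vec : ∀ P P' : Fin 3, ∀ i : Fin 2,
    (2 : ℤ) ∣ ∑ k : Fin chevE7.rank, (chevE7.cartanSR.getD k.val #[]).getD (pr P i : ℕ) 0 *
      (chevE7.coroot.getD (pa P' : ℕ) #[]).getD k.val 0 := by decide +kernel

theorem cor_even : ∀ P P' : Fin 3, ∀ i j : Fin 2, (pr P' j : ℕ) = chevE7.neg (pr P i) →
    P' = P ∧ j ≠ i ∧ ∀ k : Fin chevE7.rank, (2 : ℤ) ∣ (chevE7.coroot.getD (pr P i : ℕ) #[]).getD k.val 0 -
      (chevE7.coroot.getD (pa P : ℕ) #[]).getD k.val 0 := by decide +kernel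

theorem pr_inj : ∀ P P' : Fin 3, ∀ i j : Fin 2, pr P i = pr P' j → P = P' ∧ i = j := by decide +kernel

/-- The pair following a pair under the twist. -/
def nx : Fin 3 → Fin 3 := ![1, 2, 0]

/-- The order of the following pair. -/
def fl : Fin 3 → Fin 2 → Fin 2 := ![![1, 0], ![0, 1], ![0, 1]]

theorem act_pr : ∀ P i, torusE7.actF goodE7 (pr P i) = (pr (nx P) (fl P i) : ℕ) := by decide +kernel

/-! ### The centraliser -/

section Cent

variable {K : Type*} [Field K] [CharP K 2]
set_option linter.unusedSectionVars false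
set_option linter.unusedSimpArgs false

/-- The coroot vector of a pair. -/
def cvec (K : Type*) [Field K] (P : Fin 3) : chevE7.Idx → K :=
  Sum.elim (fun k => (((chevE7.coroot.getD (pa P : ℕ) #[]).getD k.val 0 : ℤ) : K)) fun _ => 0

/-- The unit vector of a member of a pair. -/
def evec (K : Type*) [Field K] (P : Fin 3) (i : Fin 2) : chevE7.Idx → K := Pi.single (Sum.inr (pr P i)) 1

/-- The two by two block of a pair. -/
def blk (P : Fin 3) (M : Matrix chevE7.Idx chevE7.Idx K) : Matrix (Fin 2) (Fin 2) K :=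
  fun l j => M (Sum.inr (pr P l)) (Sum.inr (pr P j))

/-- Matrices preserving the pairs. -/
def IsBlk (M : Matrix chevE7.Idx chevE7.Idx K) : Prop :=
  ∀ P, M *ᵥ cvec K P = cvec K P ∧
    (∀ j, ∃ c : K, M *ᵥ evec K P j = c • cvec K P + ∑ l, blk P M l j • evec K P l) ∧ (blk P M).det = 1

theorem mulVec_evec (M : Matrix chevE7.Idx chevE7.Idx K) (P : Fin 3) (j : Fin 2) (x : chevE7.Idx) :
    (M *ᵥ evec K P j) x = M x (Sum.inr (pr P j)) := by
  simp [evec]

theorem blk_mul {M N : Matrix chevE7.Idx chevE7.Idx K} (hM : IsBlk M) (hN : IsBlk N) (P : Fin 3) :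
    blk P (M * N) = blk P M * blk P N := by
  ext l j
  obtain ⟨c, hc⟩ := (hN P).2.1 j
  have e : (M * N) *ᵥ evec K P j = c • cvec K P + ∑ k, blk P N k j • (M *ᵥ evec K P k) := by
    rw [← Matrix.mulVec_mulVec, hc, Matrix.mulVec_add, Matrix.mulVec_smul, (hM P).1, Matrix.mulVec_sum]
    simp only [Matrix.mulVec_smul]
  have := congrFun e (Sum.inr (pr P l))
  rw [mulVec_evec] at this
  show (M * N) (Sum.inr (pr P l)) (Sum.inr (pr P j)) = _
  rw [this, Matrix.mul_apply]
  simp [cvec, blk, mulVec_evec, mul_comm]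

theorem isBlk_mul {M N : Matrix chevE7.Idx chevE7.Idx K} (hM : IsBlk M) (hN : IsBlk N) : IsBlk (M * N) := by
  intro P
  refine ⟨by rw [← Matrix.mulVec_mulVec, (hN P).1, (hM P).1], fun j => ?_,
    by rw [blk_mul hM hN, Matrix.det_mul, (hM P).2.2, (hN P).2.2, mul_one]⟩
  obtain ⟨c, hc⟩ := (hN P).2.1 j
  choose d hd using (hM P).2.1
  refine ⟨c + ∑ k, blk P N k j * d k, ?_⟩
  rw [← Matrix.mulVec_mulVec, hc, Matrix.mulVec_add, Matrix.mulVec_smul, (hM P).1, Matrix.mulVec_sum]
  simp only [Matrix.mulVec_smul, hd, blk_mul hM hN, Matrix.mul_apply, smul_add, Finset.sum_add_distrib,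
    Finset.smul_sum, smul_smul, add_smul, Finset.sum_smul, add_assoc]
  congr 2
  rw [Finset.sum_comm]
  exact Finset.sum_congr rfl fun l _ => Finset.sum_congr rfl fun k _ => by rw [mul_comm]

theorem cvec_inr (P : Fin 3) (u : Fin chevE7.nroots) : cvec K P (Sum.inr u) = 0 := rfl

theorem intCast_eq_zero {a : ℤ} (h : (2 : ℤ) ∣ a) : (a : K) = 0 := by
  obtain ⟨b, rfl⟩ := h
  rw [Int.cast_mul, Int.cast_ofNat, CharTwo.two_eq_zero, zero_mul]

theorem x_col_self (r : Fin chevE7.nroots) (t : K) (x : chevE7.Idx) :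
    chevE7.x K r t x (Sum.inr r) = if x = Sum.inr r then 1 else 0 := by
  rw [ChevalleyDatum.x, dif_pos r.2]
  rcases x with k | u <;> simp [ChevalleyDatum.xMat]

/-- The column of a root element at a member of a pair. -/
theorem x_col (P P' : Fin 3) (i j : Fin 2) (t : K) :
    (goodE7.xg (pr P i : ℕ) t : Matrix chevE7.Idx chevE7.Idx K) *ᵥ evec K P' j =
      evec K P' j + if P' = P ∧ j ≠ i then t • cvec K P + t ^ 2 • evec K P i else 0 := by
  funext x
  rw [mulVec_evec, goodE7.coe_xg]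
  by_cases hs : pr P' j = pr P i
  · obtain ⟨rfl, rfl⟩ := pr_inj _ _ _ _ hs
    rw [x_col_self, if_neg (not_and.2 fun _ h => h rfl), add_zero, evec, Pi.single_apply]
  rw [ChevalleyDatum.x, dif_pos (pr P i).2]
  simp only [ChevalleyDatum.xMat, Matrix.of_apply, Fin.eta, if_neg hs]
  by_cases hn : (pr P' j : ℕ) = chevE7.negIdx.getD (pr P i : ℕ) 0
  · obtain ⟨rfl, hji, hcor⟩ := cor_even _ _ _ _ hn
    rw [if_pos hn, if_pos ⟨rfl, hji⟩, Pi.add_apply, Pi.add_apply, Pi.smul_apply, Pi.smul_apply]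
    rcases x with k | u
    · have hk := intCast_eq_zero (K := K) (hcor k)
      rw [Int.cast_sub, sub_eq_zero] at hk
      simp only [evec, cvec, Sum.elim_inl, Pi.single_apply, reduceCtorEq, if_false, smul_eq_mul, hk]
      ring
    · simp only [evec, cvec, Sum.elim_inr, Pi.single_apply, Sum.inr.injEq, smul_eq_mul, mul_zero, zero_add,
        mul_ite, mul_one, CharTwo.neg_eq]
      by_cases h : u = pr P' j
      · subst h; simp [hs]
      · simp [h]
  · have hne : ¬ (P' = P ∧ j ≠ i) := by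
      rintro ⟨rfl, hji⟩
      have e1 := negIdx_pr P'
      fin_cases j <;> fin_cases i <;> simp_all [pr, ChevalleyDatum.neg]
    rw [if_neg hn, if_neg hne, add_zero]
    rcases x with k | u
    · simp [evec, Pi.single_apply]
    · have e : chevE7.chainCoeff (pr P i : ℕ) (pr P' j : ℕ) (u : ℕ) = [] := by
        unfold ChevalleyDatum.chainCoeff
        rw [chain_empty _ _ _ _ hs hn]
        rfl
      simp [evec, Pi.single_apply, e]

/-- The block of a root element. -/
theorem blk_xg (P P' : Fin 3) (i : Fin 2) (t : K) :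
    blk P' (goodE7.xg (pr P i : ℕ) t : Matrix chevE7.Idx chevE7.Idx K) =
      Matrix.of fun l j => if l = j then 1 else if P' = P ∧ l = i then t ^ 2 else 0 := by
  ext l j
  have h := congrFun (x_col P P' i j t) (Sum.inr (pr P' l))
  rw [mulVec_evec] at h
  refine h.trans ?_
  by_cases hP : P' = P
  · subst hP
    fin_cases i <;> fin_cases j <;> fin_cases l <;>
      simp [evec, cvec, show pr P' 0 ≠ pr P' 1 from fun e => by simpa using (pr_inj _ _ _ _ e).2,
        show pr P' 1 ≠ pr P' 0 from fun e => by simpa using (pr_inj _ _ _ _ e).2]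
  · simp only [hP, false_and, if_false, Pi.add_apply, Pi.zero_apply, add_zero, evec, Pi.single_apply, Sum.inr.injEq]
    by_cases hlj : l = j
    · simp [hlj]
    · simp [hlj, show pr P' l ≠ pr P' j from fun e => hlj (pr_inj _ _ _ _ e).2]

theorem isBlk_xg (P : Fin 3) (i : Fin 2) (t : K) :
    IsBlk (goodE7.xg (pr P i : ℕ) t : Matrix chevE7.Idx chevE7.Idx K) := by
  intro P'
  refine ⟨?_, fun j => ?_, ?_⟩
  · funext x
    rw [Matrix.mulVec, dotProduct, Fintype.sum_sum_type]
    simp only [cvec_inr, mul_zero, Finset.sum_const_zero, add_zero]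
    rcases x with k | u
    · simp [goodE7.coe_xg, ChevalleyDatum.x, dif_pos (pr P i).2, ChevalleyDatum.xMat]
    · rw [cvec_inr]
      simp only [goodE7.coe_xg, ChevalleyDatum.x, dif_pos (pr P i).2, ChevalleyDatum.xMat, Matrix.of_apply, Fin.eta]
      by_cases hu : u = pr P i
      · simp only [if_pos hu, cvec, Sum.elim_inl]
        rw [Finset.sum_congr rfl fun k _ => show _ = -t * ((((chevE7.cartanSR.getD k.val #[]).getD (pr P i : ℕ) 0 *
          (chevE7.coroot.getD (pa P' : ℕ) #[]).getD k.val 0 : ℤ)) : K) by push_cast; ring, ← Finset.mul_sum,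
          ← Int.cast_sum, intCast_eq_zero (fix_vec P P' i), mul_zero]
      · simp [if_neg hu]
  · rw [x_col, blk_xg, Fin.sum_univ_two]
    by_cases hc : P' = P ∧ j ≠ i
    · obtain ⟨rfl, hji⟩ := hc
      refine ⟨t, ?_⟩
      rw [if_pos ⟨rfl, hji⟩]
      fin_cases i <;> fin_cases j <;> simp at hji ⊢ <;> abel
    · refine ⟨0, ?_⟩
      rw [if_neg hc, add_zero, zero_smul, zero_add]
      fin_cases i <;> fin_cases j <;> simp_all
  · rw [blk_xg]
    refine (Matrix.det_fin_two _).trans ?_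
    fin_cases i <;> simp

theorem isBlk_torus (z : Fin chevE7.rank → Kˣ) :
    IsBlk (goodE7.torus z : Matrix chevE7.Idx chevE7.Idx K) := by
  intro P
  rw [goodE7.coe_torus, rdiag]
  refine ⟨funext fun x => ?_, fun j => ⟨0, funext fun x => ?_⟩, ?_⟩
  · rw [Matrix.mulVec_diagonal]
    rcases x with k | u <;> simp [cvec]
  · rw [mulVec_evec]
    simp only [zero_smul, zero_add, Finset.sum_apply, Pi.smul_apply, smul_eq_mul, blk, evec, Pi.single_apply]
    rw [Finset.sum_eq_single j ?_ (by simp)]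
    · by_cases hx : x = Sum.inr (pr P j) <;> simp [Matrix.diagonal_apply, hx]
    · intro l _ hl
      rw [Matrix.diagonal_apply_ne _ (fun e => hl (pr_inj _ _ _ _ (Sum.inr_injective e)).2), zero_mul]
  · have h : goodE7.torusVal z (pr P 0) * goodE7.torusVal z (pr P 1) = 1 := by
      show goodE7.torusVal z (pa P) * goodE7.torusVal z (pb P) = 1
      rw [← (negIdx_pr P).1, goodE7.torusVal_neg (pa P).2, mul_inv_cancel]
    rw [Matrix.det_fin_two]
    simp only [blk, Matrix.diagonal_apply_eq, Sum.elim_inr]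
    rw [Matrix.diagonal_apply_ne _ (fun e => by simpa using (pr_inj _ _ _ _ (Sum.inr_injective e)).2), zero_mul,
      sub_zero, ← Units.val_mul, h, Units.val_one]

/-- The generators of the centraliser. -/
def cgens (K : Type*) [Field K] [CharP K 2] : Set (GL chevE7.Idx K) :=
  {g | ∃ P i, ∃ t : K, g = goodE7.xg (pr P i : ℕ) t} ∪ (chevE7.diagonalSubgroup K : Set (GL chevE7.Idx K))

/-- The centraliser, as a monoid. -/
def cent (K : Type*) [Field K] [CharP K 2] : Submonoid (GL chevE7.Idx K) := Submonoid.closure (cgens K)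

theorem xg_mem_cent (P : Fin 3) (i : Fin 2) (t : K) : goodE7.xg (pr P i : ℕ) t ∈ cent K :=
  Submonoid.subset_closure (Or.inl ⟨P, i, t, rfl⟩)

theorem diag_mem_cent {d : GL chevE7.Idx K} (hd : d ∈ chevE7.diagonalSubgroup K) : d ∈ cent K :=
  Submonoid.subset_closure (Or.inr hd)

theorem isBlk_one : IsBlk (1 : Matrix chevE7.Idx chevE7.Idx K) := by
  have := isBlk_torus (K := K) 1
  simpa using this

theorem isBlk_of_mem {g : GL chevE7.Idx K} (hg : g ∈ cent K) : IsBlk (g : Matrix chevE7.Idx chevE7.Idx K) := by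
  induction hg using Submonoid.closure_induction with
  | mem x hx =>
    rcases hx with ⟨P, i, t, rfl⟩ | hx
    · exact isBlk_xg P i t
    · obtain ⟨z, rfl⟩ := goodE7.mem_diagonal.1 hx
      exact isBlk_torus z
  | one => rw [Units.val_one]; exact isBlk_one
  | mul a b _ _ ha hb => rw [Units.val_mul]; exact isBlk_mul ha hb

/-- The block of an element of the centraliser. -/
abbrev B (P : Fin 3) (g : GL chevE7.Idx K) : Matrix (Fin 2) (Fin 2) K :=
  blk P (g : Matrix chevE7.Idx chevE7.Idx K)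

theorem B_mul {g h : GL chevE7.Idx K} (hg : g ∈ cent K) (hh : h ∈ cent K) (P : Fin 3) :
    B P (g * h) = B P g * B P h := by
  show blk P _ = _
  rw [Units.val_mul, blk_mul (isBlk_of_mem hg) (isBlk_of_mem hh)]

theorem B_one (P : Fin 3) : B (K := K) P 1 = 1 := by
  ext i j
  by_cases h : i = j
  · subst h; simp [blk]
  · have : pr P i ≠ pr P j := fun e => h (pr_inj _ _ _ _ e).2
    simp [blk, this, h]

theorem mapGL_mem_cent (f : K →+* K) {g : GL chevE7.Idx K} (hg : g ∈ cent K) : mapGL chevE7 f g ∈ cent K := by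
  induction hg using Submonoid.closure_induction with
  | mem x hx =>
    rcases hx with ⟨P, i, t, rfl⟩ | hx
    · rw [mapGL_xg goodE7]; exact xg_mem_cent P i _
    · exact diag_mem_cent (mapGL_diagonal goodE7 f hx)
  | one => rw [map_one]; exact one_mem _
  | mul a b _ _ ha hb => rw [map_mul]; exact mul_mem ha hb

/-! ### The twist -/

/-- The twisting element. -/
noncomputable def nTw (K : Type*) [Field K] : GL chevE7.Idx K := goodE7.nProd torusE7.L

theorem perm_nTw (s : Fin chevE7.nroots) : (goodE7.perm (nTw K) s : ℕ) = torusE7.actF goodE7 s := by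
  rw [nTw, goodE7.perm_nProd, act_eq goodE7 s, (torusE7.act_eq_actF goodE7 s.2).1]

theorem perm_nTw_pr (P : Fin 3) (i : Fin 2) : goodE7.perm (nTw K) (pr P i) = pr (nx P) (fl P i) :=
  Fin.ext (by rw [perm_nTw, act_pr])

theorem fl_inj : ∀ P i j, fl P i = fl P j → i = j := by decide

theorem nx_inj : ∀ P Q, nx P = nx Q → P = Q := by decide

/-- The twist moves the blocks round. -/
theorem twist_blocks : ∃ c : Fin 3 → Fin 2 → K, (∀ P i, c P i ≠ 0) ∧ ∀ g ∈ cent K,
    nTw K * g * (nTw K)⁻¹ ∈ cent K ∧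
      ∀ P i j, B (nx P) (nTw K * g * (nTw K)⁻¹) (fl P i) (fl P j) * c P j = c P i * B P g i j := by
  have hN : nTw K ∈ chevE7.monomialSubgroup K := goodE7.nProd_mem _
  obtain ⟨⟨c, hc, hx⟩, -⟩ := goodE7.monRel_perm hN
  refine ⟨fun P => ![(c (pa P) : K) ^ 2, 1], fun P i => ?_, fun g hg => ?_⟩
  · fin_cases i <;> simp
  induction hg using Submonoid.closure_induction with
  | mem x hx' =>
    rcases hx' with ⟨Q, i₀, t, rfl⟩ | hd
    · rw [hx, perm_nTw_pr]
      refine ⟨xg_mem_cent _ _ _, fun P i j => ?_⟩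
      simp only [B, blk_xg, Matrix.of_apply]
      have hab : (c (pa Q) : K) * c (pb Q) = 1 := by
        have e : goodE7.negF (pa Q) = pb Q := Fin.ext (negIdx_pr Q).1
        rw [← Units.val_mul, ← e, hc, Units.val_one]
      by_cases hij : i = j
      · subst hij; simp
      rw [if_neg (fun e => hij (fl_inj P i j e)), if_neg hij]
      by_cases h : P = Q ∧ i = i₀
      · obtain ⟨rfl, rfl⟩ := h
        rw [if_pos ⟨rfl, rfl⟩, if_pos ⟨rfl, rfl⟩]
        have hab2 : (c (pa P) : K) ^ 2 * (c (pb P) : K) ^ 2 = 1 := by rw [← mul_pow, hab, one_pow]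
        fin_cases i <;> fin_cases j <;> simp [pr] at hij ⊢
        · ring
        · linear_combination t ^ 2 * hab2
      · rw [if_neg h, if_neg (fun e => h ⟨nx_inj _ _ e.1, by
          have e' := e.2
          rw [show P = Q from nx_inj _ _ e.1] at e'
          exact fl_inj _ _ _ e'⟩), zero_mul, mul_zero]
    · obtain ⟨z, rfl⟩ := goodE7.mem_diagonal.1 hd
      obtain ⟨w, hw⟩ := goodE7.mem_diagonal.1 (goodE7.diagonal_normalized hN hd)
      rw [hw]
      refine ⟨diag_mem_cent (goodE7.mem_diagonal.2 ⟨w, rfl⟩), fun P i j => ?_⟩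
      simp only [B, blk, goodE7.coe_torus, rdiag]
      by_cases hij : i = j
      · subst hij
        rw [Matrix.diagonal_apply_eq, Matrix.diagonal_apply_eq, mul_comm]
        simp only [Sum.elim_inr]
        rw [← perm_nTw_pr (K := K), torusVal_conj hN z w _ hw]
      · rw [Matrix.diagonal_apply_ne _ fun e => hij (fl_inj P i j (pr_inj _ _ _ _ (Sum.inr_injective e)).2),
          Matrix.diagonal_apply_ne _ fun e => hij (pr_inj _ _ _ _ (Sum.inr_injective e)).2, zero_mul, mul_zero]
  | one =>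
    rw [mul_one, mul_inv_cancel]
    refine ⟨one_mem _, fun P i j => ?_⟩
    rw [B_one, B_one]
    by_cases hij : i = j
    · subst hij; simp
    · rw [Matrix.one_apply_ne hij, Matrix.one_apply_ne fun e => hij (fl_inj P i j e), zero_mul, mul_zero]
  | mul a b ha hb iha ihb =>
    have e : nTw K * (a * b) * (nTw K)⁻¹ = nTw K * a * (nTw K)⁻¹ * (nTw K * b * (nTw K)⁻¹) := by group
    rw [e]
    refine ⟨mul_mem iha.1 ihb.1, fun P i j => ?_⟩
    rw [B_mul iha.1 ihb.1, B_mul ha hb, Matrix.mul_apply, Matrix.mul_apply, Finset.sum_mul, Finset.mul_sum,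
      ← Equiv.sum_comp (Equiv.ofBijective (fl P)
        (Finite.injective_iff_bijective.1 fun a b h => fl_inj P a b h))]
    refine Finset.sum_congr rfl fun k _ => ?_
    rw [Equiv.ofBijective_apply, mul_assoc, ihb.2 P k j, ← mul_assoc, iha.2 P i k, mul_assoc]

theorem trace_twist {g : GL chevE7.Idx K} (hg : g ∈ cent K) (P : Fin 3) :
    (B (nx P) (nTw K * g * (nTw K)⁻¹)).trace = (B P g).trace := by
  obtain ⟨c, hc, h⟩ := twist_blocks (K := K)
  have hd : ∀ i, B (nx P) (nTw K * g * (nTw K)⁻¹) (fl P i) (fl P i) = B P g i i := fun i =>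
    mul_right_cancel₀ (hc P i) (((h g hg).2 P i i).trans (mul_comm _ _))
  rw [Matrix.trace, Matrix.trace, ← Equiv.sum_comp (Equiv.ofBijective (fl P)
    (Finite.injective_iff_bijective.1 fun a b h => fl_inj P a b h))]
  exact Finset.sum_congr rfl fun i _ => hd i

/-- A monomial element fixes the positive member of a pair iff its block is upper triangular. -/
theorem block_fix_iff {n : GL chevE7.Idx K} (hn : n ∈ chevE7.monomialSubgroup K) (hc : n ∈ cent K) (P : Fin 3)
    (h : goodE7.perm n (pa P) = pa P ∨ goodE7.perm n (pa P) = pb P) :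
    goodE7.perm n (pa P) = pa P ↔ B P n 1 0 = 0 := by
  obtain ⟨c, hx⟩ := goodE7.conj_xg_eq hn (pa P)
  have e : n * goodE7.xg (pr P 0 : ℕ) (1 : K) = goodE7.xg (goodE7.perm n (pa P) : ℕ) (c : K) * n := by
    have := hx 1
    rw [mul_one] at this
    rw [← this]
    show n * goodE7.xg (pa P : ℕ) (1 : K) = _
    group
  constructor
  · intro hfix
    rw [hfix] at e
    have e2 := congrArg (fun g => B P g 0 0) e
    simp only [show (pa P : ℕ) = (pr P 0 : ℕ) from rfl, B_mul hc (xg_mem_cent P 0 _),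
      B_mul (xg_mem_cent P 0 _) hc, Matrix.mul_apply, Fin.sum_univ_two] at e2
    simp only [B, blk_xg, Matrix.of_apply] at e2 ⊢
    simpa using e2
  · intro h0
    refine h.resolve_right fun hflip => ?_
    rw [hflip] at e
    have e2 := congrArg (fun g => B P g 1 1) e
    have e3 := congrArg (fun g => B P g 0 1) e
    simp only [show (pb P : ℕ) = (pr P 1 : ℕ) from rfl, B_mul hc (xg_mem_cent P 0 _),
      B_mul (xg_mem_cent P 1 _) hc, Matrix.mul_apply, Fin.sum_univ_two] at e2 e3
    simp only [B, blk_xg, Matrix.of_apply] at e2 e3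
    simp at e2 e3
    have hdet := (isBlk_of_mem hc P).2.2
    rw [Matrix.det_fin_two] at hdet
    simp only [B] at h0
    simp [h0, e3] at hdet

/-! ### The stabiliser of the element of order 13 -/

theorem perm_rc {n : GL chevE7.Idx K} (hn : n ∈ chevE7.monomialSubgroup K) (s : Fin chevE7.nroots)
    (k : Fin chevE7.rank) : goodE7.rc (goodE7.perm n s) k =
      ∑ j : Fin chevE7.rank, goodE7.rc s j * goodE7.rc (goodE7.perm n (goodE7.simpleF j)) k := by
  obtain ⟨-, -, L, hL⟩ := goodE7.monRel_perm hn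
  have e : goodE7.rc s = ∑ j, goodE7.rc s j • goodE7.rc (goodE7.simpleF j) := by
    funext m
    simp [Good.simpleF, goodE7.rc_simple, Finset.sum_apply, Pi.single_apply]
  rw [hL, e, map_sum, Finset.sum_apply, ← e]
  exact Finset.sum_congr rfl fun j _ => by rw [map_smul, Pi.smul_apply, smul_eq_mul, ← hL]

theorem perm_pair {n : GL chevE7.Idx K} (hn : n ∈ chevE7.monomialSubgroup K) (r s : Fin chevE7.nroots) :
    goodE7.tab.pair 7 (goodE7.perm n r) (goodE7.perm n s) = goodE7.tab.pair 7 r s := by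
  obtain ⟨L, h, hh, rfl⟩ := goodE7.exists_word hn
  rw [goodE7.perm_mul (goodE7.nProd_mem L) (Subgroup.mem_sup_left hh), goodE7.perm_diagonal hh, mul_one,
    goodE7.perm_nProd]
  have key : chevE7.pairing ((L.map goodE7.sPerm).prod r : Fin chevE7.nroots).val
      ((L.map goodE7.sPerm).prod s : Fin chevE7.nroots).val = chevE7.pairing r s := by
    clear hn
    induction L with
    | nil => rfl
    | cons i L ih =>
      rw [List.map_cons, List.prod_cons, Equiv.Perm.mul_apply, Equiv.Perm.mul_apply, goodE7.sPerm_apply,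
        goodE7.sPerm_apply, goodE7.pairing_reflect i.2 (Fin.isLt _) (Fin.isLt _), ih]
  rwa [goodE7.pairing_eq_pair (Fin.isLt _) (Fin.isLt _), goodE7.pairing_eq_pair r.2 s.2] at key

/-- Monomial elements preserving the residues. -/
def Fixes (n : GL chevE7.Idx K) : Prop :=
  n ∈ chevE7.monomialSubgroup K ∧ ∀ s, res (goodE7.perm n s : ℕ) = res (s : ℕ)

theorem fixes_mul {m n : GL chevE7.Idx K} (hm : Fixes m) (hn : Fixes n) : Fixes (m * n) := by
  refine ⟨mul_mem hm.1 hn.1, fun s => ?_⟩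
  rw [goodE7.perm_mul hm.1 hn.1, Equiv.Perm.mul_apply, hm.2, hn.2]

theorem fixes_cases {n : GL chevE7.Idx K} (hn : Fixes n) :
    (∀ P, goodE7.perm n (pa P) = pa P ∨ goodE7.perm n (pa P) = pb P) ∧
      ((∀ P, goodE7.perm n (pa P) = pa P) → n ∈ chevE7.diagonalSubgroup K) := by
  set f : Fin chevE7.rank → ℕ := fun j => (goodE7.perm n (goodE7.simpleF j) : ℕ) with hf
  have hc : ∀ (j : ℕ) (hj : j < chevE7.rank), f ⟨j, hj⟩ ∈ cand.getD j [] := fun j hj =>
    cand_spec ⟨j, hj⟩ _ (hn.2 _)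
  have hok : ∀ (i j : ℕ) (hi : i < chevE7.rank) (hj : j < chevE7.rank), ok (f ⟨i, hi⟩) (f ⟨j, hj⟩) i j :=
    fun i j hi hj => perm_pair hn.1 (goodE7.simpleF ⟨i, hi⟩) (goodE7.simpleF ⟨j, hj⟩)
  have hl : List.ofFn f ∈ sols := search _ (hc 0 (by decide)) _ (hc 2 (by decide)) (hok _ _ _ _) _
    (hc 3 (by decide)) (hok _ _ _ _) (hok _ _ _ _) _ (hc 1 (by decide)) (hok _ _ _ _) (hok _ _ _ _) (hok _ _ _ _)
    _ (hc 4 (by decide)) (hok _ _ _ _) (hok _ _ _ _) (hok _ _ _ _) (hok _ _ _ _)
    _ (hc 5 (by decide)) (hok _ _ _ _) (hok _ _ _ _) (hok _ _ _ _) (hok _ _ _ _) (hok _ _ _ _)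
    _ (hc 6 (by decide)) (hok _ _ _ _) (hok _ _ _ _) (hok _ _ _ _) (hok _ _ _ _) (hok _ _ _ _) (hok _ _ _ _)
  have hget : ∀ j : Fin chevE7.rank, (List.ofFn f).getD j 0 = f j := fun j => by
    rw [List.getD_eq_getElem?_getD, List.getElem?_ofFn, dif_pos j.2, Option.getD_some]
  have him : ∀ s : Fin chevE7.nroots, ∀ k, imRc (List.ofFn f) s k = goodE7.rc (goodE7.perm n s) k := fun s k => by
    rw [perm_rc hn.1, imRc]
    exact Finset.sum_congr rfl fun j _ => by rw [hget]
  obtain ⟨h1, h2⟩ := sols_spec _ hl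
  refine ⟨fun P => ?_, fun hall => goodE7.mem_diagonal_of_pos hn.1 fun j => ?_⟩
  · refine (h1 P).imp (fun h => Fin.ext ?_) (fun h => Fin.ext ?_) <;>
      refine goodE7.rc_injective (Fin.isLt _) (Fin.isLt _) (funext fun k => ?_) <;> rw [← him] <;> exact h k
  · have := h2 (fun P k => by rw [him, hall]) j
    rw [hget] at this
    show chevE7.IsPosRoot (f j)
    rw [this]
    exact goodE7.isPosRoot_simple j.2

variable {ζ : Kˣ} (hζ : IsPrimitiveRoot ζ 13) {z : Fin chevE7.rank → Kˣ}
  (hval : ∀ s, s < chevE7.nroots → goodE7.torusVal z s = ζ ^ chi s)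

include hζ hval in
theorem val_eq_one_iff (s : Fin chevE7.nroots) : goodE7.torusVal z s = 1 ↔ ∃ P i, pr P i = s := by
  rw [hval s s.2, hζ.zpow_eq_one_iff_dvd, ← res_psi]
  norm_num

include hζ hval in
theorem commute_of_mem {g : GL chevE7.Idx K} (hg : g ∈ cent K) : Commute (goodE7.torus z) g := by
  induction hg using Submonoid.closure_induction with
  | mem x hx =>
    rcases hx with ⟨P, i, t, rfl⟩ | hx
    · show _ * _ = _
      rw [goodE7.torus_mul_xg z (pr P i).2, (val_eq_one_iff hζ hval _).2 ⟨P, i, rfl⟩, Units.val_one, one_mul]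
    · exact goodE7.diagonal_comm (goodE7.mem_diagonal.2 ⟨z, rfl⟩) hx
  | one => exact Commute.one_right _
  | mul a b _ _ ha hb => exact ha.mul_right hb

include hζ hval in
theorem fixes_of_commute {n : GL chevE7.Idx K} (hn : n ∈ chevE7.monomialSubgroup K)
    (hc : Commute (goodE7.torus z) n) : Fixes n := by
  refine ⟨hn, fun s => ?_⟩
  have h := torusVal_conj hn z z s (by rw [← hc.eq, mul_inv_cancel_right])
  rw [hval _ (Fin.isLt _), hval _ s.2] at h
  have h2 : ζ ^ (chi (goodE7.perm n s : ℕ) - chi (s : ℕ)) = 1 := by rw [zpow_sub, h, mul_inv_cancel]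
  rw [hζ.zpow_eq_one_iff_dvd] at h2
  exact Int.emod_eq_emod_iff_emod_sub_eq_zero.2 (Int.emod_eq_zero_of_dvd (by exact_mod_cast h2))

/-- The reflection in the positive member of a pair. -/
noncomputable def refl (K : Type*) [Field K] (P : Fin 3) : GL chevE7.Idx K := goodE7.ng (pa P : ℕ) (1 : K)

theorem refl_mem (P : Fin 3) : refl K P ∈ cent K ∧ (refl K P)⁻¹ = refl K P ∧
    ∀ Q, B Q (refl K P) 1 0 = if Q = P then 1 else 0 := by
  have e : refl K P = goodE7.xg (pr P 0 : ℕ) 1 * goodE7.xg (pr P 1 : ℕ) 1 * goodE7.xg (pr P 0 : ℕ) 1 := by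
    rw [refl, Good.ng, inv_one, CharTwo.neg_eq, (negIdx_pr P).1]
    rfl
  refine ⟨e ▸ mul_mem (mul_mem (xg_mem_cent P 0 _) (xg_mem_cent P 1 _)) (xg_mem_cent P 0 _),
    by rw [refl, goodE7.ng_inv, CharTwo.neg_eq], fun Q => ?_⟩
  rw [e, B_mul (mul_mem (xg_mem_cent P 0 _) (xg_mem_cent P 1 _)) (xg_mem_cent P 0 _),
    B_mul (xg_mem_cent P 0 _) (xg_mem_cent P 1 _)]
  simp only [Matrix.mul_apply, Fin.sum_univ_two]
  simp only [B, blk_xg, Matrix.of_apply]
  by_cases h : Q = P <;> simp [h]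

include hζ hval in
theorem mem_cent_of_fixes {n : GL chevE7.Idx K} (hn : Fixes n) : n ∈ cent K := by
  classical
  have hR : ∀ P, Fixes (refl K P) := fun P =>
    fixes_of_commute hζ hval (goodE7.ng_mem_N (pa P).2 one_ne_zero) (commute_of_mem hζ hval (refl_mem P).1)
  have hact : ∀ P Q, goodE7.perm (refl K P) (pa Q) = if Q = P then pb Q else pa Q := by
    intro P Q
    have hc := (fixes_cases (hR P)).1 Q
    have hb := block_fix_iff (hR P).1 (refl_mem P).1 Q hc
    rw [(refl_mem P).2.2 Q] at hb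
    by_cases h : Q = P
    · rw [if_pos h] at hb ⊢
      exact hc.resolve_left fun e => one_ne_zero (hb.1 e)
    · rw [if_neg h] at hb ⊢
      exact hb.2 rfl
  suffices ∀ S : List (Fin 3), ∀ m : GL chevE7.Idx K, Fixes m → (∀ P ∉ S, goodE7.perm m (pa P) = pa P) →
      m ∈ cent K from this [0, 1, 2] n hn (fun P h => absurd (by fin_cases P <;> simp) h)
  intro S
  induction S with
  | nil => exact fun m hm h => diag_mem_cent ((fixes_cases hm).2 fun P => h P List.not_mem_nil)
  | cons Q S ih =>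
    intro m hm h
    by_cases hq : goodE7.perm m (pa Q) = pa Q
    · exact ih m hm fun P hP => if e : P = Q then e ▸ hq else h P (by simp [e, hP])
    have hflip := ((fixes_cases hm).1 Q).resolve_left hq
    have hmem : refl K Q * m ∈ cent K := by
      refine ih _ (fixes_mul (hR Q) hm) fun P hP => ?_
      rw [goodE7.perm_mul (hR Q).1 hm.1, Equiv.Perm.mul_apply]
      by_cases e : P = Q
      · subst e
        rw [hflip, show pb P = goodE7.negF (pa P) from Fin.ext (negIdx_pr P).1.symm,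
          goodE7.perm_negF (hR P).1, hact, if_pos rfl]
        exact Fin.ext (negIdx_pr P).2
      · rw [h P (by simp [e, hP]), hact, if_neg e]
    have := mul_mem (refl_mem (K := K) Q).1 hmem
    have h1 : refl K Q * refl K Q = 1 := by
      conv_lhs => arg 1; rw [← (refl_mem (K := K) Q).2.1]
      exact inv_mul_cancel _
    rwa [← mul_assoc, h1, one_mul] at this

include hζ hval in
/-- A fixed positive unipotent element is a product of the three positive root elements. -/
theorem pos_fixed {v : GL chevE7.Idx K} (hv : v ∈ chevE7.posUnipotent K)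
    (hc : goodE7.torus z * v * (goodE7.torus z)⁻¹ = v) :
    v ∈ cent K ∧ (∀ P, B P v 1 0 = 0 ∧ B P v 0 0 = 1 ∧ B P v 1 1 = 1) ∧
      ((∀ P, B P v 0 1 = 0) → v = 1) := by
  classical
  rw [goodE7.posUnipotent_eq] at hv
  obtain ⟨t, ⟨-, rfl⟩, -⟩ := goodE7.posSub_normal_form goodE7.posClosed_univ hv
  rw [torus_conj_ordProd z _ t le_rfl] at hc
  have hlt : ∀ r ∈ List.range' (chevE7.nroots / 2) (chevE7.nroots - chevE7.nroots / 2),
      chevE7.nroots / 2 ≤ r ∧ r < chevE7.nroots := fun r hr => by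
    rw [List.mem_range'_1] at hr; omega
  have hsupp : ∀ r ∈ List.range' (chevE7.nroots / 2) (chevE7.nroots - chevE7.nroots / 2),
      t r ≠ 0 → ∃ P, r = (pa P : ℕ) := by
    intro r hr hne
    obtain ⟨h1, h2⟩ := hlt r hr
    have := goodE7.ordProd_injective _ le_rfl _ _ hc r h1 h2
    obtain ⟨P, i, e⟩ := (val_eq_one_iff hζ hval ⟨r, h2⟩).1 (Units.ext (mul_right_cancel₀ hne
      (this.trans (one_mul _).symm)))
    fin_cases i
    · exact ⟨P, (congrArg Fin.val e).symm⟩
    · exact absurd ((congrArg Fin.val e).symm ▸ goodE7.isPosRoot_iff.2 ⟨h1, h2⟩) (neg_pb P)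
  have key : ∀ l : List ℕ, (∀ r ∈ l, t r ≠ 0 → ∃ P, r = (pa P : ℕ)) →
      (l.map fun r => goodE7.xg r (t r)).prod ∈ cent K ∧
      ∀ P, B P (l.map fun r => goodE7.xg r (t r)).prod =
        !![1, (l.map fun r => if r = (pa P : ℕ) then t r ^ 2 else 0).sum; 0, 1] := by
    intro l hl
    induction l with
    | nil => exact ⟨one_mem _, fun P => by rw [List.map_nil, List.prod_nil, B_one, List.map_nil, List.sum_nil,
        Matrix.one_fin_two]⟩
    | cons r l ih =>
      obtain ⟨hm, hB⟩ := ih fun s hs => hl s (List.mem_cons_of_mem _ hs)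
      simp only [List.map_cons, List.prod_cons, List.sum_cons]
      by_cases hr : t r = 0
      · rw [hr, goodE7.xg_zero, one_mul]
        refine ⟨hm, fun P => ?_⟩
        rw [hB]
        simp
      obtain ⟨Q, rfl⟩ := hl r List.mem_cons_self hr
      have hx : goodE7.xg (pa Q : ℕ) (t (pa Q : ℕ)) ∈ cent K := xg_mem_cent Q 0 _
      refine ⟨mul_mem hx hm, fun P => ?_⟩
      rw [B_mul hx hm, hB, show (pa Q : ℕ) = (pr Q 0 : ℕ) from rfl]
      ext a b
      simp only [Matrix.mul_apply, Fin.sum_univ_two]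
      simp only [B, blk_xg, Matrix.of_apply]
      have hPQ : ((pr Q 0 : ℕ) = (pa P : ℕ)) ↔ P = Q :=
        ⟨fun e => ((pr_inj _ _ 0 0 (Fin.ext e)).1).symm, fun e => e ▸ rfl⟩
      by_cases h : P = Q
      · subst h; fin_cases a <;> fin_cases b <;> simp [pr] <;> ring
      · fin_cases a <;> fin_cases b <;> simp [h, hPQ]
  obtain ⟨hm, hB⟩ := key _ hsupp
  refine ⟨hm, fun P => ?_, fun h01 => ?_⟩
  · show B P (goodE7.ordProd _ t) 1 0 = 0 ∧ _
    rw [Good.ordProd, hB]
    simp
  refine List.prod_eq_one fun x hx => ?_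
  obtain ⟨r, hr, rfl⟩ := List.mem_map.1 hx
  by_cases h0 : t r = 0
  · rw [h0, goodE7.xg_zero]
  obtain ⟨P, rfl⟩ := hsupp r hr h0
  exfalso
  have h2 := h01 P
  rw [Good.ordProd, hB] at h2
  simp only [Matrix.of_apply, Matrix.cons_val', Matrix.cons_val_zero, Matrix.cons_val_one, Matrix.empty_val',
    Matrix.cons_val_fin_one] at h2
  rw [List.sum_map_eq_nsmul_single (pa P : ℕ) _ (fun a ha _ => if_neg ha),
    List.count_eq_one_of_mem List.nodup_range' hr, one_smul, if_pos rfl] at h2
  exact h0 (pow_eq_zero_iff two_ne_zero |>.1 h2)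

theorem two_by_two {M : Matrix (Fin 2) (Fin 2) K} (hdet : M.det = 1) (h5 : M ^ 5 = 1)
    (hτ : M.trace ^ 8 = M.trace) : M = 1 := by
  have h2 : (2 : K) = 0 := CharTwo.two_eq_zero
  have hsq : M ^ 2 = M.trace • M + 1 := by
    rw [Matrix.det_fin_two] at hdet
    ext i j
    simp only [pow_two, Matrix.mul_apply, Fin.sum_univ_two, Matrix.add_apply, Matrix.smul_apply, smul_eq_mul,
      Matrix.trace_fin_two, Matrix.one_apply]
    fin_cases i <;> fin_cases j <;> simp
    · linear_combination -hdet + (M 0 1 * M 1 0) * 0 - 1 * h2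
    · ring
    · ring
    · linear_combination -hdet - 1 * h2
  set τ := M.trace with hτdef
  have h3 : M ^ 3 = (τ ^ 2 + 1) • M + τ • (1 : Matrix (Fin 2) (Fin 2) K) := by
    rw [pow_succ', hsq, mul_add, mul_smul_comm, mul_one, ← pow_two, hsq]
    module
  have h5' : M ^ 5 = (τ ^ 4 + τ ^ 2 + 1) • M + τ ^ 3 • (1 : Matrix (Fin 2) (Fin 2) K) := by
    have e : ∀ a : K, a + a = 0 := CharTwo.add_self_eq_zero
    rw [show M ^ 5 = M ^ 2 * M ^ 3 from pow_add M 2 3, h3, mul_add, mul_smul_comm, mul_smul_comm, mul_one,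
      show M ^ 2 * M = M ^ 3 from (pow_succ M 2).symm, h3, hsq]
    simp only [smul_add, smul_smul, ← add_smul]
    match_scalars
    · linear_combination (τ ^ 2) * h2
    · linear_combination τ * h2
  rw [h5'] at h5
  set p := τ ^ 4 + τ ^ 2 + 1 with hp
  by_cases hp0 : p = 0
  · exfalso
    have h1 := congrFun (congrFun h5 0) 0
    simp [hp0] at h1
    have e : τ ^ 2 = τ := by rw [show τ ^ 8 = τ ^ 3 * τ ^ 3 * τ ^ 2 by ring, h1, one_mul, one_mul] at hτ; exact hτ
    have h4 : τ ^ 4 = τ := by rw [show τ ^ 4 = τ ^ 3 * τ by ring, h1, one_mul]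
    rw [hp, h4, e] at hp0
    exact one_ne_zero (show (1 : K) = 0 by linear_combination hp0 - τ * h2)
  · have hoff : ∀ i j, i ≠ j → M i j = 0 := fun i j hij => by
      have h1 := congrFun (congrFun h5 i) j
      simpa [Matrix.one_apply_ne hij, hp0] using h1
    have hd : ∀ i, p * M i i + τ ^ 3 = 1 := fun i => by
      have h1 := congrFun (congrFun h5 i) i
      simpa using h1
    have heq : M 0 0 = M 1 1 := mul_left_cancel₀ hp0 (add_right_cancel ((hd 0).trans (hd 1).symm))
    have hτ0 : τ = 0 := by rw [hτdef, Matrix.trace_fin_two, heq, CharTwo.add_self_eq_zero]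
    ext i j
    by_cases hij : i = j
    · subst hij
      have := hd i
      rw [hp, hτ0] at this
      simpa using this
    · rw [hoff i j hij, Matrix.one_apply_ne hij]

variable {σ : K →+* K} (hσ : ∀ x, σ x = x ^ 2)

include hζ hval hσ in
/-- The twisted centraliser of the element of order 13 has no element of order five. -/
theorem eq_one_of_pow_five {m : GL chevE7.Idx K} (hm : m ∈ chevE7.group K)
    (hc : goodE7.torus z * m = m * goodE7.torus z) (hσm : nTw K * mapGL chevE7 σ m * (nTw K)⁻¹ = m)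
    (h5 : m ^ 5 = 1) : m = 1 := by
  obtain ⟨W, v, d, u, hv, hd, hu, rfl⟩ := exists_standard_form goodE7 hm
  set n : GL chevE7.Idx K := goodE7.nProd W
  have hN : n ∈ chevE7.monomialSubgroup K := goodE7.nProd_mem W
  set h := goodE7.torus z
  have hh : h ∈ chevE7.diagonalSubgroup K := goodE7.mem_diagonal.2 ⟨z, rfl⟩
  have hv' : h * v * h⁻¹ ∈ chevE7.posUnipotent K := goodE7.conj_posUnipotent (Subgroup.mem_sup_right hh) hv
  have hu' : h * u * h⁻¹ ∈ goodE7.posSub (goodE7.invSet n) := by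
    have hN' := goodE7.torus_mem_normalizer_gen (F := K)
      (S := fun r => chevE7.IsPosRoot r ∧ r ∈ goodE7.invSet n) (fun r h => h.1.1) z
    have e : goodE7.posSub (F := K) (goodE7.invSet n) = Subgroup.closure {g : GL chevE7.Idx K | ∃ (r : ℕ) (t : K),
        (chevE7.IsPosRoot r ∧ r ∈ goodE7.invSet n) ∧ (g : Matrix chevE7.Idx chevE7.Idx K) = chevE7.x K r t} := by
      refine le_antisymm (Subgroup.closure_mono ?_) ((Subgroup.closure_le _).2 ?_)
      · rintro g ⟨r, t, h, rfl⟩; exact ⟨r, t, h, goodE7.coe_xg r t⟩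
      · rintro g ⟨r, t, h, hg⟩; rw [goodE7.eq_xg hg]; exact goodE7.xg_mem_posSub h.1 h.2 t
    rw [e] at hu ⊢
    exact (Subgroup.mem_normalizer_iff.1 hN' u).1 hu
  have e : (h * v * h⁻¹) * (h * d * h⁻¹ * (h * (n * h⁻¹ * n⁻¹))) * n * (h * u * h⁻¹) = v * d * n * u := by
    calc _ = h * (v * d * n * u) * h⁻¹ := by group
      _ = _ := by rw [hc, mul_inv_cancel_right]
  have hd' : h * d * h⁻¹ * (h * (n * h⁻¹ * n⁻¹)) ∈ chevE7.diagonalSubgroup K :=
    mul_mem (mul_mem (mul_mem hh hd) (inv_mem hh)) (mul_mem hh (goodE7.diagonal_normalized hN (inv_mem hh)))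
  obtain ⟨-, hu2, hb⟩ := goodE7.bruhat_unique (mul_mem (Subgroup.mem_sup_left hv') (Subgroup.mem_sup_right hd'))
    (mul_mem (Subgroup.mem_sup_left hv) (Subgroup.mem_sup_right hd)) hN hN hu' hu e
  have hb' := hb rfl
  have hv2 : h * v * h⁻¹ = v := by
    have h1 := (Subgroup.eq_bot_iff_forall _).1 (goodE7.posUnipotent_inf_diagonal (F := K)) (v⁻¹ * (h * v * h⁻¹))
      (Subgroup.mem_inf.2 ⟨mul_mem (inv_mem hv) hv', by
        rw [show v⁻¹ * (h * v * h⁻¹) = d * (h * d * h⁻¹ * (h * (n * h⁻¹ * n⁻¹)))⁻¹ from by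
          rw [eq_mul_inv_iff_mul_eq, mul_assoc v⁻¹, hb', inv_mul_cancel_left]]
        exact mul_mem hd (inv_mem hd')⟩)
    exact (inv_mul_eq_one.1 h1).symm
  obtain ⟨hvc, hvB, hv1⟩ := pos_fixed hζ hval hv hv2
  obtain ⟨huc, huB, -⟩ := pos_fixed hζ hval (goodE7.posSub_le_posUnipotent _ hu) hu2
  have hdn : Commute h (d * n) := by
    rw [hv2, mul_right_inj] at hb'
    show h * (d * n) = d * n * h
    calc h * (d * n) = h * d * h⁻¹ * (h * (n * h⁻¹ * n⁻¹)) * (n * h) := by group
      _ = d * n * h := by rw [hb']; group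
  have hnfix : Fixes (d * n) := fixes_of_commute hζ hval (mul_mem (Subgroup.mem_sup_left hd) hN) hdn
  have hdnc : d * n ∈ cent K := mem_cent_of_fixes hζ hval hnfix
  have hme : v * d * n * u = v * (d * n) * u := by group
  rw [hme] at hc hσm h5 hm ⊢
  set m := v * (d * n) * u with hmdef
  have hmc : m ∈ cent K := mul_mem (mul_mem hvc hdnc) huc
  -- every block is trivial
  have hB : ∀ P, B P m = 1 := by
    have htr : ∀ P, (B (nx P) m).trace = (B P m).trace ^ 2 := fun P => by
      conv_lhs => rw [← hσm, trace_twist (mapGL_mem_cent σ hmc) P]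
      rw [Matrix.trace_fin_two, Matrix.trace_fin_two, CharTwo.add_sq]
      simp only [B, blk, coe_mapGL, Matrix.map_apply, hσ]
    intro P
    refine two_by_two ((isBlk_of_mem hmc P).2.2) ?_ ?_
    · have : ∀ k : ℕ, B P (m ^ k) = B P m ^ k := fun k => by
        induction k with
        | zero => rw [pow_zero, pow_zero, B_one]
        | succ k ih => rw [pow_succ, pow_succ, B_mul (pow_mem hmc k) hmc, ih]
      rw [← this, h5, B_one]
    · have h3 : nx (nx (nx P)) = P := by revert P; decide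
      have e := htr (nx (nx P))
      rw [h3, htr, htr, ← pow_mul, ← pow_mul] at e
      exact e.symm
  -- hence the monomial part is diagonal
  have hfix : ∀ P, goodE7.perm (d * n) (pa P) = pa P := fun P => by
    refine (block_fix_iff hnfix.1 hdnc P ((fixes_cases hnfix).1 P)).2 ?_
    have e := congrFun (congrFun (hB P) 1) 0
    rw [hmdef, B_mul (mul_mem hvc hdnc) huc, B_mul hvc hdnc] at e
    simp only [Matrix.mul_apply, Fin.sum_univ_two, hvB P, huB P] at e
    simpa using e
  have hdiag : d * n ∈ chevE7.diagonalSubgroup K := (fixes_cases hnfix).2 hfix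
  have hu1 : u = 1 := by
    have hempty : ∀ r, r ∉ goodE7.invSet n := by
      rintro r ⟨hr, hp, hneg⟩
      have hn1 : goodE7.perm n = 1 := by
        have hnd : n ∈ chevE7.diagonalSubgroup K := by simpa using mul_mem (inv_mem hd) hdiag
        exact goodE7.perm_diagonal hnd
      rw [hn1] at hneg
      exact (goodE7.isPosRoot_iff_not_neg hr).1 hp hneg
    have : goodE7.posSub (F := K) (goodE7.invSet n) ≤ ⊥ := (Subgroup.closure_le _).2 <| by
      rintro g ⟨r, t, ⟨-, hr⟩, -⟩
      exact absurd hr (hempty r)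
    exact Subgroup.mem_bot.1 (this hu)
  rw [hmdef, hu1, mul_one] at hB hσm h5 ⊢
  obtain ⟨z', hz'⟩ := goodE7.mem_diagonal.1 hdiag
  rw [hz'] at hB hσm h5 hdnc ⊢
  have hv0 : v = 1 := hv1 fun P => by
    have e := congrFun (congrFun (hB P) 0) 1
    rw [B_mul hvc hdnc] at e
    have hoff : B P (goodE7.torus z') 0 1 = 0 := by
      simp only [B, blk, goodE7.coe_torus, rdiag]
      exact Matrix.diagonal_apply_ne _ fun e => by simpa using (pr_inj _ _ _ _ (Sum.inr_injective e)).2
    have hne : B P (goodE7.torus z') 1 1 ≠ 0 := by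
      simp only [B, blk, goodE7.coe_torus, rdiag, Matrix.diagonal_apply_eq, Sum.elim_inr]
      exact Units.ne_zero _
    simp only [Matrix.mul_apply, Fin.sum_univ_two, hoff, mul_zero, zero_add] at e
    simpa [hne] using e
  rw [hv0, one_mul] at hσm h5 ⊢
  -- a torus element of the twist has order dividing 117
  have hT := torusE7_ok
  have hN' : nTw K ∈ chevE7.monomialSubgroup K := goodE7.nProd_mem _
  have hact : ∀ s : Fin chevE7.nroots, goodE7.torusVal z' (goodE7.perm (nTw K) s) = goodE7.torusVal z' s ^ 2 := by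
    intro s
    rw [mapGL_torus goodE7] at hσm
    rw [torusVal_conj hN' _ z' s hσm]
    simp only [Good.torusVal, ← Finset.prod_pow]
    refine Finset.prod_congr rfl fun k _ => ?_
    rw [show Units.map σ.toMonoidHom (z' k) = z' k ^ 2 from Units.ext (by simpa using hσ (z' k : K)), ← zpow_natCast,
      ← zpow_natCast, ← zpow_mul, ← zpow_mul, mul_comm]
  set x := goodE7.torusVal z' torusE7.α₀ with hx
  have horb : ∀ i, goodE7.torusVal z' (torusE7.orb i) = x ^ 2 ^ i := by
    intro i
    induction i with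
    | zero => rw [pow_zero, pow_one]; rfl
    | succ i ih =>
      have e := hact ⟨torusE7.orb i, orb_lt hT i⟩
      rw [perm_nTw, ← (torusE7.act_eq_actF goodE7 (orb_lt hT i)).1] at e
      show goodE7.torusVal z' (torusE7.act (torusE7.orb i)) = _
      rw [e, ih, ← pow_mul, ← pow_succ]
  have hexp : ∀ s : Fin chevE7.nroots, goodE7.torusVal z' s = x ^ expo torusE7 2 s := by
    intro s
    have key : ∀ k : Fin chevE7.rank, z' k ^ goodE7.cartForm k (goodE7.rc s) =
        ∏ i : Fin chevE7.rank, (z' k ^ goodE7.cartForm k (goodE7.rc (torusE7.orb i))) ^ torusE7.eC s i := by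
      intro k
      have e : goodE7.cartForm k (goodE7.rc s) =
          ∑ i : Fin chevE7.rank, torusE7.eC s i * goodE7.cartForm k (goodE7.rc (torusE7.orb i)) := by
        simp only [Good.cartForm, hT.basis s, Finset.sum_mul, Finset.mul_sum]
        rw [Finset.sum_comm]
        exact Finset.sum_congr rfl fun i _ => Finset.sum_congr rfl fun j _ => by ring
      rw [e]
      generalize (Finset.univ : Finset (Fin chevE7.rank)) = S
      induction S using Finset.induction_on with
      | empty => simp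
      | insert b S hb ih =>
        rw [Finset.sum_insert hb, Finset.prod_insert hb, zpow_add, ih, ← zpow_mul, mul_comm (torusE7.eC s b)]
    have e2 : goodE7.torusVal z' s =
        ∏ i : Fin chevE7.rank, goodE7.torusVal z' (torusE7.orb i) ^ torusE7.eC s i := by
      simp only [Good.torusVal, key]
      rw [Finset.prod_comm]
      exact Finset.prod_congr rfl fun i _ => Finset.prod_zpow _ _ _
    rw [e2, expo_eq]
    generalize (Finset.univ : Finset (Fin chevE7.rank)) = S
    induction S using Finset.induction_on with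
    | empty => simp
    | insert b S hb ih =>
      rw [Finset.prod_insert hb, Finset.sum_insert hb, zpow_add, ih, horb, ← zpow_natCast, ← zpow_mul,
        Nat.cast_pow, Nat.cast_ofNat, mul_comm ((2 : ℤ) ^ (b : ℕ))]
  have hx5 : x ^ 5 = 1 := by
    rw [hx, ← torusVal_pow]
    rw [← map_pow] at h5
    exact (goodE7.torus_eq_one_iff _).1 h5 _ hT.hα
  have hx117 : x ^ (117 : ℤ) = 1 := by
    have h7 : expo torusE7 2 (torusE7.orb 7) = 11 := by
      obtain ⟨e1, e2⟩ := torusE7.orb_eq_orbF goodE7 hT.hα 7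
      rw [expo, torusE7.eV_eq_eVF goodE7 e2, e1]
      decide +kernel
    have e := hexp ⟨torusE7.orb 7, orb_lt hT 7⟩
    rw [horb, h7, ← zpow_natCast] at e
    rw [show (117 : ℤ) = ((2 ^ 7 : ℕ) : ℤ) - 11 by norm_num, zpow_sub, e, mul_inv_cancel]
  have hx1 : x = 1 := by
    rw [← orderOf_eq_one_iff]
    have h1 := orderOf_dvd_of_pow_eq_one hx5
    have h2 : orderOf x ∣ 117 := orderOf_dvd_of_pow_eq_one (by exact_mod_cast hx117)
    have := Nat.dvd_gcd h1 h2
    simpa using this
  rw [goodE7.torus_eq_one_iff]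
  intro s hs
  rw [hexp ⟨s, hs⟩, hx1, one_zpow]

end Cent

/-! ### No element of order 65 -/

theorem factorization_thirteen :
    (2 ^ 63 * (2 ^ 2 - 1) * (2 ^ 6 - 1) * (2 ^ 8 - 1) * (2 ^ 10 - 1) * (2 ^ 12 - 1) * (2 ^ 14 - 1) *
      (2 ^ 18 - 1) : ℕ).factorization 13 = 1 := by
  refine le_antisymm ?_ ?_
  · by_contra h
    push Not at h
    have := (Nat.Prime.pow_dvd_iff_le_factorization (by norm_num : Nat.Prime 13) (by norm_num)).2 h
    norm_num at this
  · exact (Nat.Prime.pow_dvd_iff_le_factorization (by norm_num : Nat.Prime 13) (by norm_num)).1 (by norm_num)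

/-- A conjugate of the part of order five of an element of order 65 commutes with a conjugate of its part of order
thirteen. -/
theorem part_five {G : Type*} [Group G] {g x c : G} (hg : orderOf g = 65)
    (h : c * x * c⁻¹ ∈ Subgroup.zpowers (g ^ 5)) :
    ∃ y : G, x * y = y * x ∧ y ^ 5 = 1 ∧ (y = 1 → g ^ 13 = 1) := by
  obtain ⟨j, hj⟩ := h
  have e : x = c⁻¹ * (g ^ 5) ^ j * c := by rw [show (g ^ 5) ^ j = c * x * c⁻¹ from hj]; group
  have hcm : (g ^ 5) ^ j * g ^ 13 = g ^ 13 * (g ^ 5) ^ j := ((Commute.pow_pow_self g 5 13).zpow_left j).eq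
  refine ⟨c⁻¹ * g ^ 13 * c, ?_, ?_, fun h => ?_⟩
  · rw [e]
    calc c⁻¹ * (g ^ 5) ^ j * c * (c⁻¹ * g ^ 13 * c) = c⁻¹ * ((g ^ 5) ^ j * g ^ 13) * c := by group
      _ = c⁻¹ * (g ^ 13 * (g ^ 5) ^ j) * c := by rw [hcm]
      _ = _ := by group
  · rw [show c⁻¹ * g ^ 13 * c = MulAut.conj c⁻¹ (g ^ 13) by rw [MulAut.conj_apply, inv_inv], ← map_pow, ← pow_mul,
      show 13 * 5 = 65 from rfl, ← hg, pow_orderOf_eq_one, map_one]
  · rw [show g ^ 13 = c * (c⁻¹ * g ^ 13 * c) * c⁻¹ by group, h, mul_one, mul_inv_cancel]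

set_option maxHeartbeats 800000 in
/-- `E₇(2)` has no element of order 65. -/
theorem orderOf_ne (g : ↥(chevE7.group (ZMod 2))) : orderOf g ≠ 65 := by
  classical
  intro hg
  let K := AlgebraicClosure (ZMod 2)
  let ι := algebraMap (ZMod 2) K
  have : CharP K 2 := charP_of_injective_algebraMap ι.injective 2
  obtain ⟨σ, hσ', hfix⟩ := exists_frobenius (ZMod 2)
  have hσ : ∀ x : K, (σ : K →+* K) x = x ^ 2 := fun x => (hσ' x).trans (by rw [ZMod.card])
  have : NeZero ((13 : ℕ) : K) := ⟨by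
    rw [Ne, CharP.cast_eq_zero_iff K 2]; norm_num⟩
  obtain ⟨ζ₀, hζ₀⟩ := HasEnoughRootsOfUnity.exists_primitiveRoot K 13
  obtain ⟨ζ, rfl⟩ : IsUnit ζ₀ := hζ₀.isUnit (by norm_num)
  have hζ : IsPrimitiveRoot ζ 13 := IsPrimitiveRoot.coe_units_iff.1 hζ₀
  let z : Fin chevE7.rank → Kˣ := fun k => ζ ^ (7 * aZ.getD k 0)
  have hsum : ∀ (S : Finset (Fin chevE7.rank)) (f : Fin chevE7.rank → ℤ), (∏ k ∈ S, ζ ^ f k) = ζ ^ ∑ k ∈ S, f k := by
    intro S f
    induction S using Finset.induction_on with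
    | empty => simp
    | insert b S hb ih => rw [Finset.prod_insert hb, Finset.sum_insert hb, zpow_add, ih]
  have hval : ∀ s, s < chevE7.nroots → goodE7.torusVal z s = ζ ^ chi s := by
    intro s hs
    simp only [Good.torusVal, z, ← zpow_mul]
    rw [hsum, chi]
    congr 1
    rw [show ((List.range 7).map fun k => aZ.getD k 0 * goodE7.tab.cart 7 k s).sum =
      ∑ k : Fin 7, aZ.getD k 0 * goodE7.tab.cart 7 k s by
        rw [Fin.sum_univ_eq_sum_range (fun k => aZ.getD k 0 * goodE7.tab.cart 7 k s)]; rfl, Finset.mul_sum]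
    refine Finset.sum_congr rfl fun k _ => ?_
    rw [← goodE7.cart_eq_cartForm]
    exact mul_assoc _ _ _
  set n : GL chevE7.Idx K := nTw K
  have hnN : n ∈ chevE7.monomialSubgroup K := goodE7.nProd_mem _
  set t := goodE7.torus z with ht
  have htwist : n * mapGL chevE7 (σ : K →+* K) t * n⁻¹ = t := by
    have e : mapGL chevE7 (σ : K →+* K) t = goodE7.torus (z ^ 2) := by
      rw [ht, mapGL_torus goodE7]
      congr 1
      funext k
      exact Units.ext (by simpa using hσ (z k : K))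
    obtain ⟨w, hw⟩ := goodE7.mem_diagonal.1 (goodE7.diagonal_normalized hnN
      (goodE7.mem_diagonal.2 ⟨z ^ 2, rfl⟩))
    rw [e, hw, ← div_eq_one, ← map_div, goodE7.torus_eq_one_iff]
    intro s hs
    obtain ⟨s', hs'⟩ := (goodE7.perm n).surjective ⟨s, hs⟩
    have hk := torusVal_conj hnN (z ^ 2) w s' hw
    rw [torusVal_pow, hval _ s'.2, ← zpow_natCast, ← zpow_mul] at hk
    rw [hs'] at hk
    have hact : (13 : ℤ) ∣ chi s - chi s' * (2 : ℕ) := by
      have h1 := chi_act s'
      rw [← perm_nTw (K := K), hs'] at h1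
      rwa [Nat.cast_ofNat, mul_comm]
    have hzs : goodE7.torusVal z s = goodE7.torusVal w s := by
      rw [hk, hval s hs, ← sub_add_cancel (chi s) (chi s' * (2 : ℕ)), zpow_add,
        (hζ.zpow_eq_one_iff_dvd _).2 (by exact_mod_cast hact), one_mul]
    have := goodE7.torusVal_mul (w / z) z s
    rw [div_mul_cancel, hzs] at this
    exact mul_eq_right.1 this.symm
  have hnG : n ∈ chevE7.group K := goodE7.monomial_le_group hnN
  obtain ⟨γ, hγ, hγn⟩ := lang goodE7 (q := 2) le_rfl (σ := (σ : K →+* K)) hσ hnG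
  have hσγ : mapGL chevE7 (σ : K →+* K) γ = γ * n := by rw [← hγn, mul_inv_cancel_left]
  have htG : t ∈ chevE7.group K := goodE7.diagonal_le_group (goodE7.mem_diagonal.2 ⟨z, rfl⟩)
  -- torus elements trivial on all roots are trivial in characteristic two
  have htorus : ∀ u : Fin chevE7.rank → Kˣ, goodE7.torus u = 1 → u = 1 := fun u hu => by
    have h2 := pow_eq_one_of_ker torusE7_adjOk hu
    funext k
    have h3 := congrArg Units.val (congrFun h2 k)
    simp only [Pi.pow_apply, Units.val_pow_eq_pow_val, Pi.one_apply, Units.val_one] at h3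
    exact Units.ext (frobenius_inj K 2 (by simpa [frobenius_def, torusE7] using h3))
  have hle : fixGen (D := chevE7) (σ : K →+* K) ⊔ fixDiag (σ : K →+* K) ≤
      (chevE7.group (ZMod 2)).map (mapGL chevE7 ι) := by
    refine sup_le ((Subgroup.closure_le _).2 ?_) ?_
    · rintro y ⟨r, a, ha, hy⟩
      obtain ⟨b, rfl⟩ := (hfix a).1 ha
      exact ⟨goodE7.xg r b, goodE7.xg_mem_group r b, by rw [mapGL_xg goodE7, goodE7.eq_xg hy]⟩
    · intro d hd
      obtain ⟨hdH, hdτ⟩ := mem_fixDiag.1 hd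
      obtain ⟨u, rfl⟩ := goodE7.mem_diagonal.1 hdH
      rw [mapGL_torus goodE7] at hdτ
      have hu := mul_inv_eq_one.1 (htorus ((fun k => Units.map (σ : K →+* K).toMonoidHom (u k)) * u⁻¹)
        (by rw [map_mul, map_inv, mul_inv_eq_one, hdτ]))
      have hu1 : u = 1 := funext fun k => by
        obtain ⟨b, hb⟩ := (hfix (u k : K)).1 (congrArg Units.val (congrFun hu k))
        have hb1 : b = 1 := by
          have hb0 : b ≠ 0 := fun e => (u k).ne_zero (by rw [← hb, e, map_zero])
          revert hb0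
          clear hb
          revert b
          decide
        exact Units.ext (by rw [← hb, hb1, map_one]; rfl)
      rw [hu1, map_one]
      exact one_mem _
  have hfixed : mapGL chevE7 (σ : K →+* K) (γ * t * γ⁻¹) = γ * t * γ⁻¹ := by
    rw [map_mul, map_mul, map_inv, hσγ]
    calc γ * n * mapGL chevE7 (σ : K →+* K) t * (γ * n)⁻¹ =
        γ * (n * mapGL chevE7 (σ : K →+* K) t * n⁻¹) * γ⁻¹ := by group
      _ = _ := by rw [htwist]
  obtain ⟨x0, hx0, hxe⟩ := hle (fixed_mem_sup goodE7 (σ : K →+* K) (mul_mem (mul_mem hγ htG) (inv_mem hγ)) hfixed)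
  set x' : ↥(chevE7.group (ZMod 2)) := ⟨x0, hx0⟩
  have ht13 : t ^ 13 = 1 := by
    rw [ht, ← map_pow, goodE7.torus_eq_one_iff]
    intro s hs
    rw [torusVal_pow, hval s hs, ← zpow_natCast (ζ ^ _), ← zpow_mul]
    exact (hζ.zpow_eq_one_iff_dvd _).2 ⟨chi s, mul_comm _ _⟩
  have ht1 : t ≠ 1 := by
    rw [ht, Ne, goodE7.torus_eq_one_iff]
    intro h
    have h1 := h 0 (by decide)
    rw [hval 0 (by decide), hζ.zpow_eq_one_iff_dvd] at h1
    revert h1
    decide +kernel
  have hx13 : orderOf x' = 13 := by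
    have : Fact (Nat.Prime 13) := ⟨by norm_num⟩
    refine orderOf_eq_prime (Subtype.ext (mapGL_injective ι ?_)) fun e => ht1 ?_
    · rw [SubgroupClass.coe_pow, map_pow, hxe, conj_pow, ht13, OneMemClass.coe_one, map_one, mul_one,
        mul_inv_cancel]
    · have h1 : mapGL chevE7 ι x0 = 1 := by rw [show x0 = 1 from congrArg Subtype.val e, map_one]
      exact conj_eq_one_iff.1 (hxe.symm.trans h1)
  -- Sylow
  have hcard := Cfsg.Agent.S1064.result (F := ZMod 2) (q := 2) (ZMod.card 2)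
  rw [show Nat.gcd 2 (2 - 1) = 1 from rfl, one_mul] at hcard
  have : Fact (Nat.Prime 13) := ⟨by norm_num⟩
  have hg13 : orderOf (g ^ 5) = 13 := by rw [orderOf_pow, hg]; norm_num
  have hfac : (Nat.card ↥(chevE7.group (ZMod 2))).factorization 13 = 1 := by
    rw [hcard]
    exact factorization_thirteen
  let P := Sylow.ofCard (Subgroup.zpowers x') (by rw [Nat.card_zpowers, hx13, hfac, pow_one])
  let Q := Sylow.ofCard (Subgroup.zpowers (g ^ 5)) (by rw [Nat.card_zpowers, hg13, hfac, pow_one])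
  obtain ⟨c, hcPQ⟩ := MulAction.exists_smul_eq ↥(chevE7.group (ZMod 2)) P Q
  have hcx : c * x' * c⁻¹ ∈ Subgroup.zpowers (g ^ 5) := by
    have h1 : (MulAut.conj c) x' ∈ ((c • P : Sylow 13 _) : Subgroup ↥(chevE7.group (ZMod 2))) := by
      rw [Sylow.coe_subgroup_smul]
      exact Subgroup.smul_mem_pointwise_smul _ _ _ (Subgroup.mem_zpowers x')
    rw [hcPQ] at h1
    simpa [Q] using h1
  obtain ⟨y, hyx, hy5, hyg⟩ := part_five hg hcx
  have hyx0 : x0 * (y : GL chevE7.Idx (ZMod 2)) = (y : GL chevE7.Idx (ZMod 2)) * x0 := by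
    have e := congrArg Subtype.val hyx
    rw [Subgroup.coe_mul, Subgroup.coe_mul] at e
    exact e
  have hy50 : (y : GL chevE7.Idx (ZMod 2)) ^ 5 = 1 := by
    have e := congrArg Subtype.val hy5
    rw [Subgroup.coe_pow, Subgroup.coe_one] at e
    exact e
  set Y := mapGL chevE7 ι (y : GL chevE7.Idx (ZMod 2)) with hYdef
  have hYfix : mapGL chevE7 (σ : K →+* K) Y = Y :=
    Units.ext (Matrix.ext fun i j => (hfix _).2 ⟨_, rfl⟩)
  set m := γ⁻¹ * Y * γ with hmdef
  have hm : m = 1 := by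
    refine eq_one_of_pow_five hζ hval (σ := (σ : K →+* K)) hσ
      (mul_mem (mul_mem (inv_mem hγ) (mapGL_mem_group ι y.2)) hγ) ?_ ?_ ?_
    · have h1 : (γ * t * γ⁻¹) * Y = Y * (γ * t * γ⁻¹) := by
        rw [← hxe, hYdef, ← map_mul, ← map_mul, hyx0]
      calc t * m = γ⁻¹ * ((γ * t * γ⁻¹) * Y) * γ := by rw [hmdef]; group
        _ = γ⁻¹ * (Y * (γ * t * γ⁻¹)) * γ := by rw [h1]
        _ = _ := by rw [hmdef, ← ht]; group
    · rw [hmdef, map_mul, map_mul, map_inv, hσγ, hYfix]
      show n * ((γ * n)⁻¹ * Y * (γ * n)) * n⁻¹ = _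
      group
    · have h1 : Y ^ 5 = 1 := by rw [hYdef, ← map_pow, hy50, map_one]
      rw [show m = γ⁻¹ * Y * γ⁻¹⁻¹ by rw [inv_inv], conj_pow, h1, mul_one, mul_inv_cancel]
  have hY1 : Y = 1 := by
    have h1 : γ * m * γ⁻¹ = Y := by rw [hmdef]; group
    rw [← h1, hm, mul_one, mul_inv_cancel]
  have hy1 : y = 1 := Subtype.ext (mapGL_injective ι (hY1.trans (map_one _).symm))
  have hg1 : g ^ 13 = 1 := hyg hy1
  have := orderOf_dvd_of_pow_eq_one hg1
  rw [hg] at this
  norm_num at this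

/-- A subgroup has no element of order 65, so is isomorphic to no group having one. -/
theorem isEmpty_iso (H : Subgroup ↥(chevE7.group (ZMod 2))) {X : Type*} [Group X]
    (h : ∃ x : X, orderOf x = 65) : IsEmpty (↥H ≃* X) := by
  obtain ⟨x, hx⟩ := h
  refine ⟨fun e => orderOf_ne (H.subtype (e.symm x)) ?_⟩
  rw [orderOf_injective H.subtype H.subtype_injective,
    show e.symm x = e.symm.toMonoidHom x from rfl, orderOf_injective e.symm.toMonoidHom e.symm.injective, hx]

end Cfsg.Agent.H67.E7Two65
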