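import Mathlib
import Cfsg.Agent.H67.Embed

set_option autoImplicit false

namespace Cfsg.Agent.H67

open Matrix

variable {F K : Type*} [Field F] [Fintype F] [Field K] [Fintype K]

/-- The hyperbolic coordinate map onto `m = k + k` unitary coordinates. -/
def pairMap [Algebra F K] (q : ℕ) (θ μ μ' : K) {m k : ℕ} (σ : Fin k ⊕ Fin k ≃ Fin m)
    (hadd : ∀ x y : K, (x + y) ^ q = x ^ q + y ^ q)
    (hfix : ∀ x : F, algebraMap F K x ^ q = algebraMap F K x) :
    (Fin m ⊕ Fin m → F) →ₗ[F] (Fin k ⊕ Fin k → K) where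
  toFun w := fun i =>
    let j := Sum.elim id id i
    let s := algebraMap F K (w (.inl (σ (.inl j)))) + algebraMap F K (w (.inl (σ (.inr j)))) * θ
    let t := ((algebraMap F K (w (.inr (σ (.inl j)))) * (-θ ^ q / (θ - θ ^ q)) +
      algebraMap F K (w (.inr (σ (.inr j)))) * (1 / (θ - θ ^ q))) / (1 + μ * μ' ^ q)) ^ q
    Sum.elim (fun _ => s + t) (fun _ => μ * s + μ' * t) i
  map_add' u v := by
    funext i
    rcases i with j | j <;>
      simp [div_pow, mul_pow, hadd, hfix, add_div] <;> ring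
  map_smul' c v := by
    funext i
    rcases i with j | j <;>
      simp [div_pow, mul_pow, hadd, hfix, Algebra.smul_def, map_mul] <;> ring

/-- `pairMap` turns the hyperbolic form into the sum of norms. -/
theorem pairMap_norm [Algebra F K] {q : ℕ} (θ μ μ' : K) {m k : ℕ} (σ : Fin k ⊕ Fin k ≃ Fin m)
    (hadd : ∀ x y : K, (x + y) ^ q = x ^ q + y ^ q)
    (hfix : ∀ x : F, algebraMap F K x ^ q = algebraMap F K x)
    (hqq : ∀ x : K, (x ^ q) ^ q = x) (hθ : θ ^ q ≠ θ) (hne : μ ≠ μ')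
    (hμ : μ ^ (q + 1) = -1) (hμ' : μ' ^ (q + 1) = -1) (w : Fin m ⊕ Fin m → F) :
    ∑ i, pairMap q θ μ μ' σ hadd hfix w i * (pairMap q θ μ μ' σ hadd hfix w i) ^ q =
      algebraMap F K (Cfsg.quadFormPlus m F w) := by
  rw [Fintype.sum_sum_type, ← Finset.sum_add_distrib]
  unfold Cfsg.quadFormPlus
  rw [← σ.sum_comp (fun i => w (.inl i) * w (.inr i)), Fintype.sum_sum_type,
    ← Finset.sum_add_distrib, map_sum]
  refine Finset.sum_congr rfl fun j _ => ?_
  exact unitary_pair_identity (algebraMap F K) hfix hadd θ μ μ' hμ hμ' hqq hθ hne _ _ _ _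

/-- `pairMap` is injective. -/
theorem pairMap_inj [Algebra F K] {q : ℕ} (hF : Fintype.card F = q) (θ μ μ' : K) {m k : ℕ}
    (σ : Fin k ⊕ Fin k ≃ Fin m) (hadd : ∀ x y : K, (x + y) ^ q = x ^ q + y ^ q)
    (hfix : ∀ x : F, algebraMap F K x ^ q = algebraMap F K x)
    (hqq : ∀ x : K, (x ^ q) ^ q = x) (hθ : θ ^ q ≠ θ) (hne : μ ≠ μ')
    (hμ' : μ' ^ (q + 1) = -1) (w : Fin m ⊕ Fin m → F)
    (hw : pairMap q θ μ μ' σ hadd hfix w = 0) : w = 0 := by
  have hμq' : μ' * μ' ^ q = -1 := by rw [← pow_succ', hμ']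
  have hc : 1 + μ * μ' ^ q ≠ 0 := by
    intro h
    apply hne
    have h2 : μ' ^ q ≠ 0 := fun h0 => by rw [h0, mul_zero] at hμq'; exact one_ne_zero (neg_eq_zero.1 hμq'.symm)
    exact mul_right_cancel₀ h2 (by linear_combination h - hμq')
  have hθ' : (θ ^ q) ^ q ≠ θ ^ q := by rw [hqq]; exact hθ.symm
  have key : ∀ j, (w (.inl (σ (.inl j))) = 0 ∧ w (.inl (σ (.inr j))) = 0) ∧
      (w (.inr (σ (.inl j))) = 0 ∧ w (.inr (σ (.inr j))) = 0) := by
    intro j
    have h1 := congrFun hw (.inl j)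
    have h2 := congrFun hw (.inr j)
    simp only [pairMap, LinearMap.coe_mk, AddHom.coe_mk, Sum.elim_inl, Sum.elim_inr, id_eq,
      Pi.zero_apply] at h1 h2
    set s := algebraMap F K (w (.inl (σ (.inl j)))) + algebraMap F K (w (.inl (σ (.inr j)))) * θ
    set u := algebraMap F K (w (.inr (σ (.inl j)))) * (-θ ^ q / (θ - θ ^ q)) +
      algebraMap F K (w (.inr (σ (.inr j)))) * (1 / (θ - θ ^ q)) with hu
    have ht : (u / (1 + μ * μ' ^ q)) ^ q = 0 := by
      have : (μ' - μ) * (u / (1 + μ * μ' ^ q)) ^ q = 0 := by linear_combination h2 - μ * h1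
      exact (mul_eq_zero.1 this).resolve_left (sub_ne_zero.2 hne.symm)
    have hu0 : u = 0 := by
      have := (div_eq_zero_iff.1 (pow_eq_zero_iff'.1 ht).1)
      exact this.resolve_right hc
    have hs : s = 0 := by linear_combination h1 - ht
    refine ⟨coord_injective hF _ hθ hs, ?_⟩
    have hδ : θ - θ ^ q ≠ 0 := sub_ne_zero.2 hθ.symm
    have : algebraMap F K (w (.inr (σ (.inr j)))) + algebraMap F K (-w (.inr (σ (.inl j)))) * θ ^ q = 0 := by
      rw [map_neg]
      have h := hu.symm.trans hu0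
      field_simp at h
      linear_combination h
    have := coord_injective hF (algebraMap F K) hθ' this
    exact ⟨neg_eq_zero.1 this.2, this.1⟩
  funext x
  rcases x with i | i <;> obtain ⟨j | j, rfl⟩ := σ.surjective i
  · exact (key j).1.1
  · exact (key j).1.2
  · exact (key j).2.1
  · exact (key j).2.2

/-- The Hermitian norm form is preserved by `GU_m(q)`. -/
theorem GUMat_norm {m q : ℕ} (g : ↥(Cfsg.GU m K q)) (v : Fin m → K) :
    Cfsg.hermForm m K q (GUMat m K q g *ᵥ v) (GUMat m K q g *ᵥ v) = Cfsg.hermForm m K q v v :=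
  GU_preserves g v v

/-- `GU_m(q)`, `m` even, embeds in `O⁺_2m(q)`. -/
theorem GU_embeds_orth_plus {q : ℕ} (hK : Fintype.card K = q ^ 2) (hF : Fintype.card F = q)
    (m : ℕ) (hm : Even m) : ∃ φ : ↥(Cfsg.GU m K q) →* ↥(Cfsg.isometryGroup F (Cfsg.quadFormPlus m F)),
      Function.Injective φ := by
  obtain ⟨ι⟩ := exists_ringHom_quadExt hF hK
  letI : Algebra F K := ι.toAlgebra
  obtain ⟨θ, hθ⟩ := exists_pow_q_ne hK
  obtain ⟨μ, μ', hne, hμ, hμ'⟩ := exists_norm_neg_one hF hK ι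
  obtain ⟨k, rfl⟩ := hm
  have hadd := add_pow_q hK
  have hfix : ∀ x : F, algebraMap F K x ^ q = algebraMap F K x := ringHom_pow_card hF ι
  let σ : Fin k ⊕ Fin k ≃ Fin (k + k) := finSumFinEquiv
  let L := (LinearMap.funLeft F K σ.symm) ∘ₗ pairMap q θ μ μ' σ hadd hfix
  obtain ⟨e, he⟩ := exists_coord_equiv hF hK (by simp; ring) L (fun w hw => by
    refine pairMap_inj hF θ μ μ' σ hadd hfix (pow_q_pow_q hK) hθ hne hμ' w ?_
    funext i
    simpa [L] using congrFun hw (σ i))
  refine exists_isometry_embedding (GUMat _ K q) (GUMat_injective _ q) e _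
    (fun v => Cfsg.hermForm _ K q v v) (fun w => ?_) GUMat_norm
  rw [← pairMap_norm θ μ μ' σ hadd hfix (pow_q_pow_q hK) hθ hne hμ hμ', he]
  unfold Cfsg.hermForm
  rw [← σ.sum_comp]
  simp [L]

/-- `GU_m(q)`, `m` odd, embeds in `O⁻_2m(q)`. -/
theorem GU_embeds_orth_minus {q : ℕ} (hK : Fintype.card K = q ^ 2) (hF : Fintype.card F = q)
    (m : ℕ) (hm : Odd m) (a b : F)
    (hab : ∀ z₁ z₂ : F, z₁ ^ 2 + a * z₁ * z₂ + b * z₂ ^ 2 = 0 → z₁ = 0 ∧ z₂ = 0) :
    ∃ φ : ↥(Cfsg.GU m K q) →* ↥(Cfsg.isometryGroup F (Cfsg.quadFormMinus (m - 1) F a b)),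
      Function.Injective φ := by
  obtain ⟨ι⟩ := exists_ringHom_quadExt hF hK
  letI : Algebra F K := ι.toAlgebra
  obtain ⟨θ, hθ⟩ := exists_pow_q_ne hK
  obtain ⟨θ', hθ', hsum, hprod⟩ := exists_quadratic_root hF hK ι a b hab
  obtain ⟨μ, μ', hne, hμ, hμ'⟩ := exists_norm_neg_one hF hK ι
  obtain ⟨k, rfl⟩ := hm
  have hadd := add_pow_q hK
  have hfix : ∀ x : F, algebraMap F K x ^ q = algebraMap F K x := ringHom_pow_card hF ι
  let σ : Fin k ⊕ Fin k ≃ Fin (2 * k + 1 - 1) := finSumFinEquiv.trans (finCongr (by omega))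
  let τ : (Fin k ⊕ Fin k) ⊕ Unit ≃ Fin (2 * k + 1) :=
    (finSumFinEquiv.sumCongr finOneEquiv.symm).trans (finSumFinEquiv.trans (finCongr (by omega)))
  let L1 := pairMap q θ μ μ' σ hadd hfix
  let L : ((Fin (2 * k + 1 - 1) ⊕ Fin (2 * k + 1 - 1)) ⊕ Fin 2 → F) →ₗ[F] (Fin (2 * k + 1) → K) :=
    { toFun := fun w i => Sum.elim (L1 (fun j => w (.inl j)))
        (fun _ => ι (w (.inr 0)) + ι (w (.inr 1)) * θ') (τ.symm i)
      map_add' := fun u v => by
        funext i
        rcases h : τ.symm i with j | j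
        · simp only [Sum.elim_inl, Pi.add_apply, h]
          exact congrFun (map_add L1 (fun j => u (.inl j)) (fun j => v (.inl j))) j
        · simp [h]; ring
      map_smul' := fun c u => by
        funext i
        rcases h : τ.symm i with j | j
        · simp only [Sum.elim_inl, Pi.smul_apply, h, RingHom.id_apply]
          exact congrFun (map_smul L1 c (fun j => u (.inl j))) j
        · simp [h, Algebra.smul_def, RingHom.algebraMap_toAlgebra]; ring }
  obtain ⟨e, he⟩ := exists_coord_equiv hF hK (by simp; ring) L (fun w hw => by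
    have h1 := pairMap_inj hF θ μ μ' σ hadd hfix (pow_q_pow_q hK) hθ hne hμ' (fun j => w (.inl j)) (by
      funext i
      simpa [L] using congrFun hw (τ (.inl i)))
    have h2 := coord_injective hF ι hθ' (a := w (.inr 0)) (b := w (.inr 1))
      (by simpa [L] using congrFun hw (τ (.inr ())))
    funext x
    rcases x with j | j
    · exact congrFun h1 j
    · fin_cases j
      · exact h2.1
      · exact h2.2)
  refine exists_isometry_embedding (GUMat _ K q) (GUMat_injective _ q) e _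
    (fun v => Cfsg.hermForm _ K q v v) (fun w => ?_) GUMat_norm
  have hp := pairMap_norm θ μ μ' σ hadd hfix (pow_q_pow_q hK) hθ hne hμ hμ' (fun j => w (.inl j))
  rw [he]
  unfold Cfsg.hermForm
  rw [← τ.sum_comp, Fintype.sum_sum_type, Fintype.sum_unique (ι := Unit)]
  simp only [L, LinearMap.coe_mk, AddHom.coe_mk, Equiv.symm_apply_apply, Sum.elim_inl,
    Sum.elim_inr]
  rw [hp, Cfsg.quadFormMinus, map_add]
  simp only [RingHom.algebraMap_toAlgebra, Cfsg.quadFormPlus, map_add, map_mul, map_pow, hadd,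
    mul_pow, ringHom_pow_card hF, ← hsum, ← hprod]
  ring

omit [Fintype F] [Fintype K] in
/-- Change of a matrix form under a linear substitution. -/
theorem form_sub {I : Type} [Fintype I] {R : Type*} [CommRing R] (A M : Matrix I I R) (v : I → R) :
    (A *ᵥ v) ⬝ᵥ (M *ᵥ (A *ᵥ v)) - v ⬝ᵥ (M *ᵥ v) = v ⬝ᵥ ((Aᵀ * M * A - M) *ᵥ v) := by
  rw [Matrix.sub_mulVec, dotProduct_sub, ← Matrix.mulVec_mulVec, ← Matrix.mulVec_mulVec,
    Matrix.dotProduct_mulVec v Aᵀ, Matrix.vecMul_transpose]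

omit [Fintype F] [Fintype K] in
/-- A quadratic form with coefficients in a subfield keeps its isometries over the bigger field. -/
theorem quadratic_baseChange {I : Type} [Fintype I] [DecidableEq I] (ι : F →+* K)
    (M A : Matrix I I F) (h : ∀ v, (A *ᵥ v) ⬝ᵥ (M *ᵥ (A *ᵥ v)) = v ⬝ᵥ (M *ᵥ v)) (v : I → K) :
    (A.map ι *ᵥ v) ⬝ᵥ (M.map ι *ᵥ (A.map ι *ᵥ v)) = v ⬝ᵥ (M.map ι *ᵥ v) := by
  set B := Aᵀ * M * A - M with hB
  have hB0 : ∀ v, v ⬝ᵥ (B *ᵥ v) = 0 := fun v => by rw [hB, ← form_sub, h, sub_self]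
  have hd : ∀ i, B i i = 0 := fun i => by simpa using hB0 (Pi.single i 1)
  have ho : ∀ i j, B i j + B j i = 0 := by
    intro i j
    have := hB0 (Pi.single i 1 + Pi.single j 1)
    simp only [Matrix.mulVec_add, dotProduct_add, add_dotProduct, Matrix.mulVec_single_one,
      single_one_dotProduct, Matrix.col_apply, hd] at this
    linear_combination this
  rw [← sub_eq_zero, form_sub]
  have hm : (A.map ι)ᵀ * M.map ι * A.map ι - M.map ι = B.map ι := by
    rw [hB, ← Matrix.transpose_map, ← Matrix.map_mul, ← Matrix.map_mul, Matrix.map_sub _ (map_sub ι)]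
  rw [hm]
  simp only [dotProduct, Matrix.mulVec, Matrix.map_apply, Finset.mul_sum]
  rw [← Finset.sum_product']
  refine Finset.sum_involution (fun p _ => (p.2, p.1)) ?_ ?_ (fun _ _ => by simp) (fun _ _ => rfl)
  · rintro ⟨i, j⟩ _
    calc v i * (ι (B i j) * v j) + v j * (ι (B j i) * v i)
        = ι (B i j + B j i) * (v i * v j) := by rw [map_add]; ring
      _ = 0 := by rw [ho, map_zero, zero_mul]
  · rintro ⟨i, j⟩ _ hne heq
    simp only [Prod.mk.injEq] at heq
    rw [heq.2] at hne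
    simp [hd] at hne

omit [Fintype F] [Fintype K] in
/-- The minus-type form as a matrix form. -/
theorem quadFormMinus_eq {R : Type*} [Field R] (m : ℕ) (a b : R)
    (v : (Fin m ⊕ Fin m) ⊕ Fin 2 → R) :
    Cfsg.quadFormMinus m R a b v =
      v ⬝ᵥ (Matrix.fromBlocks (Matrix.fromBlocks 0 1 0 0) 0 0 !![1, a; 0, b] *ᵥ v) := by
  simp [Cfsg.quadFormMinus, Matrix.fromBlocks_mulVec, dotProduct, Fintype.sum_sum_type,
    Matrix.mulVec, Fin.sum_univ_two]
  simp [Matrix.one_apply]
  ring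

/-- `O⁻_2m(q)` embeds in `O⁺_2m(q²)`. -/
theorem orth_minus_embeds_plus {q : ℕ} (hF : Fintype.card F = q) (hK : Fintype.card K = q ^ 2)
    {m : ℕ} (hm : 1 ≤ m) (a c : F)
    (hac : ∀ z₁ z₂ : F, z₁ ^ 2 + a * z₁ * z₂ + c * z₂ ^ 2 = 0 → z₁ = 0 ∧ z₂ = 0) :
    ∃ φ : ↥(Cfsg.isometryGroup F (Cfsg.quadFormMinus (m - 1) F a c)) →*
      ↥(Cfsg.isometryGroup K (Cfsg.quadFormPlus m K)), Function.Injective φ := by
  obtain ⟨ι⟩ := exists_ringHom_quadExt hF hK
  obtain ⟨θ, hθ, hsum, hprod⟩ := exists_quadratic_root hF hK ι a c hac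
  let σ : Fin (m - 1) ⊕ Unit ≃ Fin m :=
    ((Equiv.refl _).sumCongr finOneEquiv.symm).trans (finSumFinEquiv.trans (finCongr (by omega)))
  let L : ((Fin (m - 1) ⊕ Fin (m - 1)) ⊕ Fin 2 → K) →ₗ[K] (Fin m ⊕ Fin m → K) :=
    { toFun := fun v x => Sum.elim
        (fun i => Sum.elim (fun j => v (.inl (.inl j))) (fun _ => v (.inr 0) + θ * v (.inr 1)) (σ.symm i))
        (fun i => Sum.elim (fun j => v (.inl (.inr j))) (fun _ => v (.inr 0) + θ ^ q * v (.inr 1)) (σ.symm i)) x
      map_add' := fun u v => by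
        funext x
        rcases x with i | i <;> rcases h : σ.symm i with j | j <;> simp [h] <;> ring
      map_smul' := fun r v => by
        funext x
        rcases x with i | i <;> rcases h : σ.symm i with j | j <;> simp [h] <;> ring }
  have hinj : Function.Injective L := by
    rw [injective_iff_map_eq_zero]
    intro v hv
    have h0 : v (.inr 0) + θ * v (.inr 1) = 0 := by simpa [L] using congrFun hv (.inl (σ (.inr ())))
    have h1 : v (.inr 0) + θ ^ q * v (.inr 1) = 0 := by simpa [L] using congrFun hv (.inr (σ (.inr ())))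
    have hz : v (.inr 1) = 0 := by
      have : (θ - θ ^ q) * v (.inr 1) = 0 := by linear_combination h0 - h1
      exact (mul_eq_zero.1 this).resolve_left (sub_ne_zero.2 hθ.symm)
    funext x
    rcases x with (j | j) | j
    · simpa [L] using congrFun hv (.inl (σ (.inl j)))
    · simpa [L] using congrFun hv (.inr (σ (.inl j)))
    · fin_cases j
      · simpa [hz] using h0
      · exact hz
  have hbij : Function.Bijective L := (Fintype.bijective_iff_injective_and_card _).2 ⟨hinj, by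
    rw [Fintype.card_fun, Fintype.card_fun]; congr 1; simp; omega⟩
  let φ : ↥(Cfsg.isometryGroup F (Cfsg.quadFormMinus (m - 1) F a c)) →*
      Matrix ((Fin (m - 1) ⊕ Fin (m - 1)) ⊕ Fin 2) ((Fin (m - 1) ⊕ Fin (m - 1)) ⊕ Fin 2) K :=
    (ι.mapMatrix.toMonoidHom.comp (Units.coeHom _)).comp (Subgroup.subtype _)
  have hφ : Function.Injective φ := fun g h e =>
    Subtype.ext (Units.ext (Matrix.map_injective ι.injective e))
  refine exists_isometry_embedding φ hφ (LinearEquiv.ofBijective L hbij).symm _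
    (Cfsg.quadFormMinus (m - 1) K (ι a) (ι c)) (fun w => ?_) (fun g v => ?_)
  · obtain ⟨v, rfl⟩ := (LinearEquiv.ofBijective L hbij).surjective w
    rw [LinearEquiv.symm_apply_apply]
    show Cfsg.quadFormPlus m K (L v) = _
    rw [Cfsg.quadFormPlus, ← σ.sum_comp, Fintype.sum_sum_type, Fintype.sum_unique (ι := Unit)]
    simp only [L, LinearMap.coe_mk, AddHom.coe_mk, Sum.elim_inl, Sum.elim_inr,
      Equiv.symm_apply_apply, Cfsg.quadFormMinus]
    linear_combination (v (.inr 0) * v (.inr 1)) * hsum + (v (.inr 1) ^ 2) * hprod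
  · have hb : (!![1, ι a; 0, ι c] : Matrix (Fin 2) (Fin 2) K) = (!![1, a; 0, c]).map ι := by
      ext i j; fin_cases i <;> fin_cases j <;> simp
    have hM : (Matrix.fromBlocks (Matrix.fromBlocks 0 1 0 0) 0 0 !![1, ι a; 0, ι c] :
          Matrix ((Fin (m - 1) ⊕ Fin (m - 1)) ⊕ Fin 2) ((Fin (m - 1) ⊕ Fin (m - 1)) ⊕ Fin 2) K) =
        (Matrix.fromBlocks (Matrix.fromBlocks 0 1 0 0) 0 0 !![1, a; 0, c] :
          Matrix ((Fin (m - 1) ⊕ Fin (m - 1)) ⊕ Fin 2) ((Fin (m - 1) ⊕ Fin (m - 1)) ⊕ Fin 2) F).map ι := by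
      rw [hb, Matrix.fromBlocks_map, Matrix.fromBlocks_map]
      simp
    rw [quadFormMinus_eq, quadFormMinus_eq, hM]
    refine quadratic_baseChange ι _ _ (fun u => ?_) v
    rw [← quadFormMinus_eq, ← quadFormMinus_eq]
    exact g.2 u u

omit [Fintype F] [Fintype K] in
/-- Symplectic matrices preserve the standard alternating form pointwise. -/
theorem preserves_of_mem_symplectic {m : ℕ} (A : Matrix (Fin m ⊕ Fin m) (Fin m ⊕ Fin m) F)
    (hA : A ∈ Matrix.symplecticGroup (Fin m) F) (u v : Fin m ⊕ Fin m → F) :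
    ∑ i, ((A *ᵥ u) (.inl i) * (A *ᵥ v) (.inr i) - (A *ᵥ u) (.inr i) * (A *ᵥ v) (.inl i)) =
      ∑ i, (u (.inl i) * v (.inr i) - u (.inr i) * v (.inl i)) := by
  have hJ : ∀ u v : Fin m ⊕ Fin m → F, u ⬝ᵥ (Matrix.J (Fin m) F *ᵥ v) =
      -∑ i, (u (.inl i) * v (.inr i) - u (.inr i) * v (.inl i)) := by
    intro u v
    simp [Matrix.J, Matrix.fromBlocks_mulVec, dotProduct, Fintype.sum_sum_type,
      Matrix.neg_mulVec, Finset.sum_sub_distrib]
    abel
  apply neg_injective
  rw [← hJ, ← hJ]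
  conv_rhs => rw [← SymplecticGroup.mem_iff'.1 hA, ← Matrix.mulVec_mulVec, ← Matrix.mulVec_mulVec,
    Matrix.dotProduct_mulVec u Aᵀ, Matrix.vecMul_transpose]

/-- `Sp_2a(q²)` embeds in `Sp_4a(q)`. -/
theorem symplectic_field_extension {q : ℕ} (hK : Fintype.card K = q ^ 2) (hF : Fintype.card F = q)
    (a : ℕ) : ∃ φ : ↥(Matrix.symplecticGroup (Fin a) K) →* ↥(Matrix.symplecticGroup (Fin (2 * a)) F),
      Function.Injective φ := by
  obtain ⟨ι⟩ := exists_ringHom_quadExt hF hK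
  letI : Algebra F K := ι.toAlgebra
  obtain ⟨θ, hθ⟩ := exists_pow_q_ne hK
  have hδ : θ - θ ^ q ≠ 0 := sub_ne_zero.2 hθ.symm
  let σ : Fin a ⊕ Fin a ≃ Fin (2 * a) := finSumFinEquiv.trans (finCongr (by omega))
  let L : (Fin (2 * a) ⊕ Fin (2 * a) → F) →ₗ[F] (Fin a ⊕ Fin a → K) :=
    { toFun := fun w => Sum.elim
        (fun j => ι (w (.inl (σ (.inl j)))) + ι (w (.inl (σ (.inr j)))) * θ)
        (fun j => ι (w (.inr (σ (.inl j)))) * (-θ ^ q / (θ - θ ^ q)) +
          ι (w (.inr (σ (.inr j)))) * (1 / (θ - θ ^ q)))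
      map_add' := fun u v => by
        funext x
        rcases x with j | j <;> simp <;> ring
      map_smul' := fun r v => by
        funext x
        rcases x with j | j <;> simp [Algebra.smul_def, RingHom.algebraMap_toAlgebra] <;> ring }
  obtain ⟨e, he⟩ := exists_coord_equiv hF hK (by simp; ring) L (fun w hw => by
    have hθ' : (θ ^ q) ^ q ≠ θ ^ q := by rw [pow_q_pow_q hK]; exact hθ.symm
    have key : ∀ j, (w (.inl (σ (.inl j))) = 0 ∧ w (.inl (σ (.inr j))) = 0) ∧
        (w (.inr (σ (.inl j))) = 0 ∧ w (.inr (σ (.inr j))) = 0) := by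
      intro j
      have h1 : ι (w (.inl (σ (.inl j)))) + ι (w (.inl (σ (.inr j)))) * θ = 0 := congrFun hw (.inl j)
      have h2 : ι (w (.inr (σ (.inl j)))) * (-θ ^ q / (θ - θ ^ q)) +
          ι (w (.inr (σ (.inr j)))) * (1 / (θ - θ ^ q)) = 0 := congrFun hw (.inr j)
      refine ⟨coord_injective hF ι hθ h1, ?_⟩
      have h3 : ι (w (.inr (σ (.inr j)))) + ι (-w (.inr (σ (.inl j)))) * θ ^ q = 0 := by
        rw [map_neg]; field_simp at h2; linear_combination h2
      have := coord_injective hF ι hθ' h3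
      exact ⟨neg_eq_zero.1 this.2, this.1⟩
    funext x
    rcases x with i | i <;> obtain ⟨j | j, rfl⟩ := σ.surjective i
    · exact (key j).1.1
    · exact (key j).1.2
    · exact (key j).2.1
    · exact (key j).2.2)
  have key : ∀ u v,
      (∑ j, (e u (.inl j) * e v (.inr j) - e u (.inr j) * e v (.inl j))) +
        (∑ j, (e u (.inl j) * e v (.inr j) - e u (.inr j) * e v (.inl j))) ^ q =
      ι (∑ i, (u (.inl i) * v (.inr i) - u (.inr i) * v (.inl i))) := by
    intro u v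
    rw [← powRingHom_apply hK, map_sum, ← Finset.sum_add_distrib, ← σ.sum_comp,
      Fintype.sum_sum_type, ← Finset.sum_add_distrib, map_sum]
    refine Finset.sum_congr rfl fun j _ => ?_
    rw [he, he]
    have hqθ : θ ^ q - θ ≠ 0 := sub_ne_zero.2 hθ
    simp only [L, LinearMap.coe_mk, AddHom.coe_mk, Sum.elim_inl, Sum.elim_inr, map_sub, map_add,
      map_mul, map_neg, map_div₀, map_one, powRingHom_apply, ringHom_pow_card hF, pow_q_pow_q hK]
    field_simp
    ring
  let φ : ↥(Matrix.symplecticGroup (Fin a) K) →* Matrix (Fin a ⊕ Fin a) (Fin a ⊕ Fin a) K :=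
    (Matrix.symplecticGroup (Fin a) K).subtype
  have hmem : ∀ g, restrictHom φ e g ∈ Matrix.symplecticGroup (Fin (2 * a)) F := by
    intro g
    apply mem_symplectic_of_preserves
    intro u v
    apply ι.injective
    rw [← key, ← key, restrictHom_apply, restrictHom_apply, preserves_of_mem_symplectic (φ g) g.2]
  refine ⟨(restrictHom φ e).codRestrict _ hmem, fun g g' h => ?_⟩
  exact restrictHom_injective φ e Subtype.val_injective (congrArg Subtype.val h)

end Cfsg.Agent.H67
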