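import Cfsg.Agent.H86.Zipper

/-!
An involution that normally generates a finite group generates it together with the members of its
class reachable by steps of odd product order.
-/

set_option autoImplicit false

namespace Cfsg.Agent.H67.OddProductGraph

open Subgroup Cfsg.Agent.H86

universe u

variable {G : Type u} [Group G]

/-- One step: a conjugate whose product with the previous element has odd order. -/
def Step (x y : G) : Prop := IsConj x y ∧ Odd (orderOf (x * y))

/-- The elements reachable from `x`. -/
def Reach (x : G) : Set G := {y | Relation.ReflTransGen Step x y}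

theorem Step.conj {x y : G} (g : G) (h : Step x y) : Step (g * x * g⁻¹) (g * y * g⁻¹) := by
  refine ⟨?_, ?_⟩
  · exact ((isConj_iff.2 ⟨g⁻¹, by group⟩ : IsConj (g * x * g⁻¹) x).trans h.1).trans
      (isConj_iff.2 ⟨g, rfl⟩)
  · have e : g * x * g⁻¹ * (g * y * g⁻¹) = MulAut.conj g (x * y) := by simp [mul_assoc]
    rw [e, MulEquiv.orderOf_eq]
    exact h.2

theorem step_symm {x y : G} (h : Step x y) : Step y x := by
  refine ⟨h.1.symm, ?_⟩
  have e : y * x = MulAut.conj y (x * y) := by simp [mul_assoc]
  rw [e, MulEquiv.orderOf_eq]
  exact h.2

theorem reach_symm {x y : G} (h : Relation.ReflTransGen (Step (G := G)) x y) :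
    Relation.ReflTransGen (Step (G := G)) y x := by
  induction h with
  | refl => exact .refl
  | tail _ hs ih => exact ih.head (step_symm hs)

theorem reach_conj {x y : G} (g : G) (h : Relation.ReflTransGen (Step (G := G)) x y) :
    Relation.ReflTransGen (Step (G := G)) (g * x * g⁻¹) (g * y * g⁻¹) := by
  induction h with
  | refl => exact .refl
  | tail _ hs ih => exact ih.tail (hs.conj g)

theorem map_reach (H : Subgroup G) {x y : H} (h : y ∈ Reach x) : (y : G) ∈ Reach (x : G) := by
  change Relation.ReflTransGen Step x y at h
  induction h with
  | refl => exact Relation.ReflTransGen.refl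
  | tail _ hab ih =>
    refine Relation.ReflTransGen.tail ih ⟨H.subtype.map_isConj hab.1, ?_⟩
    rw [← H.coe_mul, Subgroup.orderOf_coe]
    exact hab.2

/-- An involution normally generating a finite group reaches a generating set. -/
theorem closure_reach_eq_top : ∀ (G : Type u) [Group G] [Finite G] (x : G), x * x = 1 →
    normalClosure ((zpowers x : Subgroup G) : Set G) = ⊤ → closure (Reach x) = ⊤ := by
  suffices H : ∀ (n : ℕ) (G : Type u) [Group G] [Finite G] (x : G), Nat.card G ≤ n → x * x = 1 →
      normalClosure ((zpowers x : Subgroup G) : Set G) = ⊤ → closure (Reach x) = ⊤ from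
    fun G _ _ x h1 h2 => H _ G x le_rfl h1 h2
  intro n
  induction n with
  | zero =>
    intro G _ _ x hcard _ _
    have := Nat.card_pos (α := G)
    omega
  | succ n ih =>
    intro G _ _ x hcard hx hcl
    by_contra hne
    set D : Subgroup G := closure (Reach x) with hD
    have hxD : x ∈ D := subset_closure Relation.ReflTransGen.refl
    have hgen : sSup (Zipper.GenSet (zpowers x)) ≤ D := by
      refine sSup_le ?_
      rintro H ⟨hxH, hHt, hH⟩
      have hxH' : x ∈ H := hxH (mem_zpowers x)
      have hsub : zpowers (⟨x, hxH'⟩ : H) = (zpowers x).subgroupOf H := by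
        ext z
        simp only [mem_subgroupOf, mem_zpowers_iff, ← Subtype.coe_inj, coe_zpow]
      have hcard' : Nat.card H ≤ n := by
        have hlt : Nat.card H < Nat.card G :=
          lt_of_le_of_ne H.card_le_card_group (fun e => hHt (eq_top_of_card_eq H e))
        omega
      have h := ih H ⟨x, hxH'⟩ hcard' (Subtype.ext hx)
        (by rw [hsub]; exact (Zipper.gen_iff hxH).2 hH)
      intro a ha
      have ha' : (⟨a, ha⟩ : H) ∈ closure (Reach (⟨x, hxH'⟩ : H)) := h ▸ mem_top _
      have h2 := mem_map_of_mem H.subtype ha'
      rw [MonoidHom.map_closure] at h2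
      refine closure_mono ?_ h2
      rintro _ ⟨b, hb, rfl⟩
      exact map_reach H hb
    have hxt : zpowers x ≠ ⊤ := fun e => hne (top_le_iff.1 (e ▸ zpowers_le.2 hxD))
    obtain ⟨M, ⟨hM, hxM⟩, huniq⟩ := Zipper.join_or_unique (zpowers x) hcl hxt
      (fun e => hne (top_le_iff.1 (e ▸ hgen)))
    -- two conjugates of `x` generate a proper subgroup
    have hpair : ∀ g : G, g * x * g⁻¹ ∈ M := by
      intro g
      obtain ⟨y, hy⟩ : ∃ y, y = g * x * g⁻¹ := ⟨_, rfl⟩
      rw [← hy]
      by_cases hp : closure ({x, y} : Set G) = ⊤
      · exfalso
        have hy2 : y * y = 1 := by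
          calc y * y = g * (x * x) * g⁻¹ := by rw [hy]; group
          _ = 1 := by rw [hx]; group
        have hxi : x⁻¹ = x := inv_eq_of_mul_eq_one_right hx
        have hyi : y⁻¹ = y := inv_eq_of_mul_eq_one_right hy2
        by_cases hodd : Odd (orderOf (x * y))
        · apply hne
          refine eq_top_iff.2 (hp ▸ (closure_le _).2 ?_)
          intro a ha
          rcases ha with rfl | rfl
          · exact hxD
          · exact subset_closure (Relation.ReflTransGen.single ⟨isConj_iff.2 ⟨g, hy.symm⟩, hodd⟩)
        · -- an even dihedral group is not normally generated by one reflection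
          set N := closure ({x, y * x * y} : Set G) with hN
          have hxN : x ∈ N := subset_closure (Or.inl rfl)
          have hyxy : y * x * y ∈ N := subset_closure (Or.inr rfl)
          have hnx : ∀ a ∈ N, x * a * x⁻¹ ∈ N := fun a ha =>
            mul_mem (mul_mem hxN ha) (inv_mem hxN)
          have hny : ∀ a ∈ N, y * a * y⁻¹ ∈ N := by
            intro a ha
            induction ha using Subgroup.closure_induction with
            | mem b hb =>
              rcases hb with rfl | rfl
              · rw [hyi]; exact hyxy
              · rw [hyi]
                have e : y * (y * x * y) * y = (y * y) * x * (y * y) := by group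
                rw [e, hy2, one_mul, mul_one]
                exact hxN
            | one => simp
            | mul b c _ _ hb hc =>
              have e : y * (b * c) * y⁻¹ = y * b * y⁻¹ * (y * c * y⁻¹) := by group
              rw [e]; exact mul_mem hb hc
            | inv b _ hb =>
              have e : y * b⁻¹ * y⁻¹ = (y * b * y⁻¹)⁻¹ := by group
              rw [e]; exact inv_mem hb
          have hNn : N.Normal := by
            refine normalizer_eq_top_iff.1 (eq_top_iff.2 ?_)
            rw [← hp, closure_le]
            intro a ha
            have key : ∀ c : G, c * c = 1 → (∀ b ∈ N, c * b * c⁻¹ ∈ N) →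
                c ∈ normalizer (N : Set G) := by
              intro c hc hcN
              rw [mem_normalizer_iff]
              intro b
              refine ⟨hcN b, fun hb => ?_⟩
              have e : c * (c * b * c⁻¹) * c⁻¹ = (c * c) * b * (c * c)⁻¹ := by group
              have h3 := hcN _ hb
              rwa [e, hc, one_mul, inv_one, mul_one] at h3
            rcases ha with rfl | rfl
            · exact key _ hx hnx
            · exact key _ hy2 hny
          have hNt : N = ⊤ :=
            eq_top_iff.2 (hcl ▸ normalClosure_le_normal (zpowers_le.2 hxN))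
          apply hodd
          -- `N` is dihedral on `(x*y)^2`, so `x * y` has odd order
          have hr : ∀ a ∈ N, ∃ k : ℤ, a = (x * y) ^ (2 * k) ∨ a = (x * y) ^ (2 * k) * x := by
            have hinv : ∀ k : ℤ, x * (x * y) ^ k = (x * y) ^ (-k) * x := by
              intro k
              have e : MulAut.conj x (x * y) = (x * y)⁻¹ := by
                simp [mul_inv_rev, hxi, hyi, ← mul_assoc, hx]
              have e2 : MulAut.conj x ((x * y) ^ k) = ((x * y)⁻¹) ^ k := by rw [map_zpow, e]
              rw [inv_zpow', MulAut.conj_apply] at e2
              rw [← e2]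
              group
            intro a ha
            induction ha using Subgroup.closure_induction_left with
            | one => exact ⟨0, Or.inl (by simp)⟩
            | mul_left b hb c _ hc =>
              obtain ⟨k, hk⟩ := hc
              rcases hb with rfl | rfl
              · rcases hk with rfl | rfl
                · exact ⟨-k, Or.inr (by rw [hinv, mul_neg])⟩
                · refine ⟨-k, Or.inl ?_⟩
                  rw [← mul_assoc, hinv, mul_assoc, hx, mul_one, mul_neg]
              · have e : y * x * y = (x * y) ^ (-2 : ℤ) * x := by
                  have : (x * y) ^ (-2 : ℤ) = (x * y)⁻¹ * (x * y)⁻¹ := by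
                    rw [zpow_neg, zpow_two, mul_inv_rev]
                  rw [this, mul_inv_rev, hxi, hyi]
                  calc y * x * y = y * x * y * (x * x) := by rw [hx, mul_one]
                  _ = y * x * (y * x) * x := by group
                rcases hk with rfl | rfl
                · refine ⟨-1 - k, Or.inr ?_⟩
                  rw [e, mul_assoc, hinv, ← mul_assoc, ← zpow_add]
                  congr 2; ring
                · refine ⟨-1 - k, Or.inl ?_⟩
                  rw [e, mul_assoc, ← mul_assoc x, hinv, mul_assoc, hx, mul_one, ← zpow_add]
                  congr 1; ring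
            | inv_mul_cancel b hb c _ hc =>
              obtain ⟨k, hk⟩ := hc
              rcases hb with rfl | rfl
              · rw [hxi]
                rcases hk with rfl | rfl
                · exact ⟨-k, Or.inr (by rw [hinv, mul_neg])⟩
                · refine ⟨-k, Or.inl ?_⟩
                  rw [← mul_assoc, hinv, mul_assoc, hx, mul_one, mul_neg]
              · have e : (y * x * y)⁻¹ = (x * y) ^ (-2 : ℤ) * x := by
                  have : (x * y) ^ (-2 : ℤ) = (x * y)⁻¹ * (x * y)⁻¹ := by
                    rw [zpow_neg, zpow_two, mul_inv_rev]
                  rw [this, mul_inv_rev, mul_inv_rev, mul_inv_rev, hxi, hyi]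
                  calc y * (x * y) = y * x * y * (x * x) := by rw [hx, mul_one]; group
                  _ = y * x * (y * x) * x := by group
                rcases hk with rfl | rfl
                · refine ⟨-1 - k, Or.inr ?_⟩
                  rw [e, mul_assoc, hinv, ← mul_assoc, ← zpow_add]
                  congr 2; ring
                · refine ⟨-1 - k, Or.inl ?_⟩
                  rw [e, mul_assoc, ← mul_assoc x, hinv, mul_assoc, hx, mul_one, ← zpow_add]
                  congr 1; ring
          obtain ⟨k, hk⟩ := hr (x * y) (hNt ▸ mem_top _)
          rcases hk with hk | hk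
          · have h0 : (x * y) ^ (2 * k - 1) = 1 := by
              rw [zpow_sub, ← hk, zpow_one, mul_inv_cancel]
            have hd : (orderOf (x * y) : ℤ) ∣ 2 * k - 1 := orderOf_dvd_iff_zpow_eq_one.2 h0
            by_contra heven
            rw [Nat.not_odd_iff_even] at heven
            have h2 : (2 : ℤ) ∣ 2 * k - 1 :=
              dvd_trans (Int.natCast_dvd_natCast.2 heven.two_dvd) hd
            omega
          · have hxz : x ∈ zpowers (x * y) := by
              have h4 := mul_mem (inv_mem (zpow_mem (mem_zpowers (x * y)) (2 * k)))
                (mem_zpowers (x * y))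
              have e4 : x = ((x * y) ^ (2 * k))⁻¹ * (x * y) := eq_inv_mul_iff_mul_eq.2 hk.symm
              rwa [← e4] at h4
            exfalso
            have hyz : y ∈ zpowers (x * y) := by
              simpa using mul_mem (inv_mem hxz) (mem_zpowers (x * y))
            have hzp : zpowers (x * y) = ⊤ :=
              eq_top_iff.2 (hp ▸ (closure_le _).2
                (Set.insert_subset hxz (Set.singleton_subset_iff.2 hyz)))
            have hcomm : ∀ a b : G, a * b = b * a := fun a b => by
              obtain ⟨i, rfl⟩ := mem_zpowers_iff.1 (hzp ▸ mem_top a)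
              obtain ⟨j, rfl⟩ := mem_zpowers_iff.1 (hzp ▸ mem_top b)
              rw [← zpow_add, ← zpow_add, add_comm]
            have hn : (zpowers x).Normal := ⟨fun a ha b => by
              rw [hcomm b a, mul_inv_cancel_right]; exact ha⟩
            exact hxt (top_le_iff.1 (hcl ▸ normalClosure_le_normal le_rfl))
      · obtain ⟨N, hN, hle⟩ := Zipper.exists_coatom_ge hp
        have hxN : zpowers x ≤ N := zpowers_le.2 (hle (subset_closure (Or.inl rfl)))
        rw [← huniq N ⟨hN, hxN⟩]
        exact hle (subset_closure (Or.inr rfl))
    refine hM.1 (eq_top_iff.2 ?_)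
    rw [← hcl]
    show normalClosure _ ≤ M
    rw [normalClosure, closure_le]
    intro a ha
    obtain ⟨b, hb, hab⟩ := Group.mem_conjugatesOfSet_iff.1 ha
    obtain ⟨i, rfl⟩ := mem_zpowers_iff.1 hb
    obtain ⟨c, rfl⟩ := isConj_iff.1 hab
    rw [← conj_zpow]
    exact zpow_mem (hpair c) i

/-- In a group normally generated by the involution `x`, every conjugate of `x` is reachable. -/
theorem reach_conjugate [Finite G] {x : G} (hx : x * x = 1)
    (hcl : normalClosure ((zpowers x : Subgroup G) : Set G) = ⊤) (g : G) :
    g * x * g⁻¹ ∈ Reach x := by
  have hg : g ∈ closure (Reach x) := closure_reach_eq_top G x hx hcl ▸ mem_top g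
  induction hg using Subgroup.closure_induction with
  | mem v hv =>
    -- `v` moves `x` to an element reachable from `v`
    have h1 : Relation.ReflTransGen (Step (G := G)) (v * x * v⁻¹) (v * v * v⁻¹) := reach_conj v hv
    rw [mul_inv_cancel_right] at h1
    exact hv.trans (reach_symm h1)
  | one => simpa [Reach] using Relation.ReflTransGen.refl
  | mul a b _ _ ha hb =>
    have h1 := reach_conj a hb
    have e : a * b * x * (a * b)⁻¹ = a * (b * x * b⁻¹) * a⁻¹ := by group
    rw [e]
    exact ha.trans h1
  | inv a _ ha =>
    have h1 := reach_conj a⁻¹ ha
    have e : a⁻¹ * (a * x * a⁻¹) * a⁻¹⁻¹ = x := by group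
    rw [e] at h1
    exact reach_symm h1

end Cfsg.Agent.H67.OddProductGraph
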