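import Mathlib
import Cfsg.Agent.H67.Embed2
import Cfsg.Agent.H2.MinIdx.Basic
import Cfsg.Agent.H18.SpecEight.Tori
import Cfsg.Prelude.Def_Classical

set_option autoImplicit false

/-!
# Elements of order 65 in some small groups over the fields with 8 and 64 elements
-/

namespace Cfsg.Agent.H67.Order65

open Matrix
open scoped MatrixGroups

variable {K : Type*} [Field K] [Fintype K]

theorem charP_two (k : ℕ) (hK : Fintype.card K = 2 ^ k) : CharP K 2 := by
  obtain ⟨p, hp⟩ := CharP.exists K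
  obtain ⟨a, hpp, ha⟩ := FiniteField.card K p
  have h2 : p ∣ 2 := hpp.dvd_of_dvd_pow (n := k) (by
    rw [← hK, ha]
    exact dvd_pow_self p a.ne_zero)
  obtain rfl := (Nat.prime_dvd_prime_iff_eq hpp Nat.prime_two).1 h2
  exact hp

/-- `SL₂(64)` has an element of order 65. -/
theorem exists_sl_two (hK : Fintype.card K = 64) : ∃ x : Matrix.SpecialLinearGroup (Fin 2) K, orderOf x = 65 := by
  classical
  have : CharP K 2 := charP_two 6 hK
  let L := FiniteField.Extension K 2 2
  have := Fintype.ofFinite L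
  obtain ⟨β, hβ, hn⟩ := H18.SpecEight.exists_norm_one (K := K) (L := L) (by
    rw [Nat.card_eq_fintype_card, Module.card_eq_pow_finrank (K := K) (V := L), FiniteField.finrank_extension K 2 2])
  let b := Module.finBasisOfFinrankEq K L (FiniteField.finrank_extension K 2 2)
  have hdet : (Algebra.leftMulMatrix b (β : L)).det = 1 := by rw [← Algebra.norm_eq_matrix_det b, hn]
  refine ⟨⟨_, hdet⟩, ?_⟩
  rw [← show orderOf β = 65 by rw [hβ, hK], ← orderOf_units,
    ← orderOf_injective (Algebra.leftMulMatrix b).toMonoidHom (Algebra.leftMulMatrix_injective b) (β : L),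
    ← orderOf_injective ((Units.coeHom _).comp Matrix.SpecialLinearGroup.toGL)
      (fun a c h => Subtype.ext h) (⟨_, hdet⟩ : Matrix.SpecialLinearGroup (Fin 2) K)]
  rfl

theorem center_sl_two [CharP K 2] : Subgroup.center (Matrix.SpecialLinearGroup (Fin 2) K) = ⊥ := by
  refine (Subgroup.eq_bot_iff_forall _).2 fun A hA => ?_
  obtain ⟨r, hr, hA'⟩ := Matrix.SpecialLinearGroup.mem_center_iff.1 hA
  rw [Fintype.card_fin] at hr
  have h1 : r = 1 := frobenius_inj K 2 (by simpa [frobenius_def] using hr)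
  exact Subtype.ext (by rw [← hA', h1]; simp)

/-- An embedded `SL₂(64)` gives an element of order 65 modulo the centre. -/
theorem quotient_center {G : Type*} [Group G] (hK : Fintype.card K = 64)
    (φ : Matrix.SpecialLinearGroup (Fin 2) K →* G) (hφ : Function.Injective φ) :
    ∃ y : G ⧸ Subgroup.center G, orderOf y = 65 := by
  have : CharP K 2 := charP_two 6 hK
  obtain ⟨x, hx⟩ := exists_sl_two hK
  refine ⟨QuotientGroup.mk' _ (φ x), ?_⟩
  rw [← hx]
  refine orderOf_eq_orderOf_iff.2 fun N => ⟨fun h => ?_, fun h => by rw [← map_pow, ← map_pow, h, map_one, map_one]⟩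
  rw [← map_pow, ← map_pow, QuotientGroup.mk'_apply, QuotientGroup.eq_one_iff] at h
  have hc : x ^ N ∈ Subgroup.center (Matrix.SpecialLinearGroup (Fin 2) K) :=
    Subgroup.mem_center_iff.2 fun s => hφ (by rw [map_mul, map_mul]; exact Subgroup.mem_center_iff.1 h (φ s))
  rwa [center_sl_two, Subgroup.mem_bot] at hc

/-- `SL₂` as `Sp₂`. -/
theorem exists_sl_to_sp : ∃ φ : Matrix.SpecialLinearGroup (Fin 2) K →* Matrix.symplecticGroup (Fin 1) K,
    Function.Injective φ := by
  let e : Fin 2 ≃ Fin 1 ⊕ Fin 1   := (finSumFinEquiv (m := 1) (n := 1)).symm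
  have hmem : ∀ A : Matrix.SpecialLinearGroup (Fin 2) K,
      Matrix.reindex e e (A : Matrix (Fin 2) (Fin 2) K) ∈ Matrix.symplecticGroup (Fin 1) K := by
    intro A
    have hd := A.2
    rw [Matrix.det_fin_two] at hd
    rw [SymplecticGroup.mem_iff]
    have e0 : (finSumFinEquiv : Fin 1 ⊕ Fin 1 ≃ Fin (1 + 1)) (Sum.inl 0) = (0 : Fin 2) := rfl
    have e1 : (finSumFinEquiv : Fin 1 ⊕ Fin 1 ≃ Fin (1 + 1)) (Sum.inr 0) = (1 : Fin 2) := rfl
    ext (i | i) (j | j) <;> fin_cases i <;> fin_cases j <;>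
      simp [e, e0, e1, Matrix.mul_apply, Matrix.J, Fintype.sum_sum_type] <;>
      first
      | ring1
      | linear_combination hd
      | linear_combination -hd
  refine ⟨MonoidHom.mk' (fun A => ⟨_, hmem A⟩) fun A B => Subtype.ext ?_, fun A B h => Subtype.ext ?_⟩
  · show Matrix.reindex e e ((A : Matrix (Fin 2) (Fin 2) K) * (B : Matrix (Fin 2) (Fin 2) K)) =
      Matrix.reindex e e (A : Matrix (Fin 2) (Fin 2) K) * Matrix.reindex e e (B : Matrix (Fin 2) (Fin 2) K)
    simp only [Matrix.reindex_apply, Matrix.submatrix_mul_equiv]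
  · exact (Matrix.reindex e e).injective (congrArg Subtype.val h)

/-- `SL₂(64)` inside `Sp₄(8)`. -/
theorem exists_sl_to_sp_four {F : Type*} [Field F] [Fintype F] (hK : Fintype.card K = 64) (hF : Fintype.card F = 8) :
    ∃ φ : Matrix.SpecialLinearGroup (Fin 2) K →* Matrix.symplecticGroup (Fin 2) F, Function.Injective φ := by
  obtain ⟨a, ha⟩ := exists_sl_to_sp (K := K)
  obtain ⟨b, hb⟩ := symplectic_field_extension (F := F) (K := K) (q := 8) (by rw [hK]; rfl) hF 1
  exact ⟨b.comp a, hb.comp ha⟩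

/-- `Sp₄` inside `SL₄`. -/
theorem exists_sp_to_sl {F : Type*} [Field F] :
    ∃ φ : Matrix.symplecticGroup (Fin 2) F →* Matrix.SpecialLinearGroup (Fin 4) F, Function.Injective φ := by
  let e : Fin 2 ⊕ Fin 2 ≃ Fin 4 := finSumFinEquiv
  refine ⟨MonoidHom.mk' (fun A => ⟨Matrix.reindex e e (A : Matrix (Fin 2 ⊕ Fin 2) (Fin 2 ⊕ Fin 2) F), by
      rw [Matrix.det_reindex_self]; exact SymplecticGroup.det_eq_one A.2⟩) fun A B => Subtype.ext ?_,
    fun A B h => Subtype.ext ?_⟩
  · show Matrix.reindex e e ((A : Matrix (Fin 2 ⊕ Fin 2) (Fin 2 ⊕ Fin 2) F) * B.1) =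
      Matrix.reindex e e A.1 * Matrix.reindex e e B.1
    simp only [Matrix.reindex_apply, Matrix.submatrix_mul_equiv]
  · exact (Matrix.reindex e e).injective (congrArg Subtype.val h)

/-- The Levi subgroup of a maximal totally singular subspace, on standard coordinates. -/
def levi (β : K) (M : Matrix (Fin 2) (Fin 2) K) : Matrix (Fin 4) (Fin 4) K :=
  !![1, 0, β, 0; 1, 0, β + 1, 0; 0, 1, 0, β; 0, 1, 0, β + 1] *
    !![M 0 0, M 0 1, 0, 0; M 1 0, M 1 1, 0, 0; 0, 0, M 1 1 ^ 8, M 1 0 ^ 8; 0, 0, M 0 1 ^ 8, M 0 0 ^ 8] *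
    !![β + 1, β, 0, 0; 0, 0, β + 1, β; 1, 1, 0, 0; 0, 0, 1, 1]

/-- `SL₂(64)` inside `SU₄(8)`. -/
theorem exists_sl_to_su (hK : Fintype.card K = 64) :
    ∃ φ : Matrix.SpecialLinearGroup (Fin 2) K →* Cfsg.SU 4 K 8, Function.Injective φ := by
  classical
  have : CharP K 2 := charP_two 6 hK
  have h2 : (2 : K) = 0 := CharTwo.two_eq_zero
  have hadd : ∀ x y : K, (x + y) ^ 8 = x ^ 8 + y ^ 8 := fun x y => add_pow_char_pow (p := 2) (n := 3) x y
  have h64 : ∀ x : K, x ^ 64 = x := fun x => by rw [← hK]; exact FiniteField.pow_card x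
  obtain ⟨β, hβ⟩ : ∃ β : K, β ^ 8 = β + 1 := by
    let f : K →+ K := AddMonoidHom.mk' (fun x => x ^ 8 + x) fun x y => by rw [hadd]; abel
    let R := Finset.univ.filter fun x : K => x ^ 8 + x = 0
    by_contra h
    push Not at h
    have hrange : ∀ x, (f x) ^ 8 = f x := fun x => by
      show (x ^ 8 + x) ^ 8 = x ^ 8 + x
      rw [hadd, ← pow_mul, h64, add_comm]
    have hker : (Finset.univ.filter fun x : K => f x = 0).card ≤ 8 := by
      have hp : ((Polynomial.X ^ 8 + Polynomial.X : Polynomial K)).natDegree = 8 := by compute_degree!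
      have hne : (Polynomial.X ^ 8 + Polynomial.X : Polynomial K) ≠ 0 := fun e => by simp [e] at hp
      refine (Finset.card_le_card (t := (Polynomial.X ^ 8 + Polynomial.X : Polynomial K).roots.toFinset)
        fun x hx => ?_).trans ((Multiset.toFinset_card_le _).trans ((Polynomial.card_roots' _).trans hp.le))
      rw [Multiset.mem_toFinset, Polynomial.mem_roots hne]
      simpa [f] using (Finset.mem_filter.1 hx).2
    have himg : (Finset.univ.image f).card ≤ 7 := by
      have hp : ((Polynomial.X ^ 8 + Polynomial.X : Polynomial K)).natDegree = 8 := by compute_degree!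
      have hne : (Polynomial.X ^ 8 + Polynomial.X : Polynomial K) ≠ 0 := fun e => by simp [e] at hp
      have hsub : insert 1 (Finset.univ.image f) ⊆ (Polynomial.X ^ 8 + Polynomial.X : Polynomial K).roots.toFinset := by
        intro y hy
        rw [Multiset.mem_toFinset, Polynomial.mem_roots hne]
        have : y ^ 8 = y := by
          rcases Finset.mem_insert.1 hy with rfl | hy
          · exact one_pow 8
          · obtain ⟨x, -, rfl⟩ := Finset.mem_image.1 hy
            exact hrange x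
        simp [this, CharTwo.add_self_eq_zero]
      have h1 : (1 : K) ∉ Finset.univ.image f := by
        simp only [Finset.mem_image, Finset.mem_univ, true_and, not_exists]
        intro x hx
        refine h x ?_
        have hx' : x ^ 8 + x = 1 := hx
        linear_combination hx' - x * h2
      have h8 := (Finset.card_le_card hsub).trans
        ((Multiset.toFinset_card_le _).trans ((Polynomial.card_roots' _).trans hp.le))
      rw [Finset.card_insert_of_notMem h1] at h8
      omega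
    have hc := Finset.card_le_mul_card_image (f := f) Finset.univ 8 (fun b hb => by
      obtain ⟨x₀, -, rfl⟩ := Finset.mem_image.1 hb
      refine le_trans (le_of_eq ?_) hker
      refine Finset.card_bij (fun x _ => x - x₀) (fun x hx => ?_) (fun a _ c _ e => sub_left_injective e)
        (fun y hy => ⟨y + x₀, ?_, add_sub_cancel_right y x₀⟩)
      · simp only [Finset.mem_filter, Finset.mem_univ, true_and] at hx ⊢
        rw [map_sub, hx, sub_self]
      · simp only [Finset.mem_filter, Finset.mem_univ, true_and] at hy ⊢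
        rw [map_add, hy, zero_add])
    rw [Finset.card_univ, hK] at hc
    omega
  have hββ : β ^ 64 = β := h64 β
  set P : Matrix (Fin 4) (Fin 4) K := !![1, 0, β, 0; 1, 0, β + 1, 0; 0, 1, 0, β; 0, 1, 0, β + 1]
  set Q : Matrix (Fin 4) (Fin 4) K := !![β + 1, β, 0, 0; 0, 0, β + 1, β; 1, 1, 0, 0; 0, 0, 1, 1]
  have hQP : Q * P = 1 := by
    ext i j
    fin_cases i <;> fin_cases j <;> simp [P, Q, Matrix.mul_apply, Fin.sum_univ_four] <;>
      first
      | ring1
      | linear_combination β * h2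
      | linear_combination (β * β + β) * h2
      | linear_combination h2
      | linear_combination (β + 1) * h2
  have hPQ : P * Q = 1 := mul_eq_one_comm.1 hQP
  let D : Matrix (Fin 2) (Fin 2) K → Matrix (Fin 4) (Fin 4) K := fun M =>
    !![M 0 0, M 0 1, 0, 0; M 1 0, M 1 1, 0, 0; 0, 0, M 1 1 ^ 8, M 1 0 ^ 8; 0, 0, M 0 1 ^ 8, M 0 0 ^ 8]
  have hlevi : ∀ M, levi β M = P * D M * Q := fun M => rfl
  have hmul : ∀ A B, levi β (A * B) = levi β A * levi β B := by
    intro A B
    have hD : D (A * B) = D A * D B := by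
      ext i j
      fin_cases i <;> fin_cases j <;>
        simp [D, Matrix.mul_apply, Fin.sum_univ_four, Fin.sum_univ_two, hadd, mul_pow] <;> ring
    calc levi β (A * B) = P * (D A * 1 * D B) * Q := by rw [hlevi, hD, mul_one]
      _ = _ := by rw [← hQP, hlevi, hlevi]; simp only [mul_assoc]
  have hdet : ∀ A : Matrix.SpecialLinearGroup (Fin 2) K, (levi β (A : Matrix (Fin 2) (Fin 2) K)).det = 1 := by
    intro A
    have hd := A.2
    rw [Matrix.det_fin_two] at hd
    have hD : (D A).det = 1 := by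
      have e : D A = Matrix.reindex finSumFinEquiv finSumFinEquiv (Matrix.fromBlocks (A : Matrix (Fin 2) (Fin 2) K) 0 0
          !![A 1 1 ^ 8, A 1 0 ^ 8; A 0 1 ^ 8, A 0 0 ^ 8]) := by
        ext i j
        fin_cases i <;> fin_cases j <;> rfl
      rw [e, Matrix.det_reindex_self, Matrix.det_fromBlocks_zero₁₂, A.2, one_mul, Matrix.det_fin_two]
      simp only [Matrix.of_apply, Matrix.cons_val', Matrix.cons_val_zero, Matrix.cons_val_one, Matrix.empty_val',
        Matrix.cons_val_fin_one]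
      rw [CharTwo.sub_eq_add, ← mul_pow, ← mul_pow, ← hadd]
      rw [CharTwo.sub_eq_add] at hd
      rw [show A 1 1 * A 0 0 + A 1 0 * A 0 1 = 1 by linear_combination hd, one_pow]
    rw [hlevi, Matrix.det_mul, Matrix.det_mul, hD, mul_one, ← Matrix.det_mul, hPQ, Matrix.det_one]
  let ψ : Matrix.SpecialLinearGroup (Fin 2) K →* Matrix.SpecialLinearGroup (Fin 4) K :=
    MonoidHom.mk' (fun A => ⟨levi β A, hdet A⟩) fun A B => Subtype.ext (hmul _ _)
  have hform : ∀ A, ψ A ∈ Cfsg.SU 4 K 8 := by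
    intro A u v
    have hd := A.2
    rw [Matrix.det_fin_two] at hd
    have hu : u = P *ᵥ (Q *ᵥ u) := by rw [Matrix.mulVec_mulVec, hPQ, Matrix.one_mulVec]
    have hv : v = P *ᵥ (Q *ᵥ v) := by rw [Matrix.mulVec_mulVec, hPQ, Matrix.one_mulVec]
    have hH : ∀ x y : Fin 4 → K, hermForm 4 K 8 (P *ᵥ x) (P *ᵥ y) =
        x 0 * y 2 ^ 8 + x 2 * y 0 ^ 8 + (x 1 * y 3 ^ 8 + x 3 * y 1 ^ 8) := by
      intro x y
      simp [P, hermForm, Matrix.mulVec, dotProduct, Fin.sum_univ_four, hadd, mul_pow, hβ]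
      linear_combination (x 0 * y 2 ^ 8 * β + x 2 * y 0 ^ 8 * β + x 1 * y 3 ^ 8 * β + x 3 * y 1 ^ 8 * β +
        x 0 * y 0 ^ 8 + x 1 * y 1 ^ 8 +
        (β * β + 2 * β + 1) * x 2 * y 2 ^ 8 + (β * β + 2 * β + 1) * x 3 * y 3 ^ 8 +
        x 0 * y 2 ^ 8 + x 1 * y 3 ^ 8) * h2
    have key : ∀ x, levi β A *ᵥ (P *ᵥ x) = P *ᵥ (D A *ᵥ x) := fun x => by
      rw [hlevi, Matrix.mulVec_mulVec, Matrix.mulVec_mulVec, mul_assoc, hQP, mul_one]
    show hermForm 4 K 8 (levi β A *ᵥ u) (levi β A *ᵥ v) = _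
    rw [hu, hv, key, key, hH, hH]
    set x := Q *ᵥ u
    set y := Q *ᵥ v
    rw [CharTwo.sub_eq_add] at hd
    have hd8 : A 0 0 ^ 8 * A 1 1 ^ 8 + A 0 1 ^ 8 * A 1 0 ^ 8 = 1 := by
      rw [← mul_pow, ← mul_pow, ← hadd, hd, one_pow]
    simp [D, Matrix.mulVec, dotProduct, Fin.sum_univ_four, hadd, mul_pow, ← pow_mul, h64]
    linear_combination (x 0 * y 2 ^ 8 + x 1 * y 3 ^ 8) * hd + (x 2 * y 0 ^ 8 + x 3 * y 1 ^ 8) * hd8 +
      (A 0 0 * A 1 0 * x 0 * y 3 ^ 8 + A 0 1 * A 1 1 * x 1 * y 2 ^ 8 + A 0 0 ^ 8 * A 1 0 ^ 8 * x 3 * y 0 ^ 8 +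
        A 0 1 ^ 8 * A 1 1 ^ 8 * x 2 * y 1 ^ 8) * h2
  refine ⟨ψ.codRestrict _ hform, fun A B h => Subtype.ext ?_⟩
  have h1 : levi β (A : Matrix (Fin 2) (Fin 2) K) = levi β (B : Matrix (Fin 2) (Fin 2) K) :=
    congrArg (fun g : Cfsg.SU 4 K 8 => ((g : Matrix.SpecialLinearGroup (Fin 4) K) : Matrix (Fin 4) (Fin 4) K)) h
  have hDD : D A = D B := by
    have := congrArg (fun M => Q * M * P) h1
    simp only [hlevi, mul_assoc, hQP, mul_one] at this
    simpa only [← mul_assoc, hQP, one_mul] using this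
  ext i j
  fin_cases i <;> fin_cases j
  · exact congrFun (congrFun hDD 0) 0
  · exact congrFun (congrFun hDD 0) 1
  · exact congrFun (congrFun hDD 1) 0
  · exact congrFun (congrFun hDD 1) 1

end Cfsg.Agent.H67.Order65
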