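import Cfsg.Agent.H67.ChevTorusFast
import Cfsg.Agent.H67.ChevTorusAdj

set_option autoImplicit false

/-!
# The cyclic torus of `E₇(q)`
-/

namespace Cfsg.Agent.H67.Chev

open Cfsg.Lie Cfsg.Agent.H46

/-- The table of the cyclic torus. -/
def torusE7 : TorusData chevE7 where
  L := ([4, 4, 0, 6, 2, 5, 1, 1, 2, 3, 4, 2, 0, 3, 2, 1, 4, 0, 0, 2, 6, 6, 5, 4, 2, 3, 2, 2, 2] : List (Fin 7))
  α₀ := 4
  h := 12
  c := [1, 0, -1, 1, 1, -1, 0]
  B := [[0, 0, 0, 2, 0, 0, 2], [-1, -1, 0, 1, 0, 1, 1], [0, -2, 0, 4, -2, 0, 4], [0, -4, 0, 6, -2, 0, 4],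
    [-1, -3, 2, 3, -2, 1, 3], [-2, -2, 2, 2, -2, 0, 2], [-1, -1, 2, 1, -2, 1, 1]]
  d := 2

theorem torusE7_ok : TorusOk goodE7 torusE7 :=
  TorusOk.of_fast (by decide +kernel) rfl rfl (by decide +kernel) (by decide +kernel) (by decide +kernel)
    (by decide +kernel) (by decide +kernel) (by decide +kernel) (by decide +kernel)

theorem torusE7_adjOk : AdjOk goodE8 torusE7 where
  prime := Nat.prime_two
  hdiv := by decide +kernel
  hrot := by decide +kernel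
  turn := by decide +kernel
  last := by decide +kernel
  hv := by decide +kernel
  ker := ⟨[[4, 4, 6, 8, 6, 4, 2], [4, 7, 8, 12, 9, 6, 3], [6, 8, 12, 16, 12, 8, 4], [8, 12, 16, 24, 18, 12, 6],
    [6, 9, 12, 18, 15, 10, 5], [4, 6, 8, 12, 10, 8, 4], [2, 3, 4, 6, 5, 4, 3]], by decide +kernel⟩
  res := by decide +kernel
  reg := by decide +kernel
  free := by decide +kernel

end Cfsg.Agent.H67.Chev
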